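import Cfsg.Agent.H11.D2a
import Cfsg.Prelude.Def_Local

/-! Piece D2 for S3330. -/

set_option autoImplicit false
set_option linter.unusedSectionVars false
set_option linter.unusedVariables false

namespace H11.D2

open Subgroup Equiv H3S

variable {G : Type*} [Group G] [Finite G] {σ t : G} {θ : A5 × A5 →* G}

theorem ht (h : H2 θ t σ) (a b : A5) : t * θ (a, b) = θ (τ a, τ b) * t := by
  rw [← h.ta a b, mul_assoc, h.tt, mul_one]

theorem hs (h : H2 θ t σ) (a b : A5) : σ * θ (a, b) = θ (b, a) * σ := by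
  rw [← h.sa a b, mul_assoc, h.ss, mul_one]

theorem mm (a b c d : A5) : θ (a, b) * θ (c, d) = θ (a * c, b * d) := by
  rw [← map_mul]; rfl

theorem c1 (a b c d : A5) : θ (a, b) * θ (c, d) * (θ (a, b))⁻¹ = θ (a * c * a⁻¹, b * d * b⁻¹) := by
  rw [← map_mul, ← map_inv, ← map_mul]; rfl

theorem c2 (h : H2 θ t σ) (a b c d : A5) : θ (a, b) * t * θ (c, d) * (θ (a, b) * t)⁻¹ =
    θ (a * τ c * a⁻¹, b * τ d * b⁻¹) := by
  rw [← c1, mul_assoc _ t, ht h]; group

theorem c3 (h : H2 θ t σ) (a b c d : A5) : θ (a, b) * σ * θ (c, d) * (θ (a, b) * σ)⁻¹ =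
    θ (a * d * a⁻¹, b * c * b⁻¹) := by
  rw [← c1, mul_assoc _ σ, hs h]; group

theorem c4 (h : H2 θ t σ) (a b c d : A5) :
    θ (a, b) * t * σ * θ (c, d) * (θ (a, b) * t * σ)⁻¹ =
    θ (a * τ d * a⁻¹, b * τ c * b⁻¹) := by
  rw [← c2 h, mul_assoc _ σ, hs h]; group

theorem t_out (h : H2 θ t σ) (a b : A5) : t ≠ θ (a, b) := by
  intro e
  have k : ∀ x, a * x * a⁻¹ = τ x := fun x => by
    have h1 := c2 h 1 1 x 1
    rw [show ((1 : A5), (1 : A5)) = 1 from rfl, map_one, one_mul, e, c1] at h1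
    simpa using congrArg Prod.fst (h.inj h1)
  refine outer_aux a ?_ ?_ (Perm.mem_alternatingGroup.1 a.2)
  · have := k c5; rw [τc] at this; exact congrArg Subtype.val this
  · have := k f5; rw [τf] at this; exact congrArg Subtype.val this

theorem s_out (h : H2 θ t σ) (a b : A5) : σ ≠ θ (a, b) ∧ σ ≠ θ (a, b) * t := by
  have h1 := c3 h 1 1 c5 1
  rw [show ((1 : A5), (1 : A5)) = 1 from rfl, map_one, one_mul] at h1
  constructor
  · intro e
    rw [e, c1] at h1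
    have := congrArg Prod.snd (h.inj h1)
    simp at this
    exact absurd this (by decide)
  · intro e
    rw [e, c2 h] at h1
    have := congrArg Prod.snd (h.inj h1)
    simp at this
    exact absurd this (by decide)

theorem exTS (h : H2 θ t σ) (B : Subgroup A5) (hB : ∀ a ∈ B, τ a ∈ B) :
    ∃ T S : Subgroup G, (∀ g, g ∈ T ↔ ∃ a ∈ B, ∃ b ∈ B, g = θ (a, b) ∨ g = θ (a, b) * t) ∧
      (∀ g, g ∈ S ↔ ∃ a ∈ B, ∃ b ∈ B, g = θ (a, b) ∨ g = θ (a, b) * t ∨ g = θ (a, b) * σ ∨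
        g = θ (a, b) * t * σ) ∧ Nat.card T = 2 * (Nat.card B * Nat.card B) ∧
        Nat.card S = 4 * (Nat.card B * Nat.card B) := by
  have hX : ∀ g, g ∈ (B.prod B).map θ ↔ ∃ a ∈ B, ∃ b ∈ B, g = θ (a, b) := fun g =>
    ⟨fun ⟨m, hm, e⟩ => ⟨m.1, hm.1, m.2, hm.2, e.symm⟩,
      fun ⟨a, ha, b, hb, e⟩ => ⟨(a, b), ⟨ha, hb⟩, e.symm⟩⟩
  have cX : Nat.card ((B.prod B).map θ) = Nat.card B * Nat.card B := by
    rw [card_map_of_injective h.inj, Nat.card_congr (prodEquiv B B).toEquiv, Nat.card_prod]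
  have rt : ∀ {g y x : G}, x * x = 1 → (g * x = y ↔ g = y * x) := fun {g y x} xx =>
    ⟨fun e => by rw [← e, mul_assoc, xx, mul_one], fun e => by rw [e, mul_assoc, xx, mul_one]⟩
  obtain ⟨T, hT, cT⟩ := ext2 ((B.prod B).map θ) t h.tt
    (fun hh => by obtain ⟨a, -, b, -, e⟩ := (hX _).1 hh; exact t_out h a b e)
    (fun y hy => by
      obtain ⟨a, ha, b, hb, rfl⟩ := (hX _).1 hy
      exact (hX _).2 ⟨_, hB a ha, _, hB b hb, h.ta a b⟩)
  have hT' : ∀ g, g ∈ T ↔ ∃ a ∈ B, ∃ b ∈ B, g = θ (a, b) ∨ g = θ (a, b) * t := fun g => by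
    rw [hT, hX, hX]
    simp only [rt h.tt]
    constructor
    · rintro (⟨a, ha, b, hb, e⟩ | ⟨a, ha, b, hb, e⟩)
      exacts [⟨a, ha, b, hb, Or.inl e⟩, ⟨a, ha, b, hb, Or.inr e⟩]
    · rintro ⟨a, ha, b, hb, e | e⟩
      exacts [Or.inl ⟨a, ha, b, hb, e⟩, Or.inr ⟨a, ha, b, hb, e⟩]
  obtain ⟨S, hS, cS⟩ := ext2 T σ h.ss
    (fun hh => by
      obtain ⟨a, -, b, -, e | e⟩ := (hT' _).1 hh
      exacts [(s_out h a b).1 e, (s_out h a b).2 e])
    (fun y hy => by
      obtain ⟨a, ha, b, hb, rfl | rfl⟩ := (hT' _).1 hy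
      · exact (hT' _).2 ⟨b, hb, a, ha, Or.inl (h.sa a b)⟩
      · refine (hT' _).2 ⟨b, hb, a, ha, Or.inr ?_⟩
        rw [← h.sa a b, mul_assoc, mul_assoc, h.ts]; group)
  refine ⟨T, S, hT', fun g => ?_, by rw [cT, cX], by rw [cS, cT, cX]; ring⟩
  rw [hS, hT', hT']
  simp only [rt h.ss]
  constructor
  · rintro (⟨a, ha, b, hb, e | e⟩ | ⟨a, ha, b, hb, e | e⟩) <;> exact ⟨a, ha, b, hb, by simp [e]⟩
  · rintro ⟨a, ha, b, hb, e | e | e | e⟩
    exacts [Or.inl ⟨a, ha, b, hb, Or.inl e⟩, Or.inl ⟨a, ha, b, hb, Or.inr e⟩,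
      Or.inr ⟨a, ha, b, hb, Or.inl e⟩, Or.inr ⟨a, ha, b, hb, Or.inr e⟩]

theorem ctB (h : H2 θ t σ) {g : G} (hg : g * t = t * g) : ∃ a ∈ B3, ∃ b ∈ B3,
    g = θ (a, b) ∨ g = θ (a, b) * t ∨ g = θ (a, b) * σ ∨ g = θ (a, b) * t * σ := by
  obtain ⟨⟨a, b⟩, hm⟩ := h.ct g hg
  have k : θ (a, b) * t = t * θ (a, b) := by
    rcases hm with rfl | rfl | rfl | rfl
    · exact hg
    · rw [← mul_assoc] at hg; exact mul_right_cancel hg
    · rw [← mul_assoc, mul_assoc _ σ, ← h.ts, ← mul_assoc] at hg; exact mul_right_cancel hg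
    · rw [← mul_assoc, ← mul_assoc, mul_assoc _ σ, ← h.ts, ← mul_assoc] at hg
      exact mul_right_cancel (mul_right_cancel hg)
  rw [ht h] at k
  have := h.inj (mul_right_cancel k)
  exact ⟨a, memB.2 (congrArg Prod.fst this).symm, b, memB.2 (congrArg Prod.snd this).symm, hm⟩

theorem cardconj (g x : G) : Nat.card (centralizer ({g * x * g⁻¹} : Set G)) =
    Nat.card (centralizer ({x} : Set G)) := by
  have : centralizer ({g * x * g⁻¹} : Set G) =
      (centralizer ({x} : Set G)).map (MulAut.conj g).toMonoidHom := by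
    ext y
    rw [mem_map_equiv, mem_centralizer_singleton_iff, mem_centralizer_singleton_iff]
    simp only [MulAut.conj_symm_apply]
    constructor
    · intro e
      calc g⁻¹ * y * g * x = g⁻¹ * (y * (g * x * g⁻¹)) * g := by group
        _ = _ := by rw [e]; group
    · intro e
      calc y * (g * x * g⁻¹) = g * (g⁻¹ * y * g * x) * g⁻¹ := by group
        _ = _ := by rw [e]; group
  rw [this, card_map_of_injective (MulAut.conj g).injective]

theorem c144 (h : H2 θ t σ) (g : G) :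
    Nat.card (centralizer ({g * t * g⁻¹} : Set G)) ∣ 144 := by
  obtain ⟨T, S, -, hS, -, cS⟩ := exTS h B3 (fun a ha => by rw [memB.1 ha]; exact ha)
  rw [cardB] at cS
  rw [cardconj, show 144 = 4 * (6 * 6) from rfl, ← cS]
  exact card_dvd_of_le fun y hy => (hS y).2 (ctB h (mem_centralizer_singleton_iff.1 hy))

theorem no5 (h : H2 θ t σ) {g x : G} (e : g * t * g⁻¹ = x) (p q : A5)
    (hp : orderOf (p, q) = 5) (hc : x * θ (p, q) * x⁻¹ = θ (p, q)) : False := by
  have h1 := c144 h g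
  rw [e] at h1
  have h2 : θ (p, q) ∈ centralizer ({x} : Set G) :=
    mem_centralizer_singleton_iff.2 (by rw [← mul_inv_eq_iff_eq_mul.1 hc])
  have h3 := orderOf_dvd_natCard (⟨_, h2⟩ : centralizer ({x} : Set G))
  rw [orderOf_mk, orderOf_injective θ h.inj, hp] at h3
  exact absurd (h3.trans h1) (by norm_num)

theorem o5 (p q : A5) (hp : p ^ 5 = 1) (hq : q ^ 5 = 1) (hne : p ≠ 1 ∨ q ≠ 1) :
    orderOf (p, q) = 5 := by
  have : Fact (Nat.Prime 5) := ⟨by norm_num⟩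
  refine orderOf_eq_prime (by simp [hp, hq]) ?_
  intro e
  rcases hne with h | h
  exacts [h (congrArg Prod.fst e), h (congrArg Prod.snd e)]

theorem d2 (h : H2 θ t σ) : ¬ IsConj (θ (1, e5)) (θ (e5, e5)) ∧ ¬ 128 ∣ Nat.card G := by
  have : Fact (Nat.Prime 2) := ⟨by norm_num⟩
  obtain ⟨T, S, hT, hS, cT, cS⟩ := exTS h V4 (fun a ha => τV ha)
  rw [cardV] at cT cS
  have w55 : w5 ^ 5 = 1 := by decide
  have w1 : w5 ≠ 1 := by decide
  have hTS : T ≤ S := fun g hg => by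
    obtain ⟨a, ha, b, hb, e | e⟩ := (hT g).1 hg <;> exact (hS g).2 ⟨a, ha, b, hb, by simp [e]⟩
  have Sd : S ≤ centralizer ({θ (e5, e5)} : Set G) := fun g hg => by
    rw [mem_centralizer_singleton_iff, ← mul_inv_eq_iff_eq_mul]
    obtain ⟨a, ha, b, hb, rfl | rfl | rfl | rfl⟩ := (hS g).1 hg <;>
      simp only [c1, c2 h, c3 h, c4 h, τe, Ve ha, Ve hb, mul_inv_cancel_right]
  have Tr : T ≤ centralizer ({θ (1, e5)} : Set G) := fun g hg => by
    rw [mem_centralizer_singleton_iff, ← mul_inv_eq_iff_eq_mul]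
    obtain ⟨a, ha, b, hb, rfl | rfl⟩ := (hT g).1 hg <;>
      simp only [c1, c2 h, τe, Ve hb, mul_inv_cancel_right, map_one, mul_one, mul_inv_cancel]
  have d64 : 64 ∣ Nat.card (centralizer ({θ (e5, e5)} : Set G)) := by
    have := card_dvd_of_le Sd; rwa [cS] at this
  -- conjugates of t in S
  have key : ∀ g, g * t * g⁻¹ ∈ S → ∃ a ∈ V4, ∃ b ∈ V4,
      g * t * g⁻¹ = θ (a, b) * t * (θ (a, b))⁻¹ := by
    intro g hg
    have sq : g * t * g⁻¹ * (g * t * g⁻¹) = 1 := by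
      calc _ = g * (t * t) * g⁻¹ := by group
        _ = 1 := by rw [h.tt]; group
    obtain ⟨a, ha, b, hb, e | e | e | e⟩ := (hS _).1 hg
    · exfalso
      by_cases a1 : a = 1
      · exact no5 h e w5 1 (o5 _ _ w55 (by simp) (Or.inl w1)) (by rw [c1, a1]; simp)
      by_cases b1 : b = 1
      · exact no5 h e 1 w5 (o5 _ _ (by simp) w55 (Or.inr w1)) (by rw [c1, b1]; simp)
      obtain ⟨k, rfl⟩ := conjE ha a1
      obtain ⟨l, rfl⟩ := conjE hb b1
      have h1 := c144 h g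
      rw [e, ← c1, cardconj] at h1
      exact absurd (d64.trans h1) (by norm_num)
    · rw [e, mul_assoc, ← mul_assoc t, ht h, mul_assoc, h.tt, mul_one, mm, ← map_one θ] at sq
      have := h.inj sq
      obtain ⟨k, hk, rfl⟩ := comE ha (congrArg Prod.fst this)
      obtain ⟨l, hl, rfl⟩ := comE hb (congrArg Prod.snd this)
      refine ⟨k, hk, l, hl, ?_⟩
      rw [e, ← map_inv θ, mul_assoc, Prod.inv_mk, ht h, ← mul_assoc, mm, map_inv, map_inv]
    · exfalso
      rw [e, mul_assoc, ← mul_assoc σ, hs h, mul_assoc, h.ss, mul_one, mm, ← map_one θ] at sq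
      have h1 : b * a = 1 := congrArg Prod.snd (h.inj sq)
      refine no5 h e (a * w5 * a⁻¹) w5 (o5 _ _ (by rw [conj_pow, w55]; simp) w55 (Or.inr w1)) ?_
      rw [c3 h, show b * (a * w5 * a⁻¹) * b⁻¹ = (b * a) * w5 * (b * a)⁻¹ by group, h1]; simp
    · exfalso
      have e2 : θ (a, b) * t * σ * (θ (a, b) * t * σ) = θ (a * τ b, b * τ a) := by
        calc _ = θ (a, b) * (t * (σ * θ (a, b))) * (t * σ) := by group
          _ = θ (a, b) * θ (τ b, τ a) * (t * (σ * t) * σ) := by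
            rw [hs h, ← mul_assoc t, ht h]; group
          _ = _ := by rw [mm, ← h.ts, ← mul_assoc t, h.tt, one_mul, h.ss, mul_one]
      rw [e, e2, ← map_one θ] at sq
      have h1 : b * τ a = 1 := congrArg Prod.snd (h.inj sq)
      refine no5 h e (a * τ w5 * a⁻¹) w5
        (o5 _ _ (by rw [conj_pow, ← map_pow, w55]; simp) w55 (Or.inr w1)) ?_
      rw [c4 h, map_mul, map_mul, ττ, map_inv,
        show b * (τ a * w5 * (τ a)⁻¹) * b⁻¹ = (b * τ a) * w5 * (b * τ a)⁻¹ by group, h1]; simp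
  have hf : f5 ∈ V4 := memV.2 (by simp)
  have SM : ∀ a b, θ (a, b) ∈ S → a ∈ V4 ∧ b ∈ V4 := by
    intro a b hab
    obtain ⟨c, hc, d, hd, e | e | e | e⟩ := (hS _).1 hab
    · obtain ⟨rfl, rfl⟩ := Prod.mk.inj (h.inj e); exact ⟨hc, hd⟩
    · exact absurd (by rw [← mm, e, ← Prod.inv_mk, map_inv]; group) (t_out h (c⁻¹ * a) (d⁻¹ * b))
    · exact absurd (by rw [← mm, e, ← Prod.inv_mk, map_inv]; group)
        (s_out h (c⁻¹ * a) (d⁻¹ * b)).1
    · refine absurd ?_ (s_out h (τ (c⁻¹ * a)) (τ (d⁻¹ * b))).2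
      rw [← ht h, ← mm, e, ← Prod.inv_mk, map_inv]
      calc σ = t * t * σ := by rw [h.tt, one_mul]
        _ = _ := by group
  have norm : ∀ n, n * t * n⁻¹ ∈ S → n * θ (f5, f5) * n⁻¹ ∈ S → n ∈ S := by
    intro n h1 h2
    obtain ⟨k, hk, l, hl, e⟩ := key n h1
    have hu : θ (k, l) ∈ S := (hS _).2 ⟨k, hk, l, hl, Or.inl rfl⟩
    have hc : (θ (k, l))⁻¹ * n * t = t * ((θ (k, l))⁻¹ * n) := by
      calc _ = (θ (k, l))⁻¹ * (n * t * n⁻¹) * n := by group
        _ = _ := by rw [e]; group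
    have h3 : (θ (k, l))⁻¹ * n * θ (f5, f5) * ((θ (k, l))⁻¹ * n)⁻¹ ∈ S := by
      have := S.mul_mem (S.mul_mem (S.inv_mem hu) h2) hu
      convert this using 1; group
    have h4 : (θ (k, l))⁻¹ * n ∈ S := by
      obtain ⟨a, ha, b, hb, e | e | e | e⟩ := ctB h hc <;> rw [e] at h3 ⊢ <;>
        simp only [c1, c2 h, c3 h, c4 h, τf] at h3 <;>
        exact (hS _).2 ⟨a, BV ha (by simp) (SM _ _ h3).1, b, BV hb (by simp) (SM _ _ h3).2, by simp⟩
    simpa using S.mul_mem hu h4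
  have tT : t ∈ T := (hT _).2 ⟨1, one_mem _, 1, one_mem _, Or.inr (by
    rw [show ((1 : A5), (1 : A5)) = 1 from rfl, map_one, one_mul])⟩
  have fT : θ (f5, f5) ∈ T := (hT _).2 ⟨_, hf, _, hf, Or.inl rfl⟩
  constructor
  · intro hc
    obtain ⟨g, hg⟩ := isConj_iff.1 hc
    rw [← hg, cardconj] at d64
    set K := centralizer ({θ (1, e5)} : Set G) with hK
    have c32 : Nat.card (T.subgroupOf K) = 2 ^ 5 := by
      rw [Nat.card_congr (subgroupOfEquivOfLe Tr).toEquiv, cT]; norm_num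
    have h1 := Sylow.prime_pow_dvd_card_normalizer (p := 2) (n := 5) (G := K) d64 c32
    have h2 : normalizer ((T.subgroupOf K : Subgroup K) : Set K) ≤ T.subgroupOf K := by
      intro n hn
      have k : ∀ y ∈ T, (n : G) * y * (n : G)⁻¹ ∈ T := fun y hy =>
        (mem_normalizer_iff.1 hn ⟨y, Tr hy⟩).1 hy
      have hnS := norm n (hTS (k t tT)) (hTS (k _ fT))
      have hr : (n : G) * θ (1, e5) * (n : G)⁻¹ = θ (1, e5) :=
        mul_inv_eq_iff_eq_mul.2 (mem_centralizer_singleton_iff.1 n.2)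
      rw [mem_subgroupOf]
      obtain ⟨a, ha, b, hb, e | e | e | e⟩ := (hS _).1 hnS
      · exact (hT _).2 ⟨a, ha, b, hb, Or.inl e⟩
      · exact (hT _).2 ⟨a, ha, b, hb, Or.inr e⟩
      · rw [e, c3 h] at hr
        have := congrArg Prod.snd (h.inj hr)
        simp at this
        exact absurd this (by decide)
      · rw [e, c4 h] at hr
        have := congrArg Prod.snd (h.inj hr)
        simp at this
        exact absurd this (by decide)
    have := h1.trans (card_dvd_of_le h2)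
    rw [c32] at this
    norm_num at this
  · intro h128
    have c64 : Nat.card S = 2 ^ 6 := by rw [cS]; norm_num
    have h1 := Sylow.prime_pow_dvd_card_normalizer (p := 2) (n := 6) (G := G) h128 c64
    have h2 : normalizer (S : Set G) ≤ S := fun n hn =>
      norm n ((mem_normalizer_iff.1 hn _).1 (hTS tT)) ((mem_normalizer_iff.1 hn _).1 (hTS fT))
    have := h1.trans (card_dvd_of_le h2)
    rw [c64] at this
    norm_num at this

end H11.D2
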