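import Cfsg.Agent.H3.S8h

/-! Piece D2 for S3330: auxiliary facts. -/

set_option autoImplicit false
set_option linter.unusedSectionVars false
set_option linter.unusedVariables false

namespace H11.D2

open Subgroup Equiv H3S

variable {G : Type*} [Group G] [Finite G] {σ t : G} {θ : A5 × A5 →* G}

theorem ext2 (X : Subgroup G) (x : G) (xx : x * x = 1) (hx : x ∉ X)
    (hn : ∀ y ∈ X, x * y * x ∈ X) :
    ∃ Y : Subgroup G, (∀ g, g ∈ Y ↔ g ∈ X ∨ g * x ∈ X) ∧ Nat.card Y = 2 * Nat.card X := by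
  have xi : x⁻¹ = x := inv_eq_of_mul_eq_one_right xx
  have xx' : ∀ g : G, x * (x * g) = g := fun g => by rw [← mul_assoc, xx, one_mul]
  let Y : Subgroup G :=
    { carrier := {g | g ∈ X ∨ g * x ∈ X}
      one_mem' := Or.inl X.one_mem
      mul_mem' := by
        rintro g h (hg | hg) (hh | hh)
        · exact Or.inl (X.mul_mem hg hh)
        · exact Or.inr (by rw [mul_assoc]; exact X.mul_mem hg hh)
        · refine Or.inr ?_
          have := X.mul_mem hg (hn h hh)
          simpa [mul_assoc, xx'] using this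
        · refine Or.inl ?_
          have := X.mul_mem hg (hn _ hh)
          simpa [mul_assoc, xx', xx] using this
      inv_mem' := by
        rintro g (hg | hg)
        · exact Or.inl (X.inv_mem hg)
        · refine Or.inr ?_
          have := hn _ (X.inv_mem hg)
          simpa [mul_assoc, xi, xx'] using this }
  have hle : X ≤ Y := fun g hg => Or.inl hg
  have hxY : x ∈ Y := Or.inr (by rw [xx]; exact X.one_mem)
  refine ⟨Y, fun g => Iff.rfl, ?_⟩
  have hi : (X.subgroupOf Y).index = 2 := by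
    rw [index_eq_two_iff]
    refine ⟨⟨x, hxY⟩, fun b => ?_⟩
    simp only [mem_subgroupOf, coe_mul]
    have hne : ¬ ((b : G) * x ∈ X ∧ (b : G) ∈ X) := fun h =>
      hx (by simpa using X.mul_mem (X.inv_mem h.2) h.1)
    rcases b.2 with h | h
    · exact Or.inr ⟨h, fun h' => hne ⟨h', h⟩⟩
    · exact Or.inl ⟨h, fun h' => hne ⟨h, h'⟩⟩
  rw [← card_mul_index (X.subgroupOf Y), hi, Nat.card_congr (subgroupOfEquivOfLe hle).toEquiv,
    mul_comm]

theorem ττ (a : A5) : τ (τ a) = a := by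
  apply Subtype.ext
  simp [τ, MulAut.conjNormal_apply, mul_assoc]

theorem τv (a : A5) : ((τ a : A5) : Perm (Fin 5)) = swap 3 4 * (a : Perm (Fin 5)) * swap 3 4 := by
  simp [τ, MulAut.conjNormal_apply]

theorem τe : τ e5 = e5 := Subtype.ext (by rw [τv]; decide)
theorem τc : τ c5 = c5 := Subtype.ext (by rw [τv]; decide)
theorem τf : τ f5 = e5 * f5 := Subtype.ext (by rw [τv]; decide)
theorem τef : τ (e5 * f5) = f5 := by rw [← τf, ττ]

theorem memV {a : A5} : a ∈ V4 ↔ a = 1 ∨ a = e5 ∨ a = f5 ∨ a = e5 * f5 := by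
  constructor
  · intro h
    induction h using closure_induction with
    | mem x hx => rcases hx with rfl | rfl <;> simp
    | one => simp
    | mul x y _ _ hx hy =>
      rcases hx with rfl | rfl | rfl | rfl <;> rcases hy with rfl | rfl | rfl | rfl <;> decide
    | inv x _ hx => rcases hx with rfl | rfl | rfl | rfl <;> decide
  · have he : e5 ∈ V4 := subset_closure (by simp)
    have hf : f5 ∈ V4 := subset_closure (by simp)
    rintro (rfl | rfl | rfl | rfl)
    exacts [one_mem _, he, hf, mul_mem he hf]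

theorem cardV : Nat.card V4 = 4 := by
  have : (V4 : Set A5) = ({1, e5, f5, e5 * f5} : Finset A5) := by
    ext a; simp [memV]
  rw [← SetLike.coe_sort_coe, this]
  simp only [Finset.coe_sort_coe, Nat.card_eq_fintype_card, Fintype.card_coe]
  decide

def B3 : Subgroup A5 := MonoidHom.eqLocus τ.toMonoidHom (MonoidHom.id A5)

theorem memB {a : A5} : a ∈ B3 ↔ τ a = a := Iff.rfl

theorem b3aux : ∀ a : Perm (Fin 5), swap 3 4 * a * swap 3 4 = a → Perm.sign a = 1 →
    a = 1 ∨ a = c5.1 ∨ a = c5.1 * c5.1 ∨ a = e5.1 ∨ a = c5.1 * e5.1 ∨ a = e5.1 * c5.1 := by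
  decide +kernel

theorem memB' {a : A5} : a ∈ B3 ↔
    a = 1 ∨ a = c5 ∨ a = c5 * c5 ∨ a = e5 ∨ a = c5 * e5 ∨ a = e5 * c5 := by
  constructor
  · intro h
    have h1 := congrArg Subtype.val (memB.1 h)
    rw [τv] at h1
    rcases b3aux a h1 (Perm.mem_alternatingGroup.1 a.2) with e | e | e | e | e | e
    · exact Or.inl (Subtype.ext e)
    · exact Or.inr (Or.inl (Subtype.ext e))
    · exact Or.inr (Or.inr (Or.inl (Subtype.ext e)))
    · exact Or.inr (Or.inr (Or.inr (Or.inl (Subtype.ext e))))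
    · exact Or.inr (Or.inr (Or.inr (Or.inr (Or.inl (Subtype.ext e)))))
    · exact Or.inr (Or.inr (Or.inr (Or.inr (Or.inr (Subtype.ext e)))))
  · rintro (rfl | rfl | rfl | rfl | rfl | rfl) <;> simp [memB, τe, τc]

theorem cardB : Nat.card B3 = 6 := by
  have : (B3 : Set A5) = ({1, c5, c5 * c5, e5, c5 * e5, e5 * c5} : Finset A5) := by
    ext a; simp [memB']
  rw [← SetLike.coe_sort_coe, this]
  simp only [Finset.coe_sort_coe, Nat.card_eq_fintype_card, Fintype.card_coe]
  decide

theorem BV {a x : A5} (ha : a ∈ B3) (hx : x = f5 ∨ x = e5 * f5) (h : a * x * a⁻¹ ∈ V4) :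
    a ∈ V4 := by
  rw [memV] at h ⊢
  rcases memB'.1 ha with rfl | rfl | rfl | rfl | rfl | rfl <;> rcases hx with rfl | rfl <;>
    revert h <;> decide

def w5 : A5 := ⟨swap 0 1 * swap 1 2 * swap 2 3 * swap 3 4, by rw [Perm.mem_alternatingGroup]; decide⟩

theorem w5o : orderOf w5 = 5 := by
  have : Fact (Nat.Prime 5) := ⟨by norm_num⟩
  exact orderOf_eq_prime (by decide) (by decide)

theorem outer_aux : ∀ a : Perm (Fin 5), a * c5.1 * a⁻¹ = c5.1 → a * f5.1 * a⁻¹ = e5.1 * f5.1 →
    Perm.sign a ≠ 1 := by decide +kernel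

theorem conjE {a : A5} (ha : a ∈ V4) (h1 : a ≠ 1) : ∃ k : A5, k * e5 * k⁻¹ = a := by
  let k : A5 := ⟨swap 1 3 * swap 3 4, by rw [Perm.mem_alternatingGroup]; decide⟩
  rcases memV.1 ha with rfl | rfl | rfl | rfl
  · exact absurd rfl h1
  · exact ⟨1, by simp⟩
  · first | exact ⟨k, by decide⟩ | exact ⟨k⁻¹, by decide⟩
  · first | exact ⟨k, by decide⟩ | exact ⟨k⁻¹, by decide⟩

theorem comE {a : A5} (ha : a ∈ V4) (h : a * τ a = 1) : ∃ k ∈ V4, k * (τ k)⁻¹ = a := by
  rcases memV.1 ha with rfl | rfl | rfl | rfl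
  · exact ⟨1, one_mem _, by simp⟩
  · exact ⟨f5, memV.2 (by simp), by rw [τf]; decide⟩
  · rw [τf] at h; exact absurd h (by decide)
  · rw [τef] at h; exact absurd h (by decide)

theorem Ve {a : A5} (ha : a ∈ V4) : a * e5 = e5 * a := by
  rcases memV.1 ha with rfl | rfl | rfl | rfl <;> decide

theorem τV {a : A5} (ha : a ∈ V4) : τ a ∈ V4 := by
  rcases memV.1 ha with rfl | rfl | rfl | rfl <;> simp [τe, τf, τef, memV]

end H11.D2
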