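import Cfsg.Agent.H11.ZStar
import Cfsg.Prelude.Def_DStar

/-! The Glauberman–Solomon subgroup `D*(P)`, for subgroups of an ambient group. -/

set_option autoImplicit false
set_option linter.unusedSectionVars false

namespace H16.H11

open Subgroup Cfsg H1 H15
open scoped commutatorElement

variable {G : Type*} [Group G] {p : ℕ} {A B D P Q : Subgroup G} {g x : G}

/-- The family generating `D*(P)`. -/
structure DF (P A : Subgroup G) : Prop where
  le : A ≤ P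
  comm : IsMulCommutative A
  cent : ∀ x ∈ P, ⁅⁅A ⊔ zpowers x, A ⊔ zpowers x⁆, A ⊔ zpowers x⁆ = ⊥ → x ∈ C[A]

theorem DF.of_le (h : DF P A) (h1 : A ≤ Q) (h2 : Q ≤ P) : DF Q A :=
  ⟨h1, h.comm, fun x hx => h.cent x (h2 hx)⟩

theorem DF.cj (h : DF P A) (g : G) : DF (P :^ g) (A :^ g) := by
  refine ⟨cj_mono g h.le, (comm_cj g).2 h.comm, fun x hx h1 => ?_⟩
  rw [cent_cj, mem_cj]
  refine h.cent _ (mem_cj.1 hx) ((cj_eq_bot (g := g)).1 ?_)
  rwa [cj_comm, cj_comm, cj_sup, ← zpowers_cj, show g * (g⁻¹ * x * g) * g⁻¹ = x by group]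

theorem df_top : DF ⊤ A ↔ A ∈ dStarFamily G :=
  ⟨fun h => ⟨h.comm, fun x h1 => mem_cent.1 (h.cent x trivial h1)⟩,
    fun h => ⟨le_top, h.1, fun x _ h1 => mem_cent.2 (h.2 x h1)⟩⟩

theorem df_map {A : Subgroup P} : DF P (A.map P.subtype) ↔ A ∈ dStarFamily P := by
  have inj := P.subtype_injective
  have e : ∀ x : P, ⁅⁅A ⊔ zpowers x, A ⊔ zpowers x⁆, A ⊔ zpowers x⁆ = ⊥ ↔
      ⁅⁅A.map P.subtype ⊔ zpowers (x : G), A.map P.subtype ⊔ zpowers (x : G)⁆,
        A.map P.subtype ⊔ zpowers (x : G)⁆ = ⊥ := fun x => by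
    rw [← map_eq_bot_iff_of_injective _ inj, map_commutator, map_commutator, Subgroup.map_sup,
      MonoidHom.map_zpowers]; rfl
  refine ⟨fun h => ⟨comm_iff.2 ((map_le_cent_iff inj).1 (comm_iff.1 h.comm)), fun x h1 a ha =>
    inj (mem_cent.1 (h.cent x x.2 ((e x).1 h1)) a (mem_map_of_mem _ ha))⟩,
    fun h => ⟨map_subtype_le A, comm_iff.2 (map_le_cent _ (comm_iff.1 h.1)), fun x hx h1 =>
      mem_cent.2 ?_⟩⟩
  rintro _ ⟨a, ha, rfl⟩
  exact congrArg Subtype.val (h.2 ⟨x, hx⟩ ((e _).2 h1) a ha)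

theorem DF.le_dStar (h : DF P A) : A ≤ dStarOf P := by
  have e := map_subgroupOf h.le
  exact e.ge.trans (map_mono (le_sSup (df_map.1 (e.symm ▸ h))))

theorem dStar_le_iff : dStarOf P ≤ Q ↔ ∀ A, DF P A → A ≤ Q :=
  ⟨fun h _ hA => hA.le_dStar.trans h, fun h => map_le_iff_le_comap.2 (sSup_le fun _ hA =>
    map_le_iff_le_comap.1 (h _ (df_map.2 hA)))⟩

theorem dStar_le (P : Subgroup G) : dStarOf P ≤ P := map_subtype_le _

theorem dStar_top : dStarOf (⊤ : Subgroup G) = dStar G :=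
  le_antisymm (dStar_le_iff.2 fun _ h => le_sSup (df_top.1 h))
    (sSup_le fun _ h => (df_top.2 h).le_dStar)

theorem norm_dStar (P : Subgroup G) : N[P] ≤ N[dStarOf P] :=
  le_norm_iff_cj.2 fun g hg => cj_le_iff.2 (dStar_le_iff.2 fun A h => cj_le_iff.1 (by
    have := h.cj g; rw [cj_norm hg] at this; exact this.le_dStar))

theorem class_two_mono (h : ⁅⁅B ⊔ zpowers x, B ⊔ zpowers x⁆, B ⊔ zpowers x⁆ = ⊥) (h1 : A ≤ B) :
    ⁅⁅A ⊔ zpowers x, A ⊔ zpowers x⁆, A ⊔ zpowers x⁆ = ⊥ :=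
  eq_bot_of_le h (commutator_mono (der_mono (sup_le_sup_right h1 _)) (sup_le_sup_right h1 _))

variable [Finite G] [hp : Fact p.Prime]

theorem DF.cent_of_norm (h : DF P A) (hP : Pg[p] P) (hB : B ≤ P) (hc : IsMulCommutative B)
    (hn : A ≤ N[B]) : B ≤ C[A] := by
  have n1 : A ≤ N[B ⊓ C[A]] := norm_inf hn (norm_cent (le_norm A))
  have e : (B ⊓ C[A] ⊔ A) ⊓ B ≤ B ⊓ C[A] := (modl inf_le_left (Or.inr n1)).le.trans
    (sup_le le_rfl (le_inf inf_le_right (inf_le_left.trans (comm_iff.1 h.comm))))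
  suffices H : B ⊓ C[A] ⊔ A = B ⊔ A from
    (le_inf (le_sup_left.trans H.ge) le_rfl).trans (e.trans inf_le_right)
  refine eq_of_inf_norm_le (hP.of_le (sup_le hB h.le)).nilpotent (sup_le_sup_right inf_le_left _)
    fun y ⟨h1, h2⟩ => ?_
  obtain ⟨b, hb, a, ha, rfl⟩ := (mem_sup_l hn).1 h1
  have h3 : zpowers b ≤ N[B ⊓ C[A] ⊔ A] :=
    zpowers_le.2 ((mul_mem_cancel_right (le_norm _ (mem_sup_right ha))).1 h2)
  have h4 : ⁅A, zpowers b⁆ ≤ B ⊓ C[A] := (le_inf ((commutator_mono le_sup_right le_rfl).trans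
    (comm_le_left h3)) ((commutator_mono le_rfl (zpowers_le.2 hb)).trans (comm_le_right hn))).trans e
  have n2 : zpowers b ≤ C[B ⊓ C[A]] := comm_cent hc (zpowers_le.2 hb) inf_le_left
  have h5 : ⁅A ⊔ zpowers b, A ⊔ zpowers b⁆ ≤ B ⊓ C[A] :=
    sup_comm_le (comm_sup_le ((der_eq_bot.2 h.comm).le.trans bot_le) h4 n1 (norm_of_cent n2))
      (comm_sup_le (commutator_comm A _ ▸ h4) ((der_eq_bot.2 (comm_of_cyclic
        (cyclic_zpowers b))).le.trans bot_le) n1 (norm_of_cent n2)) n1 (norm_of_cent n2)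
  exact mul_mem (mem_sup_left ⟨hb, h.cent b (hB hb) (comm_eq_bot.2 (h5.trans
    (le_cent_sup inf_le_right (cent_symm n2))))⟩) (mem_sup_right ha)

theorem comm_dStar (hP : Pg[p] P) : IsMulCommutative (dStarOf P) := by
  induction P using ind_down with | _ P ih => ?_
  refine comm_iff.2 (dStar_le_iff.2 fun A hA => cent_symm (dStar_le_iff.2 fun B hB => ?_))
  rcases hA.le.eq_or_lt with rfl | h1
  · exact hB.le.trans (comm_iff.1 hA.comm)
  obtain ⟨M, h2, h3, h4⟩ := exists_max_of (C := (· < P)) h1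
  have h5 : P ≤ N[M] := by
    by_contra h
    exact (pg_lt_norm hP h3).ne' (h4 _ (inf_lt_left.2 h) (pg_lt_norm hP h3).le)
  exact cent_symm ((hA.of_le h2 h3.le).le_dStar.trans (hB.cent_of_norm hP ((dStar_le M).trans h3.le)
    (ih M h3 (hP.of_le h3.le)) (hB.le.trans (h5.trans (norm_dStar M)))))

theorem df_dStar (hP : Pg[p] P) : DF P (dStarOf P) :=
  ⟨dStar_le P, comm_dStar hP, fun x hx h => le_cent1.1 (dStar_le_iff.2 fun _ hA =>
    le_cent1.2 (hA.cent x hx (class_two_mono h hA.le_dStar)))⟩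

end H16.H11
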