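import Cfsg.Agent.H11.ZStar

/-! The abelian case of the Frobenius–Wielandt theorem, by transfer. -/

set_option autoImplicit false
set_option linter.unusedSectionVars false

namespace H16.H11

open Subgroup Cfsg H1 H15 MulAction
open scoped commutatorElement

variable {G : Type*} [Group G] [Finite G] {H M : Subgroup G}

theorem transfer_fw {A : Type*} [CommGroup A] (φ : M →* A)
    (h : ∀ g ∉ M, ∀ y : M, g * y * g⁻¹ ∈ M → φ y = 1) (x : M) :
    MonoidHom.transfer φ x = φ x := by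
  classical
  haveI := Fintype.ofFinite (Quotient (orbitRel (zpowers (x : G)) (G ⧸ M)))
  have fix : ∀ y ∈ M, y • ((1 : G) : G ⧸ M) = (1 : G) := fun y hy =>
    QuotientGroup.eq.2 (by simpa using hy)
  have key : ∀ q : Quotient (orbitRel (zpowers (x : G)) (G ⧸ M)),
      q.out.out ∈ M ↔ q = Quotient.mk _ ((1 : G) : G ⧸ M) := fun q => by
    constructor
    · intro hq
      rw [← Quotient.out_eq q, ← QuotientGroup.out_eq' q.out,
        QuotientGroup.eq.2 (show q.out.out⁻¹ * 1 ∈ M by simpa using hq)]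
    · rintro rfl
      obtain ⟨y, hy⟩ := Quotient.mk_out (s := orbitRel (zpowers (x : G)) (G ⧸ M)) ((1 : G) : G ⧸ M)
      have e : (y : G) • ((1 : G) : G ⧸ M) = _ := hy
      rw [← e, fix _ (zpowers_le.2 x.2 y.2)]
      simpa using QuotientGroup.eq.1 (QuotientGroup.out_eq' ((1 : G) : G ⧸ M))
  rw [MonoidHom.transfer_eq_prod_quotient_orbitRel_zpowers_quot,
    Finset.prod_eq_single (Quotient.mk _ ((1 : G) : G ⧸ M))]
  · have h1 := (key _).2 rfl
    generalize Quotient.out (Quotient.mk (orbitRel (zpowers (x : G)) (G ⧸ M)) _) = q at h1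
    have h2 : Function.minimalPeriod ((x : G) • ·) q = 1 := by
      rw [Function.minimalPeriod_eq_one_iff_isFixedPt, ← QuotientGroup.out_eq' q,
        QuotientGroup.eq.2 (show q.out⁻¹ * 1 ∈ M by simpa using h1)]
      exact fix _ x.2
    have : φ x = φ ((⟨_, h1⟩ : M)⁻¹ * x * ⟨_, h1⟩) := by
      rw [map_mul, map_mul, map_inv, mul_comm _ (φ x), inv_mul_cancel_right]
    rw [this]
    congr 1
    exact Subtype.ext (by simp [h2])
  · intro q _ hq
    exact h _ (mt (key q).1 hq) _ (by simpa [mul_assoc] using pow_mem x.2 _)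
  · simp

theorem fw_normal (h1 : ⁅M, M⁆ ≤ H) (h2 : H ≤ M) (h : ∀ g ∉ M, M ⊓ M :^ g ≤ H) :
    ∃ K : Subgroup G, K.Normal ∧ ⁅(⊤ : Subgroup G), (⊤ : Subgroup G)⁆ ≤ K ∧ K ⊓ M = H := by
  haveI := normal_subgroupOf (norm_of_der_le h1 h2)
  letI : CommGroup (M ⧸ H.subgroupOf M) := { (inferInstance : Group (M ⧸ H.subgroupOf M)) with
    mul_comm := fun a b => by
      obtain ⟨a, rfl⟩ := QuotientGroup.mk_surjective a
      obtain ⟨b, rfl⟩ := QuotientGroup.mk_surjective b
      refine QuotientGroup.eq.2 (h1 ?_)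
      simpa [commutatorElement_def, mul_assoc] using
        commutator_mem_commutator (inv_mem b.2) (inv_mem a.2) }
  have key := transfer_fw (QuotientGroup.mk' (H.subgroupOf M)) fun g hg y hy =>
    (QuotientGroup.eq_one_iff y).2 (h g⁻¹ (mt inv_mem_iff.1 hg) ⟨y.2, mem_cj.2 (by rwa [inv_inv])⟩)
  exact ⟨(MonoidHom.transfer (QuotientGroup.mk' (H.subgroupOf M))).ker, inferInstance,
    Abelianization.commutator_subset_ker _, le_antisymm (fun x hx => (QuotientGroup.eq_one_iff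
      (⟨x, hx.2⟩ : M)).1 ((key ⟨x, hx.2⟩).symm.trans hx.1)) (le_inf (fun x hx =>
        (key ⟨x, h2 hx⟩).trans ((QuotientGroup.eq_one_iff _).2 hx)) h2)⟩

theorem der_le_of_max (hn : M ≤ N[H]) (h2 : H ≤ M) (h : ∀ K, H ≤ K → K ≤ M → K = H ∨ K = M) :
    ⁅M, M⁆ ≤ H := by
  by_cases e : M ≤ H
  · exact (der_le M).trans e
  obtain ⟨x, hx, h1⟩ := SetLike.not_le_iff_exists.1 e
  rcases h (H ⊔ zpowers x) le_sup_left (sup_le h2 (zpowers_le.2 hx)) with e | e
  · exact (h1 (e.le (mem_sup_right (mem_zpowers x)))).elim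
  · have := der_sup_le ((zpowers_le.2 hx).trans hn)
    rwa [e, der_eq_bot.2 (comm_of_cyclic (cyclic_zpowers x)), sup_bot_eq] at this

theorem max_of_prime (h : (H.relIndex M).Prime) (K : Subgroup G) (h1 : H ≤ K) (h2 : K ≤ M) :
    K = H ∨ K = M := by
  rw [← relIndex_mul_relIndex H K M h1 h2] at h
  exact (Nat.prime_mul_iff.1 h).symm.imp (fun e => le_antisymm (relIndex_eq_one.1 e.2) h1)
    fun e => le_antisymm h2 (relIndex_eq_one.1 e.2)

theorem max_of_coatom (h : IsCoatom (H.subgroupOf M)) (K : Subgroup G) (h1 : H ≤ K) (h2 : K ≤ M) :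
    K = H ∨ K = M :=
  (h.le_iff.1 (comap_mono h1)).symm.imp (fun e => le_antisymm ((subgroupOf_le_iff h2).1 e.le) h1)
    fun e => le_antisymm h2 (subgroupOf_eq_top.1 e)

end H16.H11
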