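import Mathlib

/-! An Ecklund-type lemma: adding `f` and `c` (`2 ≤ f ≤ c`) produces a carry in some prime base
`p ≤ c`, unless `(f, c) = (3, 4)`. -/

set_option autoImplicit false

namespace H11.HS

open Nat Finset

def NC (f c : ℕ) : Prop := ∀ p k : ℕ, p.Prime → p ≤ c → f % p ^ k + c % p ^ k < p ^ k

theorem NC.div {f c p k : ℕ} (h : NC f c) (hp : p.Prime) (hc : p ≤ c) :
    (f + c) / p ^ k = f / p ^ k + c / p ^ k := by
  rw [Nat.add_div (pow_pos hp.pos _), if_neg (not_le.2 (h p k hp hc)), add_zero]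

theorem fac_le {x1 x2 y1 y2 : ℕ}
    (h : ∀ p k : ℕ, p.Prime → 1 ≤ k → x1 / p ^ k + x2 / p ^ k ≤ y1 / p ^ k + y2 / p ^ k) :
    x1 ! * x2 ! ≤ y1 ! * y2 ! := by
  refine Nat.le_of_dvd (by positivity) ?_
  rw [← Nat.factorization_prime_le_iff_dvd (by positivity) (by positivity)]
  intro p hp
  have hl : ∀ z, z ≤ x1 + x2 + y1 + y2 → log p z < log p (x1 + x2 + y1 + y2) + 1 :=
    fun z hz => Nat.lt_succ_of_le (Nat.log_mono_right hz)
  rw [Nat.factorization_mul (factorial_ne_zero _) (factorial_ne_zero _),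
    Nat.factorization_mul (factorial_ne_zero _) (factorial_ne_zero _)]
  simp only [Finsupp.coe_add, Pi.add_apply]
  rw [Nat.factorization_factorial hp (hl x1 (by omega)),
    Nat.factorization_factorial hp (hl x2 (by omega)),
    Nat.factorization_factorial hp (hl y1 (by omega)),
    Nat.factorization_factorial hp (hl y2 (by omega)), ← sum_add_distrib, ← sum_add_distrib]
  exact sum_le_sum fun k hk => h p k hp (mem_Ico.1 hk).1

theorem div_swap (x a d : ℕ) : x / a / d = x / d / a := by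
  rw [Nat.div_div_eq_div_mul, Nat.div_div_eq_div_mul, mul_comm]

theorem big_zero {p k c z : ℕ} (_hp : p.Prime) (hk : 1 ≤ k) (hc : ¬ p ≤ c) (hz : z ≤ c) :
    z / p ^ k = 0 :=
  Nat.div_eq_of_lt (lt_of_lt_of_le (by omega) (Nat.le_self_pow (by omega) p))

theorem NC.step1 {f c : ℕ} (h : NC f c) (hfc : f ≤ c) :
    ((f + c) / 2)! * (f / 2)! ≤ f ! * (c / 2)! := by
  refine fac_le fun p k hp hk => ?_
  by_cases hc : p ≤ c
  · rw [div_swap (f + c), div_swap f, div_swap c, h.div hp hc]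
    omega
  · rw [big_zero hp hk hc (by omega), big_zero hp hk hc (by omega)]
    exact Nat.zero_le _

theorem NC.step2 {f c : ℕ} (h : NC f c) (hfc : f ≤ c) :
    ((f + c) / 3)! * (c / 6)! ≤ (c / 2)! * (c / 3)! := by
  refine fac_le fun p k hp hk => ?_
  by_cases hc : p ≤ c
  · rw [div_swap (f + c), div_swap c 6, div_swap c 2, div_swap c 3, h.div hp hc]
    have : f / p ^ k ≤ c / p ^ k := Nat.div_le_div_right hfc
    omega
  · rw [big_zero hp hk hc (by omega), big_zero hp hk hc (by omega)]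
    exact Nat.zero_le _

def PP (g K t : ℕ) : Prop := (2 * g + t)! * g ! ≤ K * ((2 * g)! * (g + t)!)

instance (g K t : ℕ) : Decidable (PP g K t) := by unfold PP; infer_instance

theorem PP.down {g K t : ℕ} (h : PP g K (t + 1)) : PP g K t := by
  unfold PP at *
  rw [← add_assoc, ← add_assoc, factorial_succ, factorial_succ] at h
  refine Nat.le_of_mul_le_mul_left (c := _) ?_ (Nat.succ_pos (2 * g + t))
  calc (2 * g + t).succ * ((2 * g + t)! * g !) = (2 * g + t + 1) * (2 * g + t)! * g ! := by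
        rw [Nat.succ_eq_add_one]; ring
    _ ≤ K * ((2 * g)! * ((g + t + 1) * (g + t)!)) := h
    _ ≤ K * ((2 * g)! * ((2 * g + t + 1) * (g + t)!)) := by gcongr; omega
    _ = _ := by rw [Nat.succ_eq_add_one]; ring

theorem PP.le {g K s t : ℕ} (h : PP g K t) (hs : s ≤ t) : PP g K s := by
  induction hs with
  | refl => exact h
  | step _ ih => exact ih h.down

theorem pp_aux (g t : ℕ) (ht : t ≤ g) :
    3 ^ t * ((2 * g)! * (g + t)!) ≤ 2 ^ t * ((2 * g + t)! * g !) := by
  induction t with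
  | zero => simp
  | succ t ih =>
    have := ih (by omega)
    rw [← add_assoc, ← add_assoc, factorial_succ, factorial_succ]
    calc 3 ^ (t + 1) * ((2 * g)! * ((g + t + 1) * (g + t)!))
        = (3 * (g + t + 1)) * (3 ^ t * ((2 * g)! * (g + t)!)) := by ring
      _ ≤ (2 * (2 * g + t + 1)) * (2 ^ t * ((2 * g + t)! * g !)) :=
          Nat.mul_le_mul (by omega) this
      _ = _ := by ring

theorem PP.pow {g K t : ℕ} (h : PP g K t) (ht : t ≤ g) : 3 ^ t ≤ 2 ^ t * K := by
  have h1 := pp_aux g t ht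
  have h2 : 2 ^ t * ((2 * g + t)! * g !) ≤ 2 ^ t * K * ((2 * g)! * (g + t)!) := by
    rw [mul_assoc]; exact Nat.mul_le_mul_left _ h
  exact Nat.le_of_mul_le_mul_right (h1.trans h2) (by positivity)

theorem small_g {g : ℕ} (h : 3 ^ g ≤ 2 ^ g * (2 * g + 1)) : g ≤ 6 := by
  by_contra hg
  have : ∀ x, 7 ≤ x → 2 ^ x * (2 * x + 1) < 3 ^ x := by
    intro x hx
    induction hx with
    | refl => norm_num
    | @step y hy ih =>
      have hy' : 7 ≤ y := hy
      show 2 ^ (y + 1) * (2 * (y + 1) + 1) < 3 ^ (y + 1)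
      calc 2 ^ (y + 1) * (2 * (y + 1) + 1) = 2 ^ y * (2 * (2 * y + 3)) := by ring
        _ ≤ 2 ^ y * (3 * (2 * y + 1)) := Nat.mul_le_mul_left _ (by omega)
        _ = 3 * (2 ^ y * (2 * y + 1)) := by ring
        _ < 3 * 3 ^ y := by omega
        _ = _ := by ring
  have := this g (by omega)
  omega

theorem pp25 : ∀ g < 7, 1 ≤ g → ¬ PP g (2 * g + 1) 25 := by decide +kernel

def LL : List (ℕ × ℕ) := [(3, 1), (2, 2), (5, 1), (7, 1), (2, 3), (3, 2), (11, 1), (13, 1),
  (2, 4), (17, 1), (19, 1), (23, 1), (5, 2), (3, 3), (29, 1), (31, 1), (2, 5), (37, 1), (41, 1)]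

def chk (f c : ℕ) : Bool :=
  LL.any fun x => Nat.ble x.1 c && Nat.ble (x.1 ^ x.2) (f % x.1 ^ x.2 + c % x.1 ^ x.2)

theorem LL_prime : ∀ x ∈ LL, x.1.Prime := by decide +kernel

theorem chk_all : ((List.range 768).all fun g => (List.range 25).all fun t =>
    (g == 0) || (t == 0) || (g == 1 && t == 1) || chk (2 * g + 1) (2 * (g + t))) = true := by
  decide +kernel

theorem NC.not_chk {f c : ℕ} (h : NC f c) : chk f c ≠ true := by
  intro hc
  obtain ⟨x, hx, h2⟩ := List.any_eq_true.1 hc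
  simp only [Bool.and_eq_true, Nat.ble_eq] at h2
  have := h x.1 x.2 (LL_prime x hx) h2.1
  omega

theorem q_aux (m j : ℕ) (hj : j ≤ m + 2) :
    2 ^ j * ((3 * m + 2)! * (m + j)!) ≤ (3 * m + 2 + j)! * m ! := by
  induction j with
  | zero => simp
  | succ j ih =>
    have := ih (by omega)
    rw [← add_assoc, ← add_assoc, factorial_succ (m + j), factorial_succ (3 * m + 2 + j)]
    calc 2 ^ (j + 1) * ((3 * m + 2)! * ((m + j + 1) * (m + j)!))
        = (2 * (m + j + 1)) * (2 ^ j * ((3 * m + 2)! * (m + j)!)) := by ring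
      _ ≤ (3 * m + 2 + j + 1) * ((3 * m + 2 + j)! * m !) := Nat.mul_le_mul (by omega) this
      _ = _ := by ring

theorem fac_up (a b : ℕ) : (a + b)! ≤ a ! * (a + b) ^ b := by
  induction b with
  | zero => simp
  | succ b ih =>
    rw [← add_assoc, factorial_succ]
    calc (a + b + 1) * (a + b)! ≤ (a + b + 1) * (a ! * (a + b + 1) ^ b) := by
          refine Nat.mul_le_mul_left _ (ih.trans (Nat.mul_le_mul_left _ ?_))
          exact Nat.pow_le_pow_left (by omega) _
      _ = _ := by ring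

theorem k_aux (k : ℕ) (hk : 8 ≤ k) : (k + 3) * (4 * k + 24) < 3 * 2 ^ k := by
  induction hk with
  | refl => norm_num
  | @step y hy ih =>
    have hy' : 8 ≤ y := hy
    show (y + 1 + 3) * (4 * (y + 1) + 24) < 3 * 2 ^ (y + 1)
    rw [pow_succ]
    nlinarith

theorem large {g t : ℕ} (h : NC (2 * g + 1) (2 * (g + t))) (ht : 1 ≤ t)
    (h3 : 3 ^ t ≤ 2 ^ t * (2 * g + 1)) (hg : 768 ≤ g + t) : False := by
  have h2 := h.step2 (by omega)
  set m := 2 * (g + t) / 6 with hm
  have hm0 : 256 ≤ m := by omega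
  set k := Nat.log 2 m with hk
  have hk1 : 2 ^ k ≤ m := Nat.pow_log_le_self 2 (by omega)
  have hk2 : m < 2 ^ (k + 1) := Nat.lt_pow_succ_log_self (by norm_num) m
  have hk8 : 8 ≤ k := by
    by_contra hc
    have : 2 ^ (k + 1) ≤ 2 ^ 8 := Nat.pow_le_pow_right (by norm_num) (by omega)
    omega
  have htk : t < 2 * (k + 4) := by
    by_contra hc
    obtain ⟨e, he⟩ : ∃ e, t = 2 * (k + 4) + e := ⟨t - 2 * (k + 4), by omega⟩
    rw [he] at h3
    have e1 : 2 * g + 1 < 2 ^ (k + 4) := by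
      have : 2 ^ (k + 4) = 8 * 2 ^ (k + 1) := by ring
      omega
    have e2 : 2 ^ (2 * (k + 4) + e) * 2 ^ (k + 4) ≤ 3 ^ (2 * (k + 4) + e) := by
      calc 2 ^ (2 * (k + 4) + e) * 2 ^ (k + 4) = 8 ^ (k + 4) * 2 ^ e := by
            rw [show (8 : ℕ) = 2 ^ 3 by norm_num, ← pow_mul]; ring
        _ ≤ 9 ^ (k + 4) * 3 ^ e := by gcongr <;> norm_num
        _ = _ := by rw [show (9 : ℕ) = 3 ^ 2 by norm_num, ← pow_mul]; ring
    have e3 : 2 ^ (2 * (k + 4) + e) * (2 * g + 1) < 2 ^ (2 * (k + 4) + e) * 2 ^ (k + 4) :=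
      Nat.mul_lt_mul_of_pos_left e1 (by positivity)
    omega
  have hka := k_aux k hk8
  set u := (2 * t + 1) / 3 with hu
  have hu1 : (k + 3) * (u + 3) < m := by
    have : (k + 3) * (3 * (u + 3)) ≤ (k + 3) * (4 * k + 24) := Nat.mul_le_mul_left _ (by omega)
    nlinarith
  obtain ⟨j, hj⟩ : ∃ j, m = j + u + 2 := by
    have : u + 3 ≤ m := by nlinarith
    exact ⟨m - u - 2, by omega⟩
  have a1 : (3 * m + 2 + j)! * m ! ≤ (3 * m + 2)! * (2 * m + 1)! := by
    refine le_trans (Nat.mul_le_mul_right _ (Nat.factorial_le (by omega))) (h2.trans ?_)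
    exact Nat.mul_le_mul (Nat.factorial_le (by omega)) (Nat.factorial_le (by omega))
  have a2 := q_aux m j (by omega)
  have a3 : (2 * m + 1)! ≤ (m + j)! * (2 * m + 1) ^ (u + 3) := by
    have := fac_up (m + j) (u + 3)
    rwa [show m + j + (u + 3) = 2 * m + 1 by omega] at this
  have a4 : 2 ^ j ≤ (2 * m + 1) ^ (u + 3) := by
    refine Nat.le_of_mul_le_mul_right (c := (3 * m + 2)! * (m + j)!) ?_ (by positivity)
    calc _ ≤ _ := a2
      _ ≤ _ := a1
      _ ≤ (3 * m + 2)! * ((m + j)! * (2 * m + 1) ^ (u + 3)) := Nat.mul_le_mul_left _ a3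
      _ = _ := by ring
  have a5 : (2 * m + 1) ^ (u + 3) ≤ 2 ^ ((k + 2) * (u + 3)) := by
    rw [pow_mul]
    refine Nat.pow_le_pow_left ?_ _
    have : 2 ^ (k + 2) = 2 * 2 ^ (k + 1) := by ring
    omega
  have a6 : j ≤ (k + 2) * (u + 3) := (Nat.pow_le_pow_iff_right (by norm_num)).1 (a4.trans a5)
  nlinarith

theorem nc_main {f c : ℕ} (h : NC f c) (hf : 2 ≤ f) (hfc : f ≤ c) : f = 3 ∧ c = 4 := by
  have h1 := h.step1 hfc
  have h2 := h 2 1 Nat.prime_two (by omega)
  rw [pow_one] at h2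
  obtain ⟨g, hg⟩ : ∃ g, g = f / 2 := ⟨_, rfl⟩
  obtain ⟨t, ht⟩ : ∃ t, c / 2 = g + t := ⟨c / 2 - g, by omega⟩
  have hn : (f + c) / 2 = 2 * g + t := by omega
  rw [hn, ← hg, ht] at h1
  rcases Nat.even_or_odd' f with ⟨g', hf2 | hf2⟩
  · exfalso
    obtain rfl : g' = g := by omega
    have hP : PP g' 1 t := by unfold PP; rw [one_mul]; rw [hf2] at h1; exact h1
    have ht0 : t = 0 := by
      by_contra h0
      have := (hP.le (s := 1) (by omega)).pow (by omega)
      omega
    set k := Nat.log 2 g' with hk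
    have hk1 : 2 ^ k ≤ g' := Nat.pow_log_le_self 2 (by omega)
    have hk2 : g' < 2 ^ (k + 1) := Nat.lt_pow_succ_log_self (by norm_num) g'
    have h4 := h 2 (k + 2) Nat.prime_two (by omega)
    have e1 : 2 ^ (k + 2) = 4 * 2 ^ k := by ring
    have e2 : 2 ^ (k + 1) = 2 * 2 ^ k := by ring
    rw [Nat.mod_eq_of_lt (by omega), Nat.mod_eq_of_lt (by omega)] at h4
    omega
  · obtain rfl : g' = g := by omega
    have hc : c = 2 * (g' + t) := by omega
    have hP : PP g' (2 * g' + 1) t := by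
      unfold PP
      rw [hf2, factorial_succ, mul_assoc] at h1
      exact h1
    subst hf2 hc
    have ht1 : 1 ≤ t := by omega
    have hg1 : 1 ≤ g' := by omega
    have key : g' < 768 → t < 25 → 2 * g' + 1 = 3 ∧ 2 * (g' + t) = 4 := by
      intro a b
      have := List.all_eq_true.1 (List.all_eq_true.1 chk_all g' (List.mem_range.2 a)) t
        (List.mem_range.2 b)
      simp only [Bool.or_eq_true, beq_iff_eq, Bool.and_eq_true] at this
      rcases this with ((h0 | h0) | h0) | h0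
      · omega
      · omega
      · omega
      · exact absurd h0 h.not_chk
    by_cases hgt : g' ≤ t
    · have h6 := small_g ((hP.le hgt).pow le_rfl)
      refine key (by omega) ?_
      by_contra h25
      exact pp25 g' (by omega) hg1 (hP.le (by omega))
    · have h3 := hP.pow (by omega)
      by_cases hl : 768 ≤ g' + t
      · exact (large h ht1 h3 hl).elim
      · refine key (by omega) ?_
        by_contra h25
        have := (hP.le (s := 25) (by omega)).pow (by omega)
        omega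

end H11.HS
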