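import Cfsg.Agent.H11.HN
import Cfsg.Agent.H16.Hall
import Cfsg.Agent.H25.PartStab

/-! Families of disjoint cycles inside subgroups of `p'`-index of a symmetric group. -/

set_option autoImplicit false
set_option linter.unusedSectionVars false

namespace H11.HS

open Equiv Equiv.Perm Finset H16 H25 _root_.Cfsg

variable {α ι : Type*} [Fintype α] [DecidableEq α] [DecidableEq ι] {τ σ c g h : Perm α}
  {d p q k : ℕ} {x y z : α} {f : α → ι} {H S : Subgroup (Perm α)}

def cyG (τ : Perm α) : Subgroup (Perm α) where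
  carrier := {g | Commute g τ ∧ ∀ x, τ.SameCycle x (g x)}
  one_mem' := ⟨Commute.one_left _, fun x => SameCycle.refl _ _⟩
  mul_mem' := fun {a b} ha hb => ⟨ha.1.mul_left hb.1, fun x => (hb.2 x).trans (ha.2 (b x))⟩
  inv_mem' := fun {a} ha => ⟨ha.1.inv_left, fun x => by simpa using (ha.2 (a⁻¹ x)).symm⟩

theorem cyG_pow (hg : g ∈ cyG τ) (hd : τ ^ d = 1) : g ^ d = 1 := by
  ext x
  obtain ⟨i, hi⟩ := hg.2 x
  have key : ∀ m : ℕ, (g ^ m) x = ((τ ^ i) ^ m) x := by
    intro m
    induction m with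
    | zero => simp
    | succ m ih =>
      have hc : Commute g ((τ ^ i) ^ m) := (hg.1.zpow_right i).pow_right m
      rw [pow_succ', Perm.mul_apply, ih, ← Perm.mul_apply, hc.eq, Perm.mul_apply, ← hi,
        ← Perm.mul_apply, ← pow_succ]
  rw [key, ← zpow_natCast, ← zpow_mul, mul_comm, zpow_mul, zpow_natCast, hd, one_zpow]

theorem factor_mem_cyG (hc : c ∈ τ.cycleFactorsFinset) : c ∈ cyG τ := by
  refine ⟨self_mem_cycle_factors_commute hc, fun x => ?_⟩
  by_cases hx : x ∈ c.support
  · rw [(mem_cycleFactorsFinset_iff.1 hc).2 x hx]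
    exact ⟨1, by simp⟩
  · rw [notMem_support.1 hx]

structure Fam (d : ℕ) (τ : Perm α) : Prop where
  len : ∀ c ∈ τ.cycleFactorsFinset, c.support.card = d
  rest : τ.supportᶜ.card = Fintype.card α % d
  pw : τ ^ d = 1

theorem fam_of_type (h : τ.cycleType = Multiset.replicate (Fintype.card α / d) d) : Fam d τ := by
  refine ⟨fun c hc => ?_, ?_, ?_⟩
  · have : c.support.card ∈ τ.cycleType := by
      rw [cycleType_def]; exact Multiset.mem_map.2 ⟨c, hc, rfl⟩
    rw [h] at this
    exact Multiset.eq_of_mem_replicate this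
  · rw [card_compl, ← sum_cycleType, h, Multiset.sum_replicate, smul_eq_mul]
    have := Nat.div_add_mod' (Fintype.card α) d
    omega
  · rw [← orderOf_dvd_iff_pow_eq_one, ← lcm_cycleType, h]
    exact Multiset.lcm_dvd.2 fun b hb => by rw [Multiset.eq_of_mem_replicate hb]

theorem exists_fam (hp : p.Prime) (hk : 1 ≤ k) (hS : ¬ p ∣ S.index) :
    ∃ τ : Perm α, Fam (p ^ k) τ ∧ ∀ c ∈ τ.cycleFactorsFinset, c ∈ S := by
  have := Fact.mk hp
  have h2 : 2 ≤ p ^ k := hp.two_le.trans (Nat.le_self_pow (by omega) p)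
  obtain ⟨τ, hτ⟩ := (exists_with_cycleType_iff α
    (m := Multiset.replicate (Fintype.card α / p ^ k) (p ^ k))).2 ⟨by
      rw [Multiset.sum_replicate, smul_eq_mul]; exact Nat.div_mul_le_self _ _,
      fun a ha => by rw [Multiset.eq_of_mem_replicate ha]; exact h2⟩
  have hP : Pg[p] (cyG τ) := pg_iff.2 fun g => ⟨k, Subtype.ext (by
    simpa using cyG_pow g.2 (fam_of_type hτ).pw)⟩
  obtain ⟨T, hT⟩ := sy_exists p S
  have hT' : Sy[p] T ⊤ := hl_of_idx hT le_top fun r hr hd hrp => by
    rw [Set.mem_singleton_iff] at hrp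
    rw [Subgroup.relIndex_top_right, hrp] at hd
    exact hS hd
  obtain ⟨g, -, hg⟩ := sy_conj_le hT' le_top hP
  refine ⟨g * τ * g⁻¹, fam_of_type (by rw [cycleType_conj, hτ]), fun c hc => ?_⟩
  have : g⁻¹ * c * g ∈ τ.cycleFactorsFinset := by
    rw [← mem_cycleFactorsFinset_conj τ g]
    simpa [mul_assoc] using hc
  exact hT.1 (hg (mem_cj.2 (factor_mem_cyG this)))

theorem Fam.mod_le (h : Fam d τ) (C : Finset α)
    (hC : ∀ c ∈ τ.cycleFactorsFinset, c.support ⊆ C ∨ _root_.Disjoint c.support C) :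
    C.card % d ≤ (C ∩ τ.supportᶜ).card := by
  have e : C ∩ τ.support =
      (τ.cycleFactorsFinset.filter fun c => c.support ⊆ C).biUnion support := by
    ext x
    simp only [mem_inter, mem_biUnion, mem_filter]
    constructor
    · rintro ⟨h1, h2⟩
      obtain ⟨c, hc, hx⟩ := mem_support_iff_mem_support_of_mem_cycleFactorsFinset.1 h2
      exact ⟨c, ⟨hc, (hC c hc).resolve_right fun hd => disjoint_left.1 hd hx h1⟩, hx⟩
    · rintro ⟨c, ⟨hc, hs⟩, hx⟩
      exact ⟨hs hx, mem_cycleFactorsFinset_support_le hc hx⟩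
  have hd : d ∣ (C ∩ τ.support).card := by
    rw [e, card_biUnion]
    · exact dvd_sum fun c hc => by rw [h.len c (mem_filter.1 hc).1]
    · intro a ha b hb hab
      exact (τ.cycleFactorsFinset_pairwise_disjoint (mem_filter.1 ha).1 (mem_filter.1 hb).1
        hab).disjoint_support
  obtain ⟨m, hm⟩ := hd
  have e2 : C.card = (C ∩ τ.supportᶜ).card + d * m := by
    rw [← hm, ← card_sdiff_add_card_inter C τ.support, sdiff_eq_inter_compl]
  rw [e2, Nat.add_mul_mod_self_left]
  exact Nat.mod_le _ _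

def fib (f : α → ι) (x : α) : Finset α := univ.filter fun y => f y = f x

theorem mem_fib : y ∈ fib f x ↔ f y = f x := by simp [fib]

theorem self_mem_fib : x ∈ fib f x := mem_fib.2 rfl

theorem fib_disj (h : f x ≠ f y) : _root_.Disjoint (fib f x) (fib f y) :=
  disjoint_left.2 fun _ a b => h ((mem_fib.1 a).symm.trans (mem_fib.1 b))

theorem fib_congr (h : f x = f y) : fib f x = fib f y := by
  ext z; rw [mem_fib, mem_fib, h]

theorem fib_pos : 0 < (fib f x).card := card_pos.2 ⟨x, self_mem_fib⟩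

theorem fib_map (hg : g ∈ partStab f) (x : α) :
    fib f (g x) = (fib f x).map g.toEmbedding := by
  ext y
  rw [mem_map_equiv, mem_fib, mem_fib, mem_partStab.1 hg (g.symm y) x]
  simp

theorem fib_card (hg : g ∈ partStab f) (x : α) : (fib f (g x)).card = (fib f x).card := by
  rw [fib_map hg, card_map]

theorem supp_sub (hc : c.IsCycle) {C : Finset α} (hx : x ∈ C) (hxc : x ∈ c.support)
    (hC : ∀ y ∈ C, c y ∈ C) : c.support ⊆ C := by
  intro y hy
  obtain ⟨i, rfl⟩ := hc.exists_pow_eq (mem_support.1 hxc) (mem_support.1 hy)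
  clear hy
  induction i with
  | zero => simpa using hx
  | succ i ih => rw [pow_succ', Perm.mul_apply]; exact hC _ ih

/-- the class of `x` cannot be moved by a cycle of length `d` -/
def Good (f : α → ι) (d : ℕ) (x : α) : Prop :=
  2 * (fib f x).card ≤ d → ∀ y, f y ≠ f x → (fib f y).card ≠ (fib f x).card

theorem swallow (hc : c.IsCycle) (hm : c ∈ partStab f) (hx : Good f c.support.card x) :
    c.support ⊆ fib f x ∨ _root_.Disjoint c.support (fib f x) := by
  by_contra hcon
  rw [not_or, not_disjoint_iff] at hcon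
  obtain ⟨h1, y, hy, hyx⟩ := hcon
  rw [mem_fib] at hyx
  by_cases hcy : f (c y) = f y
  · refine h1 (supp_sub hc (mem_fib.2 hyx) hy fun w hw => mem_fib.2 ?_)
    rw [← hyx, ← hcy, ← mem_partStab.1 hm, hyx]
    exact mem_fib.1 hw
  have s1 : fib f y ⊆ c.support := fun w hw => mem_support.2 fun e => by
    have := (mem_partStab.1 hm w y).1 (mem_fib.1 hw)
    rw [e, mem_fib.1 hw] at this
    exact hcy this.symm
  have s2 : fib f (c y) ⊆ c.support := by
    rw [fib_map hm]
    intro w hw
    obtain ⟨v, hv, rfl⟩ := mem_map.1 hw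
    exact apply_mem_support.2 (s1 hv)
  have s3 := card_le_card (union_subset s1 s2)
  rw [card_union_of_disjoint (fib_disj (Ne.symm hcy)), fib_card hm, fib_congr hyx] at s3
  refine hx (by omega) (c y) (by rw [← hyx]; exact hcy) ?_
  rw [fib_card hm, fib_congr hyx]

theorem rest_set (hp : p.Prime) (hM : ¬ p ∣ (partStab f).index) (k : ℕ) :
    ∃ R : Finset α, R.card = Fintype.card α % p ^ k ∧
      ∀ x, Good f (p ^ k) x → (fib f x).card % p ^ k ≤ (fib f x ∩ R).card := by
  rcases Nat.eq_zero_or_pos k with rfl | hk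
  · exact ⟨∅, by simp [Nat.mod_one], fun x _ => by simp [Nat.mod_one]⟩
  obtain ⟨τ, hτ, hτM⟩ := exists_fam hp hk hM
  refine ⟨_, hτ.rest, fun x hx => hτ.mod_le _ fun c hc => ?_⟩
  exact swallow (mem_cycleFactorsFinset_iff.1 hc).1 (hτM c hc) (by rw [hτ.len c hc]; exact hx)

theorem mod1 (hp : p.Prime) (hM : ¬ p ∣ (partStab f).index) (hx : Good f (p ^ k) x) :
    (fib f x).card % p ^ k ≤ Fintype.card α % p ^ k := by
  obtain ⟨R, hR, h⟩ := rest_set hp hM k
  rw [← hR]
  exact (h x hx).trans (card_le_card inter_subset_right)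

theorem mod2 (hp : p.Prime) (hM : ¬ p ∣ (partStab f).index) (hx : Good f (p ^ k) x)
    (hy : Good f (p ^ k) y) (hxy : f x ≠ f y) :
    (fib f x).card % p ^ k + (fib f y).card % p ^ k ≤ Fintype.card α % p ^ k := by
  obtain ⟨R, hR, h⟩ := rest_set hp hM k
  rw [← hR]
  refine (add_le_add (h x hx) (h y hy)).trans ?_
  rw [← card_union_of_disjoint ((fib_disj hxy).mono inter_subset_left inter_subset_left)]
  exact card_le_card (union_subset inter_subset_right inter_subset_right)

theorem mod3 (hp : p.Prime) (hM : ¬ p ∣ (partStab f).index) (hx : Good f (p ^ k) x)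
    (hy : Good f (p ^ k) y) (hz : Good f (p ^ k) z) (hxy : f x ≠ f y) (hxz : f x ≠ f z)
    (hyz : f y ≠ f z) :
    (fib f x).card % p ^ k + (fib f y).card % p ^ k + (fib f z).card % p ^ k ≤
      Fintype.card α % p ^ k := by
  obtain ⟨R, hR, h⟩ := rest_set hp hM k
  rw [← hR]
  refine (add_le_add (add_le_add (h x hx) (h y hy)) (h z hz)).trans ?_
  rw [← card_union_of_disjoint ((fib_disj hxy).mono inter_subset_left inter_subset_left),
    ← card_union_of_disjoint (disjoint_union_left.2
      ⟨(fib_disj hxz).mono inter_subset_left inter_subset_left,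
        (fib_disj hyz).mono inter_subset_left inter_subset_left⟩)]
  exact card_le_card (union_subset (union_subset inter_subset_right inter_subset_right)
    inter_subset_right)

/-- equal class sizes force size 4 -/
theorem eq_four (hM : ∀ p, p.Prime → p ≤ (fib f x).card → ¬ p ∣ (partStab f).index)
    (h3 : 3 ≤ (fib f x).card) (hxy : f x ≠ f y) (he : (fib f y).card = (fib f x).card) :
    (fib f x).card = 4 := by
  refine (nc_main (f := (fib f x).card - 1) (fun p k hp hpc => ?_) (by omega) (by omega)).2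
  have hd : 0 < p ^ k := pow_pos hp.pos k
  by_cases h2 : 2 * (fib f x).card ≤ p ^ k
  · rw [Nat.mod_eq_of_lt (by omega), Nat.mod_eq_of_lt (by omega)]
    omega
  have := mod2 (k := k) hp (hM p hp hpc) (fun a => absurd a h2) (fun a => absurd (he ▸ a) h2) hxy
  rw [he] at this
  have h4 := Nat.mod_lt (Fintype.card α) hd
  have h5 := Nat.mod_lt ((fib f x).card - 1) hd
  by_cases h0 : (fib f x).card % p ^ k = 0
  · omega
  have h6 : ((fib f x).card - 1) % p ^ k = (fib f x).card % p ^ k - 1 := by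
    obtain ⟨s, hs⟩ : ∃ s, (fib f x).card = s + 1 := ⟨(fib f x).card - 1, by omega⟩
    rw [hs] at h0 ⊢
    have a1 := Nat.mod_lt s hd
    rw [← Nat.mod_add_mod] at h0 ⊢
    have a2 : s % p ^ k + 1 < p ^ k := by
      by_contra a3
      rw [show s % p ^ k + 1 = p ^ k by omega, Nat.mod_self] at h0
      exact h0 rfl
    rw [Nat.add_sub_cancel, Nat.mod_eq_of_lt a2, Nat.add_sub_cancel]
  omega

theorem nc_of_unique (hM : ∀ p, p.Prime → p ≤ (fib f x).card → ¬ p ∣ (partStab f).index)
    (hu : ∀ u v, f u ≠ f v → (fib f u).card ≠ (fib f v).card) (hxy : f y ≠ f x) :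
    NC (fib f y).card (fib f x).card := fun p k hp hpc =>
  (mod2 hp (hM p hp hpc) (fun _ v hv => hu v y hv) (fun _ v hv => hu v x hv) hxy).trans_lt
    (Nat.mod_lt _ (pow_pos hp.pos k))

end H11.HS
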