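import Cfsg.Agent.H11.HS1
import Cfsg.Agent.H6.Count

/-! A Hall-like subgroup of a symmetric group for two primes involves the primes 2 and 3. -/

set_option autoImplicit false
set_option linter.unusedSectionVars false

namespace H11.HS

open Equiv Equiv.Perm Finset H16 H25 _root_.Cfsg

variable {α ι : Type*} [Fintype α] [DecidableEq α] [DecidableEq ι] {τ σ c g h s t : Perm α}
  {d p q k : ℕ} {x y z a : α} {f : α → ι} {H S : Subgroup (Perm α)} {π : Set ℕ}

structure AH (π : Set ℕ) (H : Subgroup (Perm α)) : Prop where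
  pi : Pi[π] H
  idx : ∀ p, p.Prime → p ∈ π → ¬ p ∣ H.relIndex (alternatingGroup α)

theorem AH.big (h : AH π H) (hp : p.Prime) (hπ : p ∈ π) :
    ∃ S : Subgroup (Perm α), ¬ p ∣ S.index ∧ S ⊓ alternatingGroup α ≤ H := by
  have := Fact.mk hp
  obtain ⟨T, hT⟩ := sy_exists p (H ⊓ alternatingGroup α)
  have hT' : Sy[p] T (alternatingGroup α) := hl_of_idx hT inf_le_right fun r hr hd hrp => by
    rw [Set.mem_singleton_iff] at hrp
    rw [Subgroup.inf_relIndex_right, hrp] at hd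
    exact h.idx p hp hπ hd
  obtain ⟨S, hS, hTS⟩ := sy_exists_ge (M := ⊤) le_top (hl_pi hT)
  refine ⟨S, by simpa using sy_not_dvd hS hp, ?_⟩
  rw [hl_max hT' inf_le_right (pg_iff.2 ((sy_pg hS).to_inf_left)) (le_inf hTS hT'.1)]
  exact hT.1.trans inf_le_left

theorem AH.fam (h : AH π H) (hp : p.Prime) (hπ : p ∈ π) (h2 : p ≠ 2) :
    ∃ τ : Perm α, Fam p τ ∧ ∀ c ∈ τ.cycleFactorsFinset, c ∈ H := by
  obtain ⟨S, hS, hSH⟩ := h.big hp hπ
  obtain ⟨τ, hτ, hc⟩ := exists_fam hp le_rfl hS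
  rw [pow_one] at hτ
  refine ⟨τ, hτ, fun c hc' => hSH ⟨hc c hc', ?_⟩⟩
  show c ∈ alternatingGroup α
  rw [mem_alternatingGroup, (mem_cycleFactorsFinset_iff.1 hc').1.sign, hτ.len c hc',
    (hp.odd_of_ne_two h2).neg_one_pow, neg_neg]

theorem Fam.meet (h : Fam d τ) (hd : 0 < d) {D : Finset α} (hD : d ≤ D.card) :
    ∃ c ∈ τ.cycleFactorsFinset, ∃ x ∈ D, x ∈ c.support := by
  have : ¬ D ⊆ τ.supportᶜ := fun hs => by
    have := card_le_card hs
    have := Nat.mod_lt (Fintype.card α) hd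
    have := h.rest
    omega
  obtain ⟨x, hx, hx'⟩ := not_subset.1 this
  rw [mem_compl, not_not] at hx'
  obtain ⟨c, hc, hxc⟩ := mem_support_iff_mem_support_of_mem_cycleFactorsFinset.1 hx'
  exact ⟨c, hc, x, hx, hxc⟩

theorem AH.cyc (h : AH π H) (hp : p.Prime) (hπ : p ∈ π) (h2 : p ≠ 2) (hn : p ≤ Fintype.card α) :
    ∃ c ∈ H, c.IsCycle ∧ c.support.card = p := by
  obtain ⟨τ, hτ, hc⟩ := h.fam hp hπ h2
  obtain ⟨c, hc', -⟩ := hτ.meet hp.pos (D := univ) hn
  exact ⟨c, hc c hc', (mem_cycleFactorsFinset_iff.1 hc').1, hτ.len c hc'⟩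

theorem fix_of_coprime (hx : (g ^ k) x = x) (hk : k.Coprime (orderOf g)) : g x = x := by
  obtain ⟨m, hm⟩ := exists_pow_eq_self_of_coprime hk
  rw [← hm]
  exact pow_apply_eq_self_of_apply_eq_self hx m

theorem overlap (hσ : σ.IsCycle) (hq : σ.support.card.Prime) {Γ : Finset α} (h2 : 2 ≤ Γ.card)
    (hl : Γ.card < σ.support.card) (hx : x ∈ Γ) (hxs : x ∈ σ.support) :
    ∃ i : ℕ, (∃ u ∈ Γ, (σ ^ i) u ∈ Γ) ∧ ∃ v ∈ Γ, (σ ^ i) v ∉ Γ := by
  have key : ∀ ρ : Perm α, ρ.IsCycle → ρ.support = σ.support → ∃ v ∈ Γ, ρ v ∉ Γ := by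
    intro ρ hρ hs
    by_contra hc
    push Not at hc
    have := card_le_card (supp_sub hρ hx (hs ▸ hxs) hc)
    rw [hs] at this
    omega
  obtain ⟨y, hy, hyx⟩ := exists_mem_ne (by omega : 1 < Γ.card) x
  by_cases hys : y ∈ σ.support
  · obtain ⟨i, hi⟩ := hσ.exists_pow_eq (mem_support.1 hxs) (mem_support.1 hys)
    rw [← pow_mod_orderOf] at hi
    have h0 : 0 < i % orderOf σ := Nat.pos_of_ne_zero fun e => by
      rw [e] at hi; exact hyx hi.symm
    have h1 : i % orderOf σ < orderOf σ := Nat.mod_lt _ (orderOf_pos σ)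
    exact ⟨i % orderOf σ, ⟨x, hx, hi ▸ hy⟩, key _
      (hσ.isCycle_pow_pos_of_lt_prime_order (hσ.orderOf ▸ hq) _ h0 h1)
      (hσ.support_pow_of_pos_of_lt_orderOf h0 h1)⟩
  · exact ⟨1, ⟨y, hy, by rw [pow_one, notMem_support.1 hys]; exact hy⟩, by
      simpa using key σ hσ rfl⟩

theorem even_of_overlap (hc : c.IsCycle) (hcH : c ∈ H) (hh : h ∈ H)
    (h1 : ∃ u ∈ c.support, h u ∈ c.support) (h2 : ∃ v ∈ c.support, h v ∉ c.support) :
    2 ∣ Nat.card H := by
  classical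
  by_contra hodd
  obtain ⟨u0, hu0, hu0'⟩ := h1
  obtain ⟨v0, hv0, hv0'⟩ := h2
  set c' := h * c * h⁻¹ with hc'
  have hc'H : c' ∈ H := H.mul_mem (H.mul_mem hh hcH) (H.inv_mem hh)
  have hc'c : c'.IsCycle := hc.conj
  have ms : ∀ w ∈ c.support, h w ∈ c'.support := fun w hw => by
    rw [hc', support_conj]; exact mem_map_of_mem _ hw
  set Ω := c.support ∪ c'.support with hΩ
  let K : Subgroup (Perm α) := H ⊓ Subgroup.closure {c, c'}
  have cK : c ∈ K := ⟨hcH, Subgroup.subset_closure (by simp)⟩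
  have cK' : c' ∈ K := ⟨hc'H, Subgroup.subset_closure (by simp)⟩
  have hK : ∀ k ∈ K, ∀ w, w ∈ Ω ↔ k w ∈ Ω := by
    intro k hk
    have e : ∀ b : Perm α, b.support ⊆ Ω → ∀ w, w ∈ Ω ↔ b w ∈ Ω := fun b hb w => by
      by_cases hw : w ∈ b.support
      · exact iff_of_true (hb hw) (hb (apply_mem_support.2 hw))
      · rw [notMem_support.1 hw]
    refine Subgroup.closure_induction (p := fun k _ => ∀ w, w ∈ Ω ↔ k w ∈ Ω) ?_ (by simp) ?_ ?_ hk.2
    · rintro b (rfl | rfl)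
      · exact e _ subset_union_left
      · exact e _ subset_union_right
    · intro a b _ _ ha hb w
      exact (hb w).trans (ha _)
    · intro a _ ha w
      simpa using (ha (a⁻¹ w)).symm
  have tr : ∀ w ∈ Ω, ∃ k ∈ K, k (h v0) = w := by
    intro w hw
    rcases mem_union.1 hw with hw | hw
    · obtain ⟨i, hi⟩ := hc'c.exists_pow_eq (mem_support.1 (ms _ hv0)) (mem_support.1 (ms _ hu0))
      obtain ⟨j, hj⟩ := hc.exists_pow_eq (mem_support.1 hu0') (mem_support.1 hw)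
      exact ⟨c ^ j * c' ^ i, K.mul_mem (K.pow_mem cK _) (K.pow_mem cK' _), by
        rw [Perm.mul_apply, hi, hj]⟩
    · obtain ⟨i, hi⟩ := hc'c.exists_pow_eq (mem_support.1 (ms _ hv0)) (mem_support.1 hw)
      exact ⟨c' ^ i, K.pow_mem cK' _, hi⟩
  let E := Ω.offDiag.filter fun e => ∃ k ∈ K, k (h v0) = e.1 ∧ k u0 = e.2
  have hE : c.support.card * Ω.card ≤ E.card := by
    refine mul_card_image_le_card_of_maps_to (f := Prod.fst)
      (fun e he => (mem_offDiag.1 (mem_filter.1 he).1).1) _ fun w hw => ?_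
    obtain ⟨k, hk, hkw⟩ := tr w hw
    refine card_le_card_of_injOn (fun v => (w, k v)) (fun v hv => ?_)
      fun a _ b _ e => k.injective (Prod.ext_iff.1 e).2
    have hv : v ∈ c.support := hv
    obtain ⟨j, hj⟩ := hc.exists_pow_eq (mem_support.1 hu0) (mem_support.1 hv)
    refine mem_filter.2 ⟨mem_filter.2 ⟨mem_offDiag.2 ⟨hw, (hK k hk v).1 (mem_union_left _ hv),
      fun e => hv0' ?_⟩, k * c ^ j, K.mul_mem hk (K.pow_mem cK _), ?_, ?_⟩, rfl⟩
    · have : h v0 = v := k.injective (hkw.trans e)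
      rw [this]; exact hv
    · rw [Perm.mul_apply, pow_apply_eq_self_of_apply_eq_self (notMem_support.1 hv0'), hkw]
    · rw [Perm.mul_apply, hj]
  have hD : _root_.Disjoint E (E.map (Equiv.prodComm α α).toEmbedding) := by
    rw [disjoint_left]
    rintro ⟨u, v⟩ h1 h2
    rw [mem_map_equiv] at h2
    obtain ⟨hne, k1, hk1, a1, a2⟩ := mem_filter.1 h1
    obtain ⟨-, k2, hk2, b1, b2⟩ := mem_filter.1 h2
    simp only [Equiv.prodComm_symm, Equiv.prodComm_apply, Prod.swap_prod_mk] at a1 a2 b1 b2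
    have e1 : (k2 * k1⁻¹) u = v := by rw [← a1, ← b1]; simp
    have e2 : (k2 * k1⁻¹) v = u := by rw [← a2, ← b2]; simp
    have hm : k2 * k1⁻¹ ∈ H := H.mul_mem hk2.1 (H.inv_mem hk1.1)
    have := fix_of_coprime (g := k2 * k1⁻¹) (k := 2) (x := u)
      (by rw [pow_two, Perm.mul_apply, e1, e2])
      ((Nat.Prime.coprime_iff_not_dvd Nat.prime_two).2 fun hd =>
        hodd (hd.trans (H.orderOf_dvd_natCard hm)))
    exact (mem_offDiag.1 hne).2.2 (this.symm.trans e1)
  have hs : E ∪ E.map (Equiv.prodComm α α).toEmbedding ⊆ Ω.offDiag := by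
    refine union_subset (filter_subset _ _) fun e he => ?_
    rw [mem_map_equiv] at he
    have := mem_offDiag.1 (mem_filter.1 he).1
    exact mem_offDiag.2 ⟨this.2.1, this.1, this.2.2.symm⟩
  have h3 := card_le_card hs
  rw [card_union_of_disjoint hD, card_map, offDiag_card] at h3
  have h4 : Ω.card ≤ 2 * c.support.card := by
    have := card_union_le c.support c'.support
    have e : c'.support.card = c.support.card := card_support_conj
    rw [← hΩ] at this
    omega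
  have h5 : 0 < Ω.card := card_pos.2 ⟨u0, mem_union_left _ hu0⟩
  have h6 : Ω.card * Ω.card ≤ 2 * c.support.card * Ω.card := Nat.mul_le_mul_right _ h4
  have h7 : Ω.card ≤ Ω.card * Ω.card := Nat.le_mul_of_pos_left _ h5
  rw [mul_assoc] at h6
  omega

theorem AH.two (h : AH π H) (hp : p.Prime) (hq : q.Prime) (hpq : p < q) (hpπ : p ∈ π)
    (hqπ : q ∈ π) (hn : q ≤ Fintype.card α) : 2 ∈ π := by
  by_cases h2 : p = 2
  · exact h2 ▸ hpπ
  have := hp.two_le
  obtain ⟨σ, hσH, hσ, hσq⟩ := h.cyc hq hqπ (by omega) hn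
  obtain ⟨τ, hτ, hτH⟩ := h.fam hp hpπ h2
  obtain ⟨c, hc, x, hx, hxc⟩ := hτ.meet hp.pos (D := σ.support) (by omega)
  have hl := hτ.len c hc
  obtain ⟨i, h1, h2⟩ := overlap hσ (hσq ▸ hq) (Γ := c.support) (by omega) (by omega) hxc hx
  exact h.pi 2 Nat.prime_two (even_of_overlap (mem_cycleFactorsFinset_iff.1 hc).1 (hτH c hc)
    (H.pow_mem hσH i) h1 h2)

theorem three_of (hs : s ∈ H) (ht : t ∈ H) {b : α} (hb : b ≠ x) (s1 : s a = x)
    (s0 : s x = a) (s2 : s b = b) (t0 : t x = b) (t1 : t b = x) (t2 : t a = a) :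
    3 ∣ Nat.card H := by
  by_contra h3
  have := fix_of_coprime (g := s * t) (k := 3) (x := x)
    (by simp [pow_succ, s0, s1, s2, t0, t1, t2])
    ((Nat.Prime.coprime_iff_not_dvd Nat.prime_three).2 fun hd =>
        h3 (hd.trans (H.orderOf_dvd_natCard (H.mul_mem hs ht))))
  rw [Perm.mul_apply, t0, s2] at this
  exact hb this

/-- a near-perfect matching all of whose double transpositions lie in `H` -/
structure Mt (H : Subgroup (Perm α)) (τ : Perm α) : Prop where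
  inv : ∀ x, τ (τ x) = x
  one : ∀ x y, τ x = x → τ y = y → x = y
  mem : ∀ x y, τ x ≠ x → τ y ≠ y → swap x (τ x) * swap y (τ y) ∈ H

theorem Mt.conj (h : Mt H τ) (hg : g ∈ H) : Mt H (g * τ * g⁻¹) := by
  refine ⟨fun x => by simp [h.inv], fun x y hx hy => ?_, fun x y hx hy => ?_⟩
  · refine g⁻¹.injective (h.one _ _ (g.injective ?_) (g.injective ?_))
    · simpa using hx
    · simpa using hy
  · have := H.mul_mem (H.mul_mem hg (h.mem (g⁻¹ x) (g⁻¹ y) (fun e => hx (by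
      rw [Perm.mul_apply, Perm.mul_apply, e]; simp))
      fun e => hy (by rw [Perm.mul_apply, Perm.mul_apply, e]; simp))) (H.inv_mem hg)
    rw [← conj_mul, ← swap_apply_apply, ← swap_apply_apply] at this
    simpa using this

theorem AH.mt (h : AH π H) (h2 : 2 ∈ π) : ∃ τ, Mt H τ := by
  obtain ⟨S, hS, hSH⟩ := h.big Nat.prime_two h2
  obtain ⟨τ, hτ, hc⟩ := exists_fam Nat.prime_two le_rfl hS
  rw [pow_one] at hτ
  have hi : ∀ x, τ (τ x) = x := fun x => by
    rw [← Perm.mul_apply, ← pow_two, hτ.pw, Perm.one_apply]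
  refine ⟨τ, hi, fun x y hx hy => ?_, fun x y hx hy => ?_⟩
  · have := hτ.rest
    exact card_le_one.1 (show τ.supportᶜ.card ≤ 1 by omega) x (by simp [hx]) y (by simp [hy])
  · have key : ∀ x, τ x ≠ x → swap x (τ x) ∈ S := fun x hx => by
      have h1 := cycleOf_mem_cycleFactorsFinset_iff.2 (mem_support.2 hx)
      have h2 := (mem_cycleFactorsFinset_iff.1 h1).1.eq_swap_of_apply_apply_eq_self (x := x)
        (by simpa using hx) (by
          rw [cycleOf_apply_self, cycleOf_apply_apply_self, hi])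
      rw [cycleOf_apply_self] at h2
      exact h2 ▸ hc _ h1
    refine hSH ⟨S.mul_mem (key x hx) (key y hy), ?_⟩
    show _ ∈ alternatingGroup α
    simp [mem_alternatingGroup, hx.symm, hy.symm]

theorem Mt.ex (h : Mt H τ) (h6 : 6 ≤ Fintype.card α) (hx : τ x ≠ x) {b : α} (hb : b ≠ x)
    (hb' : b ≠ τ x) : ∃ s ∈ H, s x = τ x ∧ s (τ x) = x ∧ s b = b := by
  have h1 : (univ.filter fun w => τ w = w).card ≤ 1 :=
    card_le_one.2 fun u hu v hv => h.one u v (by simpa using hu) (by simpa using hv)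
  have h2 : ({x, τ x, b, τ b} : Finset α).card ≤ 4 := card_le_four
  obtain ⟨y, -, hy⟩ := exists_mem_notMem_of_card_lt_card (t := univ)
    (s := {x, τ x, b, τ b} ∪ univ.filter fun w => τ w = w)
    ((card_union_le _ _).trans_lt (by rw [card_univ]; omega))
  simp only [mem_union, mem_insert, mem_singleton, mem_filter, mem_univ, true_and, not_or] at hy
  obtain ⟨⟨y1, y2, y3, y4⟩, y5⟩ := hy
  have z1 : x ≠ τ y := fun e => y2 (by rw [e, h.inv])
  have z2 : τ x ≠ τ y := fun e => y1 (τ.injective e).symm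
  have z3 : b ≠ τ y := fun e => y4 (by rw [e, h.inv])
  refine ⟨_, h.mem x y hx y5, ?_, ?_, ?_⟩
  · rw [Perm.mul_apply, swap_apply_of_ne_of_ne (Ne.symm y1) z1, swap_apply_left]
  · rw [Perm.mul_apply, swap_apply_of_ne_of_ne (Ne.symm y2) z2, swap_apply_right]
  · rw [Perm.mul_apply, swap_apply_of_ne_of_ne (Ne.symm y3) z3, swap_apply_of_ne_of_ne hb hb']

theorem Mt.three {τ' : Perm α} (h : Mt H τ) (h' : Mt H τ') (h6 : 6 ≤ Fintype.card α)
    (hne : τ ≠ τ') : 3 ∣ Nat.card H := by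
  have key : ∀ {ρ ρ' : Perm α}, Mt H ρ → Mt H ρ' → ∀ w, ρ w = w → ρ' w ≠ w →
      ∃ x, ρ x ≠ x ∧ ρ' x ≠ x ∧ ρ x ≠ ρ' x := fun {ρ ρ'} a b w h1 h2 =>
    ⟨ρ' w, fun e => h2 (a.one _ _ e h1), fun e => h2 (by rw [b.inv] at e; exact e.symm),
      fun e => h2 (ρ.injective (by rw [e, b.inv, h1]))⟩
  obtain ⟨x, h1, h2, h3⟩ : ∃ x, τ x ≠ x ∧ τ' x ≠ x ∧ τ x ≠ τ' x := by
    obtain ⟨w, hw⟩ : ∃ w, τ w ≠ τ' w := by
      by_contra hc
      push Not at hc
      exact hne (Equiv.ext hc)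
    by_cases a : τ w = w
    · exact key h h' w a fun e => hw (a.trans e.symm)
    by_cases b : τ' w = w
    · obtain ⟨x, a1, a2, a3⟩ := key h' h w b a
      exact ⟨x, a2, a1, a3.symm⟩
    exact ⟨w, a, b, hw⟩
  obtain ⟨s, hs, s0, s1, s2⟩ := h.ex h6 h1 h2 h3.symm
  obtain ⟨t, ht, t0, t1, t2⟩ := h'.ex h6 h2 h1 h3
  exact three_of hs ht h2 s1 s0 s2 t0 t1 t2

theorem AH.three (h : AH π H) (h2 : 2 ∈ π) (hq : q.Prime) (hq2 : q ≠ 2) (hqπ : q ∈ π)
    (hn : q ≤ Fintype.card α) : 3 ∈ π := by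
  by_contra h3
  have hq3 : q ≠ 3 := fun e => h3 (e ▸ hqπ)
  have hq5 : 5 ≤ q := hq.five_le_of_ne_two_of_ne_three hq2 hq3
  by_cases h6 : 6 ≤ Fintype.card α
  · obtain ⟨σ, hσH, hσ, hσq⟩ := h.cyc hq hqπ hq2 hn
    obtain ⟨τ, hτ⟩ := h.mt h2
    refine h3 (h.pi 3 Nat.prime_three (hτ.three (hτ.conj hσH) h6 fun e => ?_))
    have hc : Commute τ σ := by
      rw [eq_mul_inv_iff_mul_eq] at e; exact e
    obtain ⟨x, hx, hτx⟩ : ∃ x ∈ σ.support, τ x ≠ x := by
      obtain ⟨u, hu, v, hv, huv⟩ := one_lt_card.1 (show 1 < σ.support.card by omega)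
      by_cases a : τ u = u
      · exact ⟨v, hv, fun b => huv (hτ.one _ _ a b)⟩
      · exact ⟨u, hu, a⟩
    have hx' : σ (τ x) ≠ τ x := fun e => mem_support.1 hx (τ.injective (by
      rw [← Perm.mul_apply, hc.eq, Perm.mul_apply, e]))
    obtain ⟨i, hi⟩ := hσ.exists_pow_eq (mem_support.1 hx) hx'
    refine hτx (hi ▸ fix_of_coprime (k := 2) ?_ ?_)
    · rw [pow_two, Perm.mul_apply, hi, ← Perm.mul_apply, ← (hc.pow_right i).eq, Perm.mul_apply, hi,
        hτ.inv]
    · refine Nat.Coprime.coprime_dvd_right (orderOf_pow_dvd i) ?_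
      rw [hσ.orderOf, hσq]
      exact (Nat.coprime_primes Nat.prime_two hq).2 hq2.symm
  have h5 : Nat.card α = 5 := by rw [Nat.card_eq_fintype_card]; omega
  obtain rfl : q = 5 := by omega
  have : Nontrivial α := Finite.one_lt_card_iff_nontrivial.1 (by omega)
  have := alternatingGroup.isSimpleGroup (α := α) h5.ge
  have hA : Nat.card (alternatingGroup α) = 60 := by rw [nat_card_alternatingGroup, h5]; rfl
  have i1 : H.relIndex (alternatingGroup α) ∣ 60 := hA ▸ Subgroup.index_dvd_card _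
  have i2 := h.idx 2 Nat.prime_two h2
  have i3 := h.idx 5 hq hqπ
  have i4 : H.relIndex (alternatingGroup α) = 1 ∨ H.relIndex (alternatingGroup α) = 3 := by
    have := Nat.le_of_dvd (by norm_num) i1
    generalize H.relIndex (alternatingGroup α) = j at *
    interval_cases j <;> simp_all
  rcases i4 with i4 | i4
  · rw [Subgroup.relIndex_eq_one] at i4
    exact h3 (h.pi 3 Nat.prime_three ((show 3 ∣ 60 by norm_num).trans
      (hA ▸ Subgroup.card_dvd_of_le i4)))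
  · have := H6.card_dvd_factorial_of_simple (H := H.subgroupOf (alternatingGroup α)) fun e => by
      rw [Subgroup.relIndex, e, Subgroup.index_top] at i4; omega
    rw [hA, show (H.subgroupOf (alternatingGroup α)).index = 3 from i4] at this
    norm_num [Nat.factorial] at this

end H11.HS
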