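import Cfsg.Agent.H11.HS2

/-! The partition defined by the three-cycles of a subgroup of a symmetric group. -/

set_option autoImplicit false
set_option linter.unusedSectionVars false

namespace H11.HS

open Equiv Equiv.Perm Finset H16 H25 _root_.Cfsg

variable {α ι : Type*} [Fintype α] [DecidableEq α] [DecidableEq ι] {τ σ c g h s t : Perm α}
  {d p q k : ℕ} {x y z a b : α} {f : α → ι} {H S : Subgroup (Perm α)} {π : Set ℕ}

def T (H : Subgroup (Perm α)) (x y z : α) : Prop :=
  x ≠ y ∧ y ≠ z ∧ x ≠ z ∧ swap x y * swap y z ∈ H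

theorem T.rot (h : T H x y z) : T H y z x := by
  obtain ⟨h1, h2, h3, h4⟩ := h
  refine ⟨h2, h3.symm, h1.symm, ?_⟩
  convert h4 using 1
  ext w
  simp only [Perm.mul_apply, swap_apply_def]
  grind

theorem T.rev (h : T H x y z) : T H z y x := by
  obtain ⟨h1, h2, h3, h4⟩ := h
  refine ⟨h2.symm, h1.symm, h3.symm, ?_⟩
  simpa [swap_comm] using H.inv_mem h4

theorem T.sw (h : T H x y z) : T H y x z := h.rot.rot.rev

theorem T.conj (h : T H x y z) (hg : g ∈ H) : T H (g x) (g y) (g z) := by
  obtain ⟨h1, h2, h3, h4⟩ := h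
  refine ⟨g.injective.ne h1, g.injective.ne h2, g.injective.ne h3, ?_⟩
  rw [swap_apply_apply, swap_apply_apply, conj_mul]
  exact H.mul_mem (H.mul_mem hg h4) (H.inv_mem hg)

theorem T.two (h : T H x y a) (h' : T H y z a) (hxz : x ≠ z) : T H x y z := by
  have := h.conj h'.2.2.2
  obtain ⟨h1, h2, h3, -⟩ := h
  obtain ⟨k1, k2, k3, -⟩ := h'
  have e1 : (swap y z * swap z a) x = x := by simp only [Perm.mul_apply, swap_apply_def]; grind
  have e2 : (swap y z * swap z a) y = z := by simp only [Perm.mul_apply, swap_apply_def]; grind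
  have e3 : (swap y z * swap z a) a = y := by simp only [Perm.mul_apply, swap_apply_def]; grind
  rw [e1, e2, e3] at this
  exact this.rev.rot.rot

theorem T.one (h : T H x y a) (h' : T H y z b) (hxz : x ≠ z) : T H x y z := by
  by_cases e1 : a = z
  · exact e1 ▸ h
  by_cases e2 : b = x
  · subst e2; exact h'.rot.rot
  by_cases e3 : a = b
  · subst e3; exact h.two h' hxz
  have := h.conj h'.2.2.2
  have hh := h
  obtain ⟨h1, h2, h3, -⟩ := h
  obtain ⟨k1, k2, k3, -⟩ := h'
  have f1 : (swap y z * swap z b) x = x := by simp only [Perm.mul_apply, swap_apply_def]; grind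
  have f2 : (swap y z * swap z b) y = z := by simp only [Perm.mul_apply, swap_apply_def]; grind
  have f3 : (swap y z * swap z b) a = a := by simp only [Perm.mul_apply, swap_apply_def]; grind
  rw [f1, f2, f3] at this
  exact (hh.sw.two this k1).sw

theorem T.of_three (hc : c.IsThreeCycle) (hcH : c ∈ H) (hx : x ∈ c.support) :
    T H x (c x) (c (c x)) := by
  have := hc.nodup_iff_mem_support.2 hx
  refine ⟨by grind, by grind, by grind, ?_⟩
  rw [← hc.eq_swap_mul_swap_iff_mem_support.2 hx]
  exact hcH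

def Rr (H : Subgroup (Perm α)) (x : α) : Prop := ∀ y z, ¬ T H x y z

def tS (H : Subgroup (Perm α)) : Setoid α where
  r x y := x = y ∨ (∃ z, T H x y z) ∨ (Rr H x ∧ Rr H y)
  iseqv := by
    refine ⟨fun _ => .inl rfl, ?_, ?_⟩
    · rintro x y (h | ⟨z, h⟩ | h)
      · exact .inl h.symm
      · exact .inr (.inl ⟨z, h.sw⟩)
      · exact .inr (.inr h.symm)
    · rintro x y z (rfl | ⟨a, h⟩ | h) h'
      · exact h'
      · rcases h' with rfl | ⟨b, h'⟩ | h'
        · exact .inr (.inl ⟨a, h⟩)
        · by_cases e : x = z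
          · exact .inl e
          · exact .inr (.inl ⟨y, (h.one h' e).rev.rot.rot⟩)
        · exact absurd h.sw (h'.1 _ _)
      · rcases h' with rfl | ⟨b, h'⟩ | h'
        · exact .inr (.inr h)
        · exact absurd h' (h.2 _ _)
        · exact .inr (.inr ⟨h.1, h'.2⟩)

def tf (H : Subgroup (Perm α)) (x : α) : Quotient (tS H) := Quotient.mk _ x

noncomputable instance (H : Subgroup (Perm α)) : DecidableEq (Quotient (tS H)) := Classical.decEq _

theorem tf_eq : tf H x = tf H y ↔ x = y ∨ (∃ z, T H x y z) ∨ (Rr H x ∧ Rr H y) := Quotient.eq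

theorem le_tf : H ≤ partStab (tf H) := by
  refine le_partStab_of fun g hg x y h => ?_
  have key : ∀ w, Rr H w → Rr H (g w) := fun w hw u v h => hw (g⁻¹ u) (g⁻¹ v) (by
    simpa using h.conj (H.inv_mem hg))
  rcases tf_eq.1 h with rfl | ⟨z, h⟩ | h
  · rfl
  · exact tf_eq.2 (.inr (.inl ⟨_, h.conj hg⟩))
  · exact tf_eq.2 (.inr (.inr ⟨key _ h.1, key _ h.2⟩))

theorem T.tf (h : T H x y z) : tf H y = tf H x := tf_eq.2 (.inr (.inl ⟨z, h.sw⟩))

theorem rr_congr (h : tf H x = tf H y) (hx : Rr H x) : Rr H y := by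
  rcases tf_eq.1 h with rfl | ⟨z, h⟩ | h
  · exact hx
  · exact absurd h (hx _ _)
  · exact h.2

theorem three_le (hx : ¬ Rr H x) : 3 ≤ (fib (tf H) x).card := by
  simp only [Rr, not_forall, not_not] at hx
  obtain ⟨y, z, h⟩ := hx
  refine two_lt_card.2 ⟨x, self_mem_fib, y, mem_fib.2 h.tf, z, mem_fib.2 h.rev.rot.rot.tf,
    h.1, h.2.2.1, h.2.1⟩

theorem t_of_fib (hx : ¬ Rr H x) (ha : tf H a = tf H x) (hb : tf H b = tf H x)
    (hz : tf H z = tf H x) (h1 : a ≠ b) (h2 : b ≠ z) (h3 : a ≠ z) : T H a b z := by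
  have key : ∀ u v, tf H u = tf H x → tf H v = tf H x → u ≠ v → ∃ w, T H u v w := by
    intro u v hu hv huv
    rcases tf_eq.1 (hu.trans hv.symm) with e | e | e
    · exact absurd e huv
    · exact e
    · exact absurd (rr_congr hu e.1) hx
  obtain ⟨u, hu⟩ := key a b ha hb h1
  obtain ⟨v, hv⟩ := key b z hb hz h2
  exact hu.one hv h3

theorem AH.rr_le (h : AH π H) (h3 : 3 ∈ π) (hx : Rr H x) : (fib (tf H) x).card ≤ 2 := by
  obtain ⟨τ, hτ, hH⟩ := h.fam Nat.prime_three h3 (by norm_num)
  have : fib (tf H) x ⊆ τ.supportᶜ := fun y hy => mem_compl.2 fun hs => by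
    obtain ⟨c, hc, hyc⟩ := mem_support_iff_mem_support_of_mem_cycleFactorsFinset.1 hs
    exact rr_congr (mem_fib.1 hy).symm hx _ _
      (T.of_three (card_support_eq_three_iff.1 (hτ.len c hc)) (hH c hc) hyc)
  have := card_le_card this
  have := hτ.rest
  omega

theorem dvd_of_fib (hx : ¬ Rr H x) (hp : p.Prime) (h2 : p ≠ 2) (hc : p ≤ (fib (tf H) x).card) :
    p ∣ Nat.card H := by
  set C := fib (tf H) x with hC
  have h3 : 3 ≤ C.card := three_le hx
  have hle : alternatingGroup C ≤ H.comap (ofSubtype (p := (· ∈ C))) := by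
    rw [← closure_three_cycles_eq_alternating, Subgroup.closure_le]
    intro c hc
    have hc : c.IsThreeCycle := hc
    obtain ⟨u, hu⟩ := hc.isCycle.nonempty_support
    have := hc.nodup_iff_mem_support.2 hu
    show ofSubtype c ∈ H
    rw [hc.eq_swap_mul_swap_iff_mem_support.2 hu, map_mul, ofSubtype_swap_eq, ofSubtype_swap_eq]
    refine (t_of_fib hx (mem_fib.1 u.2) (mem_fib.1 (c u).2) (mem_fib.1 (c (c u)).2) ?_ ?_ ?_).2.2.2
    all_goals
      intro e
      have := Subtype.ext e
      grind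
  have hN : Nontrivial C := by
    rw [← Fintype.one_lt_card_iff_nontrivial, Fintype.card_coe]; omega
  have h4 : p ∣ Nat.card (alternatingGroup C) := by
    refine ((Nat.coprime_primes hp Nat.prime_two).2 h2).dvd_of_dvd_mul_left ?_
    rw [two_mul_nat_card_alternatingGroup, Nat.card_perm, Nat.card_eq_fintype_card,
      Fintype.card_coe]
    exact (hp.dvd_factorial).2 hc
  exact h4.trans ((Subgroup.card_dvd_of_le hle).trans
    (Subgroup.card_comap_dvd_of_injective _ _ ofSubtype_injective))

theorem index_dvd_of_odd {M : Subgroup (Perm α)} (hM : H ≤ M) (hs : s ∈ M) (ho : sign s = -1) :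
    M.index ∣ H.relIndex (alternatingGroup α) := by
  have : Nontrivial α := by
    by_contra hc
    rw [not_nontrivial_iff_subsingleton] at hc
    rw [Subsingleton.elim s 1, map_one] at ho
    exact absurd ho (by decide)
  have e1 := Subgroup.relIndex_mul_index (inf_le_left : M ⊓ alternatingGroup α ≤ M)
  have e2 := Subgroup.relIndex_mul_index (inf_le_right : M ⊓ alternatingGroup α ≤ _)
  rw [Subgroup.inf_relIndex_left] at e1
  rw [Subgroup.inf_relIndex_right, alternatingGroup.index_eq_two] at e2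
  have e3 : (alternatingGroup α).relIndex M = 2 := by
    have d1 : (alternatingGroup α).relIndex M ∣ 2 := by
      rw [← alternatingGroup.index_eq_two (α := α)]
      exact Subgroup.relIndex_dvd_index_of_normal _ _
    refine ((Nat.dvd_prime Nat.prime_two).1 d1).resolve_left fun e => ?_
    have := mem_alternatingGroup.1 (Subgroup.relIndex_eq_one.1 e hs)
    rw [ho] at this
    exact absurd this (by decide)
  rw [e3] at e1
  rw [show M.index = M.relIndex (alternatingGroup α) by omega]
  exact Subgroup.relIndex_dvd_of_le_left _ hM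

/-- stabiliser of the partition `{C, Cᶜ}` -/
def MC (C : Finset α) : Subgroup (Perm α) := partStab fun x => decide (x ∈ C)

theorem mem_MC {C : Finset α} :
    g ∈ MC C ↔ ∀ x y, (x ∈ C ↔ y ∈ C) ↔ (g x ∈ C ↔ g y ∈ C) := by
  simp [MC, mem_partStab]

theorem le_MC (hxy : f x ≠ f y) (hu : ∀ w, f w = f x ∨ f w = f y) :
    partStab f ≤ MC (fib f x) ∧ Fintype.card α = (fib f x).card + (fib f y).card := by
  constructor
  · intro g hg
    have key : ∀ u v, (u ∈ fib f x ↔ v ∈ fib f x) ↔ f u = f v := fun u v => by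
      rw [mem_fib, mem_fib]
      rcases hu u with a | a <;> rcases hu v with b | b <;> simp [a, b, hxy, hxy.symm]
    exact mem_MC.2 fun u v => by rw [key, key]; exact hg u v
  · rw [← card_union_of_disjoint (fib_disj hxy), ← card_univ]
    congr 1
    ext w
    simpa [mem_fib] using hu w

theorem third (hxy : f x ≠ f y) (h : (fib f x).card + (fib f y).card ≠ Fintype.card α) :
    ∃ w, f w ≠ f x ∧ f w ≠ f y := by
  by_contra hc
  push Not at hc
  exact h (le_MC hxy fun w => or_iff_not_imp_left.2 (hc w)).2.symm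

/-- the possible shapes -/
def Shape (π : Set ℕ) (n k : ℕ) : Prop :=
  (k = 1 ∧ n.Prime ∧ 3 < n ∧ ∀ r, r.Prime → r ≤ n → (r ∈ π ↔ r < n)) ∨
    (k = 4 ∧ (n = 7 ∨ n = 8) ∧ ∀ r, r.Prime → r ≤ n → (r ∈ π ↔ r = 2 ∨ r = 3))

theorem AH.shape (h : AH π H)
    (h2 : ∃ r s : ℕ, r.Prime ∧ s.Prime ∧ r ≠ s ∧ r ∈ π ∧ s ∈ π ∧ r ≤ Fintype.card α ∧
      s ≤ Fintype.card α) (hns : ∃ r : ℕ, r.Prime ∧ r ≤ Fintype.card α ∧ r ∉ π) :
    ∃ C : Finset α, H ≤ MC C ∧ Shape π (Fintype.card α) C.card := by
  obtain ⟨p, q, hp, hq, hpq, hpπ, hqπ, hqn⟩ : ∃ p q : ℕ, p.Prime ∧ q.Prime ∧ p < q ∧ p ∈ π ∧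
      q ∈ π ∧ q ≤ Fintype.card α := by
    obtain ⟨r, s, a1, a2, a3, a4, a5, a6, a7⟩ := h2
    rcases lt_or_gt_of_ne a3 with a | a
    · exact ⟨r, s, a1, a2, a, a4, a5, a7⟩
    · exact ⟨s, r, a2, a1, a, a5, a4, a6⟩
  obtain ⟨r0, hr0, hr0n, hr0π⟩ := hns
  have := hp.two_le
  have π2 := h.two hp hq hpq hpπ hqπ hqn
  have π3 := h.three π2 hq (by omega) hqπ hqn
  set f := tf H with hf
  obtain ⟨c, hcH, hc, hc3⟩ := h.cyc Nat.prime_three π3 (by norm_num) (by omega)
  obtain ⟨x1, hx1⟩ := hc.nonempty_support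
  have T1 := T.of_three (card_support_eq_three_iff.1 hc3) hcH hx1
  have hM : ∀ p, p.Prime → p ∈ π → ¬ p ∣ (partStab f).index := fun p hp hπ hd =>
    h.idx p hp hπ (hd.trans (index_dvd_of_odd le_tf (swap_mem_partStab T1.tf.symm)
      (sign_swap T1.1)))
  have hπ : ∀ x p, p.Prime → p ≤ (fib f x).card → p ∈ π := by
    intro x p hp hc
    by_cases e : p = 2
    · exact e ▸ π2
    by_cases hx : Rr H x
    · have : (fib f x).card ≤ 2 := h.rr_le π3 hx
      have := hp.two_le
      omega
    · exact h.pi p hp (dvd_of_fib hx hp e hc)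
  have hM' : ∀ x p, p.Prime → p ≤ (fib f x).card → ¬ p ∣ (partStab f).index :=
    fun x p hp hc => hM p hp (hπ x p hp hc)
  have rep : ∀ u v, f u ≠ f v → (fib f u).card = (fib f v).card → (fib f u).card = 4 := by
    intro u v huv he
    by_cases hu : Rr H u
    · by_cases hv : Rr H v
      · exact absurd (tf_eq.2 (.inr (.inr ⟨hu, hv⟩))) huv
      · have : (fib f u).card ≤ 2 := h.rr_le π3 hu
        have : 3 ≤ (fib f v).card := three_le hv
        omega
    · exact eq_four (hM' u) (three_le hu) huv he.symm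
  have gd : ∀ d u, (fib f u).card ≠ 4 ∨ d < 8 → Good f d u := fun d u hu a v hv e => by
    have := rep u v hv.symm e.symm
    omega
  have fin : ∀ x y, f x ≠ f y → (fib f x).card = 4 → 3 ≤ (fib f y).card → (fib f y).card ≤ 4 →
      (∀ w, f w = f x ∨ f w = f y) → ∃ C : Finset α, H ≤ MC C ∧ Shape π (Fintype.card α) C.card := by
    intro x y hxy a b b' hu
    obtain ⟨e1, e2⟩ := le_MC hxy hu
    refine ⟨_, le_tf.trans e1, .inr ⟨a, by omega, fun r hr hrn => ⟨fun hrπ => ?_, ?_⟩⟩⟩
    · by_contra hc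
      rw [not_or] at hc
      have h5 := hr.five_le_of_ne_two_of_ne_three hc.1 hc.2
      have h8 : r ≠ 8 := by rintro rfl; norm_num at hr
      have := mod2 (k := 1) hr (hM r hr hrπ) (gd _ x (.inr (by rw [pow_one]; omega)))
        (gd _ y (.inr (by rw [pow_one]; omega))) hxy
      rw [pow_one, Nat.mod_eq_of_lt (by omega), Nat.mod_eq_of_lt (by omega)] at this
      have := Nat.mod_lt (Fintype.card α) hr.pos
      have := Nat.mod_le (Fintype.card α) r
      have := Nat.mod_add_div (Fintype.card α) r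
      have : 1 ≤ Fintype.card α / r := (Nat.le_div_iff_mul_le hr.pos).2 (by omega)
      nlinarith
    · rintro (rfl | rfl)
      · exact π2
      · exact π3
  by_cases hu : ∀ u v, f u ≠ f v → (fib f u).card ≠ (fib f v).card
  · obtain ⟨x, -, hx⟩ := exists_max_image univ (fun x => (fib f x).card) ⟨x1, mem_univ _⟩
    have c3 : 3 ≤ (fib f x).card := (three_le fun e => e _ _ T1).trans (hx x1 (mem_univ _))
    have nc : ∀ y, f y ≠ f x → (fib f y).card = 1 ∨ (fib f y).card = 3 ∧ (fib f x).card = 4 := by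
      intro y hy
      by_cases e : (fib f y).card = 1
      · exact .inl e
      · have := fib_pos (f := f) (x := y)
        exact .inr (nc_main (nc_of_unique (hM' x) hu hy) (by omega) (hx y (mem_univ _)))
    by_cases h3 : ∃ y, f y ≠ f x ∧ (fib f y).card = 3
    · obtain ⟨y, hy, hy3⟩ := h3
      have hx4 := nc y hy
      refine fin x y hy.symm (by omega) (by omega) (by omega) fun w => ?_
      by_contra hw
      rw [not_or] at hw
      have a1 := nc w hw.1
      have a2 := hu w y hw.2
      have := mod2 (k := 1) Nat.prime_two (hM 2 Nat.prime_two π2) (gd _ w (.inr (by norm_num)))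
        (gd _ y (.inr (by norm_num))) hw.2
      omega
    · obtain ⟨y, hy⟩ : ∃ y, f y ≠ f x := by
        by_contra hc
        push Not at hc
        refine hr0π (hπ x r0 hr0 (hr0n.trans (le_of_eq ?_)))
        rw [← card_univ]
        congr 1
        ext w
        simp [mem_fib, hc w]
      have one : ∀ w, f w ≠ f x → (fib f w).card = 1 := fun w hw =>
        (nc w hw).resolve_right fun e => h3 ⟨w, hw, e.1⟩
      obtain ⟨e1, e2⟩ := le_MC hy fun w => by
        by_contra hw
        rw [not_or] at hw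
        exact hu w y hw.1 (by rw [one w hw.2, one y hy])
      have e3 := one y hy
      have e4 : r0 = Fintype.card α := by
        by_contra e
        exact hr0π (hπ x r0 hr0 (by omega))
      refine ⟨_, le_tf.trans e1, .inl ⟨e3, e4 ▸ hr0, by omega, fun r hr hrn =>
        ⟨fun hrπ => lt_of_le_of_ne hrn fun e => hr0π (by rw [e4, ← e]; exact hrπ),
          fun e => hπ x r hr (by omega)⟩⟩⟩
  · push Not at hu
    obtain ⟨x, y, hxy, he⟩ := hu
    have x4 := rep x y hxy he
    refine fin x y hxy x4 (by omega) (by omega) fun w => ?_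
    by_contra hw
    rw [not_or] at hw
    have key : ∀ w, f w ≠ f x → f w ≠ f y → (fib f w).card = 3 := by
      intro w h1 h2
      have a1 := mod3 (k := 1) Nat.prime_three (hM 3 Nat.prime_three π3)
        (gd _ x (.inr (by norm_num))) (gd _ y (.inr (by norm_num))) (gd _ w (.inr (by norm_num)))
        hxy h1.symm h2.symm
      have a2 := fib_pos (f := f) (x := w)
      by_contra a3
      have π5 := hπ w 5 Nat.prime_five (by omega)
      have := mod2 (k := 1) Nat.prime_five (hM 5 Nat.prime_five π5) (gd _ x (.inr (by norm_num)))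
        (gd _ y (.inr (by norm_num))) hxy
      omega
    have w3 := key w hw.1 hw.2
    have hn : Fintype.card α = 11 := by
      have : (univ : Finset α) = fib f x ∪ fib f y ∪ fib f w := by
        ext v
        simp only [mem_univ, mem_union, mem_fib, true_iff]
        by_contra hv
        simp only [not_or] at hv
        have := rep v w hv.2 (by rw [w3, key v hv.1.1 hv.1.2])
        have := key v hv.1.1 hv.1.2
        omega
      rw [← card_univ, this, card_union_of_disjoint (disjoint_union_left.2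
        ⟨fib_disj (Ne.symm hw.1), fib_disj (Ne.symm hw.2)⟩), card_union_of_disjoint (fib_disj hxy)]
      omega
    have := mod1 (k := 2) Nat.prime_three (hM 3 Nat.prime_three π3) (gd _ w (.inl (by omega)))
    rw [w3, hn] at this
    norm_num at this

end H11.HS
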