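import Cfsg.Agent.H11.HS3

/-! Hall subgroups of symmetric and alternating groups. -/

set_option autoImplicit false
set_option linter.unusedSectionVars false

namespace H11.HS

open Equiv Equiv.Perm Finset H16 H25 _root_.Cfsg MulAction
open scoped Pointwise

variable {α : Type*} [Fintype α] [DecidableEq α] {g : Perm α} {C D : Finset α}
  {p k k' n : ℕ} {H K : Subgroup (Perm α)} {π : Set ℕ}

theorem mem_SC : g ∈ stabilizer (Perm α) C ↔ ∀ x, x ∈ C ↔ g x ∈ C := by
  rw [mem_stabilizer_iff]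
  constructor
  · intro h x
    conv_rhs => rw [← h]
    exact (smul_mem_smul_finset_iff g).symm
  · intro h
    ext x
    rw [← inv_smul_mem_iff, h]
    simp

theorem index_SC (C : Finset α) :
    (stabilizer (Perm α) C).index = (Fintype.card α).choose C.card := by
  rw [index_stabilizer, ← card_univ, ← card_powersetCard, ← Set.ncard_coe_finset]
  congr 1
  ext D
  rw [mem_coe, mem_powersetCard_univ, mem_orbit_iff]
  constructor
  · rintro ⟨g, rfl⟩
    exact card_smul_finset g C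
  · intro h
    obtain ⟨g, hg⟩ := Perm.exists_map_finset_eq C D h.symm
    exact ⟨g, by rw [← hg, map_eq_image]; rfl⟩

theorem card_SC (C : Finset α) : Nat.card (stabilizer (Perm α) C) =
    C.card.factorial * (Fintype.card α - C.card).factorial := by
  have h1 := (stabilizer (Perm α) C).index_mul_card
  rw [index_SC, Nat.card_perm, Nat.card_eq_fintype_card (α := α),
    ← Nat.choose_mul_factorial_mul_factorial (card_le_univ C), mul_assoc] at h1
  exact Nat.eq_of_mul_eq_mul_left (Nat.choose_pos (card_le_univ C)) h1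

theorem mem_MC' : g ∈ MC C ↔ (∀ x, x ∈ C ↔ g x ∈ C) ∨ ∀ x, x ∈ C ↔ g x ∉ C := by
  rw [mem_MC]
  constructor
  · intro h
    by_contra hc
    push Not at hc
    obtain ⟨⟨x, hx⟩, y, hy⟩ := hc
    have := h x y
    tauto
  · rintro (h | h) x y
    · rw [h x, h y]
    · rw [h x, h y]; tauto

theorem two_mul_of_swap (h : ∀ x, x ∈ C ↔ g x ∉ C) : 2 * C.card = Fintype.card α := by
  have : C.map g.toEmbedding = Cᶜ := by
    ext x
    rw [mem_map_equiv, h]
    simp
  have h2 := congrArg card this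
  rw [card_map, card_compl] at h2
  have := card_le_univ C
  omega

theorem MC_eq (h : 2 * C.card ≠ Fintype.card α) : MC C = stabilizer (Perm α) C := by
  ext g
  rw [mem_MC', mem_SC]
  exact or_iff_left fun e => h (two_mul_of_swap e)

theorem index_MC (h : 2 * C.card = Fintype.card α) (h0 : C.Nonempty) :
    2 * (MC C).index = (Fintype.card α).choose C.card := by
  have hle : stabilizer (Perm α) C ≤ MC C := fun g hg => mem_MC'.2 (.inl (mem_SC.1 hg))
  rw [← index_SC, ← Subgroup.relIndex_mul_index hle]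
  congr 1
  obtain ⟨a, ha⟩ := Perm.exists_map_finset_eq C Cᶜ (by rw [card_compl]; omega)
  have ha' : ∀ x, x ∈ C ↔ a x ∉ C := fun x => by
    rw [← mem_compl, ← ha]; simp
  obtain ⟨w, hw⟩ := h0
  symm
  refine Subgroup.index_eq_two_iff.2 ⟨⟨a, mem_MC'.2 (.inr ha')⟩, fun b => ?_⟩
  simp only [Subgroup.mem_subgroupOf, Subgroup.coe_mul, mem_SC, Perm.mul_apply]
  rcases mem_MC'.1 b.2 with hb | hb
  · exact .inr ⟨hb, fun e => (ha' w).1 hw ((hb _).2 ((e w).1 hw))⟩
  · exact .inl ⟨fun x => by rw [ha', hb, not_not], fun e => (hb w).1 hw ((e w).1 hw)⟩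

theorem MC_cj (g : Perm α) (C : Finset α) : MC C :^ g = MC (C.map g.toEmbedding) := by
  ext a
  rw [mem_cj, mem_MC, mem_MC]
  simp only [mem_map_equiv]
  constructor
  · intro h x y
    simpa using h (g.symm x) (g.symm y)
  · intro h x y
    simpa using h (g x) (g y)

theorem Shape.eq (h : Shape π n k) (h' : Shape π n k') : k = k' := by
  have key : ∀ {k k'}, Shape π n k → Shape π n k' → k = 1 → k' = 4 → False := by
    rintro k k' (⟨-, -, -, a⟩ | ⟨a, -⟩) (⟨b, -⟩ | ⟨-, b, c⟩) e e'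
    · omega
    · have := (c 5 Nat.prime_five (by omega)).1 ((a 5 Nat.prime_five (by omega)).2 (by omega))
      omega
    · omega
    · omega
  have a : k = 1 ∨ k = 4 := h.imp And.left And.left
  have b : k' = 1 ∨ k' = 4 := h'.imp And.left And.left
  rcases a with a | a <;> rcases b with b | b
  · omega
  · exact (key h h' a b).elim
  · exact (key h' h b a).elim
  · omega

theorem Shape.hall (h : Shape π (Fintype.card α) C.card) : Hl[π] (MC C) ⊤ := by
  rw [hl_top_iff]
  have h1 := (MC C).index_mul_card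
  rw [Nat.card_perm, Nat.card_eq_fintype_card (α := α)] at h1
  rcases h with ⟨a, b, b', c⟩ | ⟨a, b, c⟩
  · rw [MC_eq (by omega)]
    refine ⟨fun r hr hd => ?_, fun r hr hπ hd => ?_⟩
    · rw [card_SC, a, Nat.factorial_one, one_mul, hr.dvd_factorial] at hd
      exact (c r hr (by omega)).2 (by omega)
    · rw [index_SC, a, Nat.choose_one_right, Nat.prime_dvd_prime_iff_eq hr b] at hd
      have := (c r hr hd.le).1 hπ
      omega
  have hi : (MC C).index = 35 := by
    rcases b with b | b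
    · rw [MC_eq (by omega), index_SC, a, b]; rfl
    · have := index_MC (C := C) (by omega) (card_pos.1 (by omega))
      rw [a, b, show Nat.choose 8 4 = 70 from rfl] at this
      omega
  refine ⟨fun r hr hd => ?_, fun r hr hπ hd => ?_⟩
  · have h2 : Nat.card (MC C) ∣ 2 ^ 7 * 3 ^ 2 := by
      rw [hi] at h1
      rcases b with b | b <;> rw [b] at h1
      · rw [show Nat.card (MC C) = 144 by simp only [Nat.factorial] at h1; omega]; norm_num
      · rw [show Nat.card (MC C) = 1152 by simp only [Nat.factorial] at h1; omega]; norm_num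
    have : r = 2 ∨ r = 3 := ((Nat.Prime.dvd_mul hr).1 (hd.trans h2)).imp
      (fun e => (Nat.prime_dvd_prime_iff_eq hr Nat.prime_two).1 (hr.dvd_of_dvd_pow e))
      fun e => (Nat.prime_dvd_prime_iff_eq hr Nat.prime_three).1 (hr.dvd_of_dvd_pow e)
    exact (c r hr (by omega)).2 this
  · rw [hi, show 35 = 5 * 7 from rfl] at hd
    have : r = 5 ∨ r = 7 := ((Nat.Prime.dvd_mul hr).1 hd).imp
      (Nat.prime_dvd_prime_iff_eq hr Nat.prime_five).1
      (Nat.prime_dvd_prime_iff_eq hr (by norm_num)).1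
    have := (c r hr (by omega)).1 hπ
    omega

theorem Shape.odd (h : Shape π (Fintype.card α) C.card) : ∃ s ∈ MC C, sign s = -1 := by
  obtain ⟨u, hu, v, hv, huv⟩ := one_lt_card.1 (show 1 < Cᶜ.card by
    rw [card_compl]; rcases h with h | h <;> omega)
  exact ⟨swap u v, swap_mem_partStab (by simp [mem_compl.1 hu, mem_compl.1 hv]), sign_swap huv⟩

theorem ah_alt (h : Hl[π] H (alternatingGroup α)) : AH π H := ⟨hl_pi h, h.2.2⟩

theorem norm_alt (H : Subgroup (Perm α)) : H ≤ N[alternatingGroup α] := by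
  rw [Subgroup.normalizer_eq_top]; exact le_top

theorem ah_top (h : Hl[π] H ⊤) : AH π H := ⟨hl_pi h, fun p hp hπ => by
  rw [← Subgroup.inf_relIndex_right]
  exact (hl_inf h le_top (norm_alt H)).2.2 p hp hπ⟩

theorem le_of_dvd {M : Subgroup (Perm α)} (hp : p.Prime) (h : p ∣ Nat.card M) :
    p ≤ Fintype.card α := by
  have := h.trans M.card_subgroup_dvd_card
  rwa [Nat.card_perm, Nat.card_eq_fintype_card, hp.dvd_factorial] at this

theorem tri (π : Set ℕ) (n : ℕ) :
    (∃ p : ℕ, p.Prime ∧ ∀ r, r.Prime → r ≤ n → (r ∈ π ↔ r ∈ ({p} : Set ℕ))) ∨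
    (∀ r, r.Prime → r ≤ n → r ∈ π) ∨
    ((∃ r s : ℕ, r.Prime ∧ s.Prime ∧ r ≠ s ∧ r ∈ π ∧ s ∈ π ∧ r ≤ n ∧ s ≤ n) ∧
      ∃ r : ℕ, r.Prime ∧ r ≤ n ∧ r ∉ π) := by
  by_cases h1 : ∃ p, p.Prime ∧ p ≤ n ∧ p ∈ π
  · obtain ⟨p, hp, hn, hπ⟩ := h1
    by_contra hc
    push Not at hc
    obtain ⟨r, hr, hrn, h⟩ := hc.1 p hp
    obtain ⟨s, hs⟩ := hc.2.1
    refine hs.2.2 (hc.2.2 ⟨r, p, hr, hp, ?_, ?_, hπ, hrn, hn⟩ s hs.1 hs.2.1)
    · rintro rfl; simp [hπ] at h
    · rcases h with h | h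
      · exact h.1
      · rw [Set.mem_singleton_iff.1 h.2]; exact hπ
  · obtain ⟨p, hn, hp⟩ := Nat.exists_infinite_primes (n + 1)
    refine .inl ⟨p, hp, fun r hr hrn => iff_of_false (fun e => h1 ⟨r, hr, hrn, e⟩) ?_⟩
    rw [Set.mem_singleton_iff]; omega

theorem ext_alt (h : Hl[π] H (alternatingGroup α)) :
    ∃ M : Subgroup (Perm α), Hl[π] M ⊤ ∧ H = M ⊓ alternatingGroup α := by
  have key : ∀ M : Subgroup (Perm α), Hl[π] M ⊤ → H ≤ M →
      ∃ M : Subgroup (Perm α), Hl[π] M ⊤ ∧ H = M ⊓ alternatingGroup α := fun M hM hle =>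
    ⟨M, hM, hl_eq_of_le h (hl_inf hM le_top (norm_alt M)) (le_inf hle h.1)⟩
  rcases tri π (Fintype.card α) with ⟨p, hp, hπ⟩ | hπ | ⟨h2, hns⟩
  · have := Fact.mk hp
    obtain ⟨S, hS, hle⟩ := sy_exists_ge (M := ⊤) le_top
      (hl_pi (hl_congr h fun r hr hd => hπ r hr (le_of_dvd hr hd)))
    exact key S (hl_congr hS fun r hr hd => (hπ r hr (le_of_dvd hr hd)).symm) hle
  · exact key ⊤ (hl_self fun r hr hd => hπ r hr (le_of_dvd hr hd)) le_top
  · obtain ⟨C, hC, hs⟩ := (ah_alt h).shape h2 hns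
    exact key _ hs.hall hC

theorem MC_conj (h : Shape π (Fintype.card α) C.card) (h' : Shape π (Fintype.card α) D.card) :
    ∃ g ∈ alternatingGroup α, MC C :^ g = MC D := by
  obtain ⟨g, hg⟩ := Perm.exists_map_finset_eq C D (h.eq h')
  rcases Int.units_eq_one_or (sign g) with e | e
  · exact ⟨g, mem_alternatingGroup.2 e, by rw [MC_cj, hg]⟩
  · obtain ⟨s, hs, hs'⟩ := h.odd
    exact ⟨g * s, mem_alternatingGroup.2 (by simp [e, hs']), by
      rw [← cj_cj, cj_self hs, MC_cj, hg]⟩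

theorem conj_top (h : Hl[π] H ⊤) (h' : Hl[π] K ⊤) : ∃ g, H :^ g = K := by
  rcases tri π (Fintype.card α) with ⟨p, hp, hπ⟩ | hπ | ⟨h2, hns⟩
  · have := Fact.mk hp
    obtain ⟨g, -, hg⟩ := sy_conj (hl_congr h fun r hr hd => hπ r hr (le_of_dvd hr hd))
      (hl_congr h' fun r hr hd => hπ r hr (le_of_dvd hr hd))
    exact ⟨g, hg⟩
  · have e : Pi[π] (⊤ : Subgroup (Perm α)) := fun r hr hd => hπ r hr (le_of_dvd hr hd)
    exact ⟨1, by rw [cj_one, hl_eq_self h e, hl_eq_self h' e]⟩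
  · obtain ⟨C, hC, hs⟩ := (ah_top h).shape h2 hns
    obtain ⟨D, hD, hs'⟩ := (ah_top h').shape h2 hns
    obtain ⟨g, -, hg⟩ := MC_conj hs hs'
    exact ⟨g, by rw [hl_eq_of_le h hs.hall hC, hl_eq_of_le h' hs'.hall hD, hg]⟩

theorem conj_alt (h : Hl[π] H (alternatingGroup α)) (h' : Hl[π] K (alternatingGroup α)) :
    ∃ g ∈ alternatingGroup α, H :^ g = K := by
  rcases tri π (Fintype.card α) with ⟨p, hp, hπ⟩ | hπ | ⟨h2, hns⟩
  · have := Fact.mk hp
    exact sy_conj (hl_congr h fun r hr hd => hπ r hr (le_of_dvd hr hd))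
      (hl_congr h' fun r hr hd => hπ r hr (le_of_dvd hr hd))
  · have e : Pi[π] (alternatingGroup α) := fun r hr hd => hπ r hr (le_of_dvd hr hd)
    exact ⟨1, one_mem _, by rw [cj_one, hl_eq_self h e, hl_eq_self h' e]⟩
  · obtain ⟨C, hC, hs⟩ := (ah_alt h).shape h2 hns
    obtain ⟨D, hD, hs'⟩ := (ah_alt h').shape h2 hns
    obtain ⟨g, hgA, hg⟩ := MC_conj hs hs'
    refine ⟨g, hgA, ?_⟩
    rw [hl_eq_of_le h (hl_inf hs.hall le_top (norm_alt _)) (le_inf hC h.1),
      hl_eq_of_le h' (hl_inf hs'.hall le_top (norm_alt _)) (le_inf hD h'.1), cj_inf, hg,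
      cj_self hgA]

theorem hall_map {G : Type*} [Group G] {A : Subgroup G} {M : Subgroup A} :
    IsPiHall π M ↔ Hl[π] (M.map A.subtype) A := by
  rw [H1.isPiHallOf_iff_subgroupOf, Subgroup.subgroupOf,
    Subgroup.comap_map_eq_self_of_injective A.subtype_injective]
  exact (and_iff_right (Subgroup.map_subtype_le M)).symm

theorem hall_sub {M : Subgroup (Perm α)} (h : IsPiHall π M) :
    IsPiHall π (M.subgroupOf (alternatingGroup α)) := by
  have := (H1.isPiHallOf_iff_subgroupOf.1 (hl_inf (hl_top_iff.2 h) le_top (norm_alt M))).2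
  rwa [Subgroup.inf_subgroupOf_right] at this

theorem hall_iff (M : Subgroup (alternatingGroup α)) : IsPiHall π M ↔
    ∃ M₀ : Subgroup (Perm α), IsPiHall π M₀ ∧ M = M₀.subgroupOf (alternatingGroup α) := by
  constructor
  · intro h
    obtain ⟨M₀, h1, h2⟩ := ext_alt (hall_map.1 h)
    refine ⟨M₀, hl_top_iff.1 h1, ?_⟩
    rw [← Subgroup.inf_subgroupOf_right, ← h2, Subgroup.subgroupOf,
      Subgroup.comap_map_eq_self_of_injective (alternatingGroup α).subtype_injective]
  · rintro ⟨M₀, h, rfl⟩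
    exact hall_sub h

theorem map_cj {G : Type*} [Group G] {A : Subgroup G} (M : Subgroup A) (a : A) :
    (M :^ a).map A.subtype = M.map A.subtype :^ (a : G) := by
  rw [Subgroup.map_map, Subgroup.map_map]; rfl

theorem conj_alt' {M M' : Subgroup (alternatingGroup α)} (h : IsPiHall π M) (h' : IsPiHall π M') :
    ∃ g, M' = M :^ g := by
  obtain ⟨g, hg, e⟩ := conj_alt (hall_map.1 h) (hall_map.1 h')
  exact ⟨⟨g, hg⟩, Subgroup.map_injective (alternatingGroup α).subtype_injective (by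
    rw [map_cj, e])⟩

end H11.HS
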