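import Mathlib

/-! Permutations of prime order fixing a uniform partition. -/

set_option autoImplicit false
set_option linter.unusedSectionVars false

namespace H11.HS

open Equiv Equiv.Perm Finset

variable {α : Type*} [Fintype α] [DecidableEq α] {σ τ : Perm α} {r a b c : ℕ}

theorem supp_eq [Fact r.Prime] (h : σ ^ r = 1) : σ.support.card = σ.cycleType.card * r := by
  rw [← sum_cycleType]
  conv_lhs => rw [cycleType_of_pow_prime_eq_one h]
  rw [Multiset.sum_replicate, smul_eq_mul]

theorem conj_of_supp [hr : Fact r.Prime] (h : σ ^ r = 1) (h' : τ ^ r = 1)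
    (e : σ.support.card = τ.support.card) : IsConj σ τ := by
  rw [supp_eq h, supp_eq h'] at e
  rw [isConj_iff_cycleType_eq, cycleType_of_pow_prime_eq_one h, cycleType_of_pow_prime_eq_one h',
    Nat.eq_of_mul_eq_mul_right hr.out.pos e]

theorem ex_supp (hr : r.Prime) (h : c * r ≤ Fintype.card α) :
    ∃ σ : Perm α, σ ^ r = 1 ∧ σ.support.card = c * r := by
  obtain ⟨σ, hσ⟩ := (exists_with_cycleType_iff α (m := Multiset.replicate c r)).2 ⟨by
      rwa [Multiset.sum_replicate, smul_eq_mul],
      fun a ha => by rw [Multiset.eq_of_mem_replicate ha]; exact hr.two_le⟩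
  refine ⟨σ, ?_, by rw [← sum_cycleType, hσ, Multiset.sum_replicate, smul_eq_mul]⟩
  rw [← orderOf_dvd_iff_pow_eq_one, ← lcm_cycleType, hσ]
  exact Multiset.lcm_dvd.2 fun b hb => by rw [Multiset.eq_of_mem_replicate hb]

theorem dvd_inv [Fact r.Prime] (h : σ ^ r = 1) {C : Finset α} (hC : ∀ x, σ x ∈ C ↔ x ∈ C) :
    r ∣ (C ∩ σ.support).card := by
  have e : (ofSubtype (σ.subtypePerm hC)).support = C ∩ σ.support := by
    ext x
    by_cases hx : x ∈ C
    · simp [ofSubtype_apply_of_mem _ hx, hx]
    · simp [ofSubtype_apply_of_not_mem _ hx, hx]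
  rw [← e, supp_eq (r := r) (by rw [← map_pow, subtypePerm_pow]; simp only [h]; exact map_one _)]
  exact dvd_mul_left _ _

def Fx (a b : ℕ) (σ : Perm α) : Prop :=
  ∃ f : α → Fin b, (∀ j : Fin b, Nat.card {x : α // f x = j} = a) ∧
    ∃ π : Perm (Fin b), ∀ x : α, f (σ x) = π (f x)

def Iv (r a b c : ℕ) : Prop := ∃ j, j * r ≤ b ∧ j * a ≤ c ∧ c ≤ j * a + (b - j * r) * (a / r)

theorem Fx.iv (hr : r.Prime) (ha : 1 ≤ a) (h : Fx a b σ) (h1 : σ ^ r = 1)
    (hc : σ.support.card = c * r) : Iv r a b c := by
  have := Fact.mk hr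
  obtain ⟨f, hf, π, hπ⟩ := h
  have hf' : ∀ j, (univ.filter fun x => f x = j).card = a := fun j => by
    rw [← hf j, Nat.card_eq_fintype_card, Fintype.card_subtype]
  have h2 : π ^ r = 1 := by
    ext1 i
    obtain ⟨x, hx⟩ := card_pos.1 (show 0 < (univ.filter fun x => f x = i).card by rw [hf']; omega)
    have key : ∀ m : ℕ, f ((σ ^ m) x) = (π ^ m) (f x) := fun m => by
      induction m with
      | zero => rfl
      | succ m ih => rw [pow_succ', pow_succ', Perm.mul_apply, Perm.mul_apply, hπ, ih]
    rw [← (mem_filter.1 hx).2, ← key, h1]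
    rfl
  have e1 := supp_eq h2
  have e2 := card_eq_sum_card_fiberwise (f := f) (s := σ.support) (t := univ) fun _ _ => mem_univ _
  rw [← sum_add_sum_compl π.support, hc] at e2
  have e3 : ∑ i ∈ π.support, (σ.support.filter fun x => f x = i).card = π.support.card * a := by
    refine sum_const_nat fun i hi => ?_
    rw [← hf' i]
    congr 1
    ext x
    simp only [mem_filter, mem_univ, true_and, and_iff_right_iff_imp]
    rintro rfl
    exact mem_support.2 fun e => mem_support.1 hi (by rw [← hπ, e])
  have e4 : ∑ i ∈ π.supportᶜ, (σ.support.filter fun x => f x = i).card ≤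
      π.supportᶜ.card • (a / r * r) := by
    refine sum_le_card_nsmul _ _ _ fun i hi => ?_
    rw [mem_compl, notMem_support] at hi
    obtain ⟨m, hm⟩ := dvd_inv h1 (C := univ.filter fun x => f x = i) fun x => by
      simp only [mem_filter, mem_univ, true_and]
      rw [hπ, ← π.injective.eq_iff (a := f x), hi]
    have e : (σ.support.filter fun x => f x = i) = (univ.filter fun x => f x = i) ∩ σ.support := by
      ext x; simp [and_comm]
    have := card_le_card (inter_subset_left (s₁ := univ.filter fun x => f x = i) (s₂ := σ.support))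
    rw [hf', hm] at this
    rw [e, hm, mul_comm]
    exact Nat.mul_le_mul_right _ ((Nat.le_div_iff_mul_le hr.pos).2 (by rwa [mul_comm]))
  rw [card_compl, Fintype.card_fin, smul_eq_mul, e1] at e4
  rw [e3, e1] at e2
  refine ⟨π.cycleType.card, by simpa [e1] using card_le_univ π.support, ?_, ?_⟩
  · refine Nat.le_of_mul_le_mul_right ?_ hr.pos
    rw [e2, mul_right_comm]
    exact Nat.le_add_right _ _
  · refine Nat.le_of_mul_le_mul_right ?_ hr.pos
    rw [e2, add_mul, mul_right_comm _ a, mul_assoc (b - _)]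
    exact Nat.add_le_add_left e4 _

theorem distrib {ι : Type*} [DecidableEq ι] (s : Finset ι) (q : ℕ) :
    ∀ N, N ≤ s.card * q → ∃ g : ι → ℕ, ∑ i ∈ s, g i = N ∧ ∀ i, g i ≤ q := by
  induction s using Finset.induction_on with
  | empty => exact fun N hN => ⟨0, by simpa using (Nat.le_zero.1 (by simpa using hN)).symm, by simp⟩
  | insert i s hi ih =>
    intro N hN
    rw [card_insert_of_notMem hi, add_mul, one_mul] at hN
    obtain ⟨g, hg, hq⟩ := ih (N - q) (by omega)
    refine ⟨Function.update g i (N - (N - q)), ?_, fun k => ?_⟩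
    · rw [sum_insert hi, Function.update_self, sum_update_of_notMem hi, hg]
      omega
    · by_cases e : k = i
      · rw [e, Function.update_self]; omega
      · rw [Function.update_of_ne e]; exact hq k

theorem Iv.fx (hr : r.Prime) (h : Iv r a b c) (hn : Fintype.card α = a * b) (h1 : σ ^ r = 1)
    (hc : σ.support.card = c * r) : Fx a b σ := by
  have := Fact.mk hr
  obtain ⟨j, j1, j2, j3⟩ := h
  obtain ⟨π, π1, π2⟩ := ex_supp (α := Fin b) hr (c := j) (by simpa using j1)
  obtain ⟨g, g1, g2⟩ := distrib π.supportᶜ (a / r) (c - j * a) (by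
    rw [card_compl, Fintype.card_fin, π2]; omega)
  have hρ : ∀ i : Fin b, ∃ ρ : Perm (Fin a), ρ ^ r = 1 ∧ (i ∈ π.support → ρ = 1) ∧
      (i ∉ π.support → ρ.support.card = g i * r) := fun i => by
    by_cases hi : i ∈ π.support
    · exact ⟨1, one_pow _, fun _ => rfl, fun e => absurd hi e⟩
    · obtain ⟨ρ, a1, a2⟩ := ex_supp (α := Fin a) hr (c := g i) (by
        rw [Fintype.card_fin]
        exact (Nat.mul_le_mul_right _ (g2 i)).trans (Nat.div_mul_le_self _ _))
      exact ⟨ρ, a1, fun e => absurd e hi, fun _ => a2⟩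
  choose ρ ρ1 ρ2 ρ3 using hρ
  let s : Perm (Fin b × Fin a) := Equiv.prodShear π ρ
  have hs : ∀ y, s y = (π y.1, ρ y.1 y.2) := fun _ => rfl
  have s1 : s ^ r = 1 := by
    ext1 ⟨i, x⟩
    have key : ∀ m : ℕ, (s ^ m) (i, x) = ((π ^ m) i, (ρ i ^ m) x) := fun m => by
      induction m with
      | zero => rfl
      | succ m ih =>
        rw [pow_succ', Perm.mul_apply, ih, hs, pow_succ', pow_succ']
        by_cases hi : i ∈ π.support
        · simp [ρ2 i hi, ρ2 _ (pow_apply_mem_support.2 hi)]
        · simp [pow_apply_eq_self_of_apply_eq_self (notMem_support.1 hi)]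
    rw [key, π1, ρ1]
    rfl
  have s2 : s.support.card = c * r := by
    rw [card_eq_sum_card_fiberwise (f := Prod.fst) (s := s.support) (t := univ)
      (fun _ _ => mem_univ _), ← sum_add_sum_compl π.support]
    have key : ∀ i, (s.support.filter fun y => y.1 = i).card =
        (univ.filter fun x => (i, x) ∈ s.support).card := fun i => by
      refine card_bij (fun y _ => y.2) (fun y hy => ?_) (fun y hy y' hy' e => ?_) fun x hx => ?_
      · obtain ⟨h1, rfl⟩ := mem_filter.1 hy
        exact mem_filter.2 ⟨mem_univ _, h1⟩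
      · exact Prod.ext ((mem_filter.1 hy).2.trans (mem_filter.1 hy').2.symm) e
      · exact ⟨(i, x), mem_filter.2 ⟨(mem_filter.1 hx).2, rfl⟩, rfl⟩
    rw [sum_const_nat (m := a) (s := π.support) fun i hi => by
      rw [key, filter_true_of_mem, card_univ, Fintype.card_fin]
      exact fun x _ => mem_support.2 fun e => mem_support.1 hi (Prod.ext_iff.1 e).1,
      sum_congr rfl (g := fun i => g i * r) fun i hi => by
        rw [mem_compl] at hi
        rw [key, ← ρ3 i hi]
        congr 1
        ext x
        simp [hs, notMem_support.1 hi], ← sum_mul, g1, π2, mul_right_comm, ← add_mul]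
    congr 1
    omega
  let e : Fin b × Fin a ≃ α := Fintype.equivOfCardEq (by simp [hn, mul_comm])
  obtain ⟨k, hk⟩ := isConj_iff.1 (conj_of_supp (r := r) (σ := e.permCongr s) (τ := σ)
    ((map_pow e.permCongrHom s r).symm.trans (by rw [s1, map_one])) h1 (by
      rw [hc, ← s2]
      refine (card_bij (fun y _ => e y) (fun y hy => ?_) (fun _ _ _ _ h => e.injective h)
        fun x hx => ⟨e.symm x, ?_, by simp⟩).symm
      · simpa using hy
      · simpa [← Equiv.eq_symm_apply] using hx))
  refine ⟨fun x => (e.symm (k⁻¹ x)).1, fun i => ?_, π, fun x => ?_⟩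
  · refine Eq.trans ?_ (Nat.card_fin a)
    exact Nat.card_congr ⟨fun x => (e.symm (k⁻¹ x.1)).2, fun y => ⟨k (e (i, y)), by simp⟩,
      fun x => Subtype.ext (by
        obtain ⟨x, rfl⟩ := x
        simp), fun y => by simp⟩
  · rw [← hk]
    simp [hs]

theorem all_fx_iff (hr : r.Prime) (ha : 1 ≤ a) (hn : Fintype.card α = a * b) :
    (∀ σ : Perm α, orderOf σ = r → Fx a b σ) ↔ ∀ c, 1 ≤ c → c * r ≤ a * b → Iv r a b c := by
  have := Fact.mk hr
  constructor
  · intro h c h1 h2
    obtain ⟨σ, a1, a2⟩ := ex_supp (α := α) hr (c := c) (hn ▸ h2)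
    refine (h σ (orderOf_eq_prime a1 ?_)).iv hr ha a1 a2
    rintro rfl
    have := Nat.mul_pos h1 hr.pos
    rw [support_one, card_empty] at a2
    omega
  · intro h σ hσ
    have h1 : σ ^ r = 1 := hσ ▸ pow_orderOf_eq_one σ
    refine (h _ ?_ ?_).fx hr hn h1 (supp_eq h1)
    · rw [Nat.succ_le_iff, card_cycleType_pos, Ne, ← orderOf_eq_one_iff, hσ]
      exact hr.ne_one
    · rw [← supp_eq h1, ← hn]; exact card_le_univ _

theorem iv_iff {q l s k : ℕ} (hl : l < r) (hk : k < r) (l0 : 0 < l) :
    (∀ c, 1 ≤ c → c * r ≤ (q * r + l) * (s * r + k) → Iv r (q * r + l) (s * r + k) c) ↔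
      k * l < r ∧ (s = 0 ∨ l ≤ k * q + 1) := by
  have hq : (q * r + l) / r = q := by
    rw [add_comm, Nat.add_mul_div_right _ _ (by omega), Nat.div_eq_of_lt hl, zero_add]
  have up : ∀ j, j ≤ s → j * (q * r + l) + (s * r + k - j * r) * q = (s * r + k) * q + j * l := by
    intro j hj
    obtain ⟨t, rfl⟩ := Nat.exists_eq_add_of_le hj
    rw [show (j + t) * r + k - j * r = t * r + k by rw [add_mul]; omega]
    ring
  have js : ∀ j, j * r ≤ s * r + k → j ≤ s := fun j hj => by
    by_contra hc
    have : (s + 1) * r ≤ j * r := Nat.mul_le_mul_right _ (by omega)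
    nlinarith
  unfold Iv
  rw [hq]
  constructor
  · intro h
    constructor
    · by_contra hc
      obtain ⟨j, j1, -, j3⟩ := h ((s * r + k) * q + s * l + 1) (by omega) (by nlinarith)
      rw [up j (js j j1)] at j3
      have := Nat.mul_le_mul_right l (js j j1)
      omega
    · rcases Nat.eq_zero_or_pos s with rfl | s0
      · exact .inl rfl
      obtain ⟨t, rfl⟩ : ∃ t, s = t + 1 := ⟨s - 1, by omega⟩
      obtain ⟨j, j1, j2, j3⟩ := h (((t + 1) * r + k) * q + t * l + 1) (by omega) (by nlinarith)
      rw [up j (js j j1)] at j3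
      obtain rfl : j = t + 1 := by
        refine le_antisymm (js j j1) ?_
        by_contra hc
        have := Nat.mul_le_mul_right l (show j ≤ t by omega)
        omega
      exact .inr (by nlinarith)
  · rintro ⟨h1, h2⟩ c - hc
    have hc' : c ≤ (s * r + k) * q + s * l := by
      by_contra h
      have : ((s * r + k) * q + s * l + 1) * r ≤ c * r := Nat.mul_le_mul_right _ (by omega)
      nlinarith
    have key : ∀ j, j ≤ s → c ≤ (s * r + k) * q + j * l → ∃ j, j * r ≤ s * r + k ∧
        j * (q * r + l) ≤ c ∧ c ≤ j * (q * r + l) + (s * r + k - j * r) * q := by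
      intro j
      induction j with
      | zero => exact fun _ h => ⟨0, by omega, by omega, by simpa using h⟩
      | succ j ih =>
        intro hj h
        by_cases h' : c ≤ (s * r + k) * q + j * l
        · exact ih (by omega) h'
        have h3 : l ≤ k * q + 1 := h2.resolve_left (by omega)
        have h4 : (j + 1) * r ≤ s * r := Nat.mul_le_mul_right _ hj
        refine ⟨j + 1, by omega, ?_, by rw [up _ hj]; exact h⟩
        have := Nat.mul_le_mul_right q h4
        nlinarith
    exact key s le_rfl hc'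

end H11.HS
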