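import Mathlib

/-!
Abstract geometry of groups generated by full transvection subgroups (McLaughlin), part 1.
-/

set_option autoImplicit false
set_option linter.unusedSectionVars false

namespace H11.McL

variable {F X Y : Type*} [Field F] [AddCommGroup X] [Module F X] [AddCommGroup Y] [Module F Y]

/-- A set of (centre, axis) pairs closed under the operations of a group of transvections. -/
structure TV (b : Y →ₗ[F] X →ₗ[F] F) (E : X → Y → Prop) : Prop where
  iso : ∀ {x φ}, E x φ → b φ x = 0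
  zl : ∀ φ, E 0 φ
  zr : ∀ x, E x 0
  sl : ∀ {x φ} (c : F), E x φ → E (c • x) φ
  sr : ∀ {x φ} (c : F), E x φ → E x (c • φ)
  al : ∀ {x x' φ}, E x φ → E x' φ → E (x + x') φ
  ar : ∀ {x φ φ'}, E x φ → E x φ' → E x (φ + φ')
  cj : ∀ {x φ z χ}, E x φ → E z χ → E (z + b φ z • x) (χ - b χ x • φ)

/-- centres -/
def PP (E : X → Y → Prop) (x : X) : Prop := x ≠ 0 ∧ ∃ φ, φ ≠ 0 ∧ E x φ

/-- axes -/
def QQ (E : X → Y → Prop) (φ : Y) : Prop := φ ≠ 0 ∧ ∃ x, x ≠ 0 ∧ E x φ

/-- connectivity (diameter two) -/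
def Con (b : Y →ₗ[F] X →ₗ[F] F) (E : X → Y → Prop) : Prop :=
  ∀ φ y, QQ E φ → PP E y → ∃ z χ, E z χ ∧ b φ z ≠ 0 ∧ b χ y ≠ 0

/-- span of the centres -/
def UU (F : Type*) [Field F] [Module F X] (E : X → Y → Prop) : Submodule F X :=
  Submodule.span F {x | PP E x}

/-- span of the axes -/
def FF (F : Type*) [Field F] [Module F Y] (E : X → Y → Prop) : Submodule F Y :=
  Submodule.span F {φ | QQ E φ}

variable {b : Y →ₗ[F] X →ₗ[F] F} {E : X → Y → Prop}

theorem ne_l {φ : Y} {x : X} (h : b φ x ≠ 0) : φ ≠ 0 := by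
  rintro rfl; simp at h

theorem ne_r {φ : Y} {x : X} (h : b φ x ≠ 0) : x ≠ 0 := by
  rintro rfl; simp at h

theorem TV.flip (h : TV b E) : TV b.flip (fun φ x => E x φ) where
  iso := fun hx => by simpa using h.iso hx
  zl := h.zr
  zr := h.zl
  sl := fun c hx => h.sr c hx
  sr := fun c hx => h.sl c hx
  al := fun h1 h2 => h.ar h1 h2
  ar := fun h1 h2 => h.al h1 h2
  cj := fun {φ x χ z} h1 h2 => by
    have := h.cj (h.sl (-1) h1) h2
    simpa [sub_eq_add_neg] using this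

theorem Con.flip (h : Con b E) : Con b.flip (fun φ x => E x φ) := by
  intro y φ hy hφ
  obtain ⟨z, χ, h1, h2, h3⟩ := h φ y hφ hy
  exact ⟨χ, z, h1, by simpa using h3, by simpa using h2⟩

theorem PP.mem {x : X} (h : PP E x) : x ∈ UU F E := Submodule.subset_span h
theorem QQ.mem {φ : Y} (h : QQ E φ) : φ ∈ FF F E := Submodule.subset_span h

namespace TV

variable (h : TV b E)
include h

theorem cjk {x φ z χ} (h1 : E x φ) (h2 : E z χ) (k : F) :
    E (z + (k * b φ z) • x) (χ - (k * b χ x) • φ) := by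
  have := h.cj (h.sl k h1) h2
  simpa [smul_smul, mul_comm] using this

theorem nz_l {x φ z} (h1 : E x φ) (hz : z ≠ 0) (k : F) : z + (k * b φ z) • x ≠ 0 := by
  intro h0
  have h2 : b φ (z + (k * b φ z) • x) = 0 := by rw [h0]; simp
  simp [h.iso h1] at h2
  apply hz
  simpa [h2] using h0

theorem nz_r {x φ χ} (h1 : E x φ) (hz : χ ≠ 0) (k : F) : χ - (k * b χ x) • φ ≠ 0 := by
  intro h0
  have h2 : b (χ - (k * b χ x) • φ) x = 0 := by rw [h0]; simp
  simp [h.iso h1] at h2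
  apply hz
  simpa [h2] using h0

theorem line {x φ y} (h1 : E x φ) (hy : PP E y) (hn : b φ y ≠ 0) (a : F) : PP E (y + a • x) := by
  obtain ⟨hy0, ψ, hψ, h2⟩ := hy
  have e : a = (a / b φ y) * b φ y := by field_simp
  rw [e]
  exact ⟨h.nz_l h1 hy0 _, _, h.nz_r h1 hψ _, h.cjk h1 h2 _⟩

theorem PP_smul {x} (hx : PP E x) {c : F} (hc : c ≠ 0) : PP E (c • x) :=
  ⟨smul_ne_zero hc hx.1, hx.2.imp fun _ h1 => ⟨h1.1, h.sl c h1.2⟩⟩

/-- mixed pairs -/
theorem mix {x φ z χ} (h1 : E x φ) (h2 : E z χ) (hn : b χ x ≠ 0) (h0 : b φ z = 0) : E z φ := by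
  have h3 := h.cj h2 h1
  rw [h0, zero_smul, sub_zero] at h3
  have h4 := h.sl (b χ x)⁻¹ (h.al h3 (h.sl (-1) h1))
  have e : (b χ x)⁻¹ • (x + b χ x • z + (-1 : F) • x) = z := by
    rw [show x + b χ x • z + (-1 : F) • x = b χ x • z by simp, smul_smul, inv_mul_cancel₀ hn,
      one_smul]
  rwa [e] at h4

end TV

theorem exists_k (h2 : (2 : F) ≠ 0) (a c : F) (ha : a ≠ 0) : ∃ k : F, k ≠ 0 ∧ a + k * c ≠ 0 := by
  by_cases h : a + 1 * c = 0
  · refine ⟨2, h2, fun h' => ha ?_⟩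
    linear_combination 2 * h - h'
  · exact ⟨1, one_ne_zero, h⟩

theorem exists_k3 (h2 : (2 : F) ≠ 0) (a c a' c' : F) (ha : a ≠ 0) (ha' : a' ≠ 0)
    (hc : c = 0 ∨ c' = 0) : ∃ k : F, k ≠ 0 ∧ a + k * c ≠ 0 ∧ a' + k * c' ≠ 0 := by
  rcases hc with rfl | rfl
  · obtain ⟨k, h0, h1⟩ := exists_k h2 a' c' ha'
    exact ⟨k, h0, by simpa using ha, h1⟩
  · obtain ⟨k, h0, h1⟩ := exists_k h2 a c ha
    exact ⟨k, h0, h1, by simpa using ha'⟩

namespace TV

variable (h : TV b E) (hc : Con b E) (h2 : (2 : F) ≠ 0)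
include h hc

omit h in
theorem P_not_rad {x} (hx : PP E x) : ∃ φ, QQ E φ ∧ b φ x ≠ 0 := by
  obtain ⟨hx0, φ, hφ, h1⟩ := id hx
  obtain ⟨z, χ, h3, h4, h5⟩ := hc φ x ⟨hφ, x, hx0, h1⟩ hx
  exact ⟨χ, ⟨ne_l h5, z, ne_r h4, h3⟩, h5⟩

include h2

theorem three {ψ u1 u2} (hψ : QQ E ψ) (hu1 : PP E u1) {χ'} (hχ' : QQ E χ') (hu2 : b χ' u2 ≠ 0) :
    ∃ z χ, E z χ ∧ b ψ z ≠ 0 ∧ b χ u1 ≠ 0 ∧ b χ u2 ≠ 0 := by
  obtain ⟨z, χ, h3, h4, h5⟩ := hc ψ u1 hψ hu1
  by_cases h6 : b χ u2 = 0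
  swap
  · exact ⟨z, χ, h3, h4, h5, h6⟩
  have hχ : QQ E χ := ⟨ne_l h5, z, ne_r h4, h3⟩
  obtain ⟨z1, χ1, g1, g2, g3⟩ : ∃ z1 χ1, E z1 χ1 ∧ b χ z1 ≠ 0 ∧ b χ1 u2 ≠ 0 := by
    obtain ⟨hχ0, z', hz', g⟩ := hχ'
    by_cases h7 : b χ z' = 0
    swap
    · exact ⟨z', χ', g, h7, hu2⟩
    obtain ⟨w, ω, g1, g2, g3⟩ := hc χ z' hχ ⟨hz', χ', hχ0, g⟩
    obtain ⟨k, k0, k1⟩ := exists_k h2 (b χ' u2) (-(b χ' w * b ω u2)) hu2
    refine ⟨_, _, h.cjk g1 g k, ?_, ?_⟩
    · simp [h7, k0, g2, g3]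
    · simp only [map_sub, map_smul, LinearMap.sub_apply, LinearMap.smul_apply, smul_eq_mul]
      intro h0; apply k1; linear_combination h0
  by_cases h8 : b ψ z1 ≠ 0 ∧ b χ1 u1 ≠ 0
  · exact ⟨z1, χ1, g1, h8.1, h8.2, g3⟩
  obtain ⟨k, k0, k1, k2⟩ := exists_k3 h2 (b ψ z) (b χ1 z * b ψ z1) (b χ u1)
    (-(b χ z1 * b χ1 u1)) h4 h5 (by
      by_cases h9 : b ψ z1 = 0
      · left; simp [h9]
      · right
        have : b χ1 u1 = 0 := by by_contra h'; exact h8 ⟨h9, h'⟩
        simp [this])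
  refine ⟨_, _, h.cjk g1 h3 k, ?_, ?_, ?_⟩
  · simp only [map_add, map_smul, smul_eq_mul]
    intro h0; apply k1; linear_combination h0
  · simp only [map_sub, map_smul, LinearMap.sub_apply, LinearMap.smul_apply, smul_eq_mul]
    intro h0; apply k2; linear_combination h0
  · simp [h6, k0, g2, g3]

theorem add_P {x y} (hx : PP E x) (hy : PP E y) {χ'} (hχ' : QQ E χ') (hn : b χ' (x + y) ≠ 0) :
    PP E (x + y) := by
  obtain ⟨hy0, ψ, hψ, g⟩ := id hy
  by_cases h3 : b ψ x = 0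
  swap
  · simpa using h.line g hx h3 1
  obtain ⟨z, χ, g1, g2, g3, g4⟩ := h.three hc h2 ⟨hψ, y, hy0, g⟩ hx hχ' hn
  have p1 := h.line g1 hx g3 1
  have p2 := h.line g p1 (by simpa [h3] using g2) 1
  have p3 := h.line g1 p2 (by simpa [h.iso g1] using g4) (-1)
  have e : x + (1 : F) • z + (1 : F) • y + (-1 : F) • z = x + y := by simp; abel
  rwa [e] at p3

theorem add_R {x r} (hx : PP E x) (hr : r ∈ UU F E) (hR : ∀ φ, QQ E φ → b φ r = 0) :
    PP E (x + r) := by
  -- elements of the span preserve the property "centre or in the radical" when added to a centre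
  have key : ∀ l : List X, (∀ y ∈ l, PP E y) → (PP E l.sum ∨ ∀ φ, QQ E φ → b φ l.sum = 0) := by
    intro l
    induction hn : l.length using Nat.strong_induction_on generalizing l with
    | _ n ih =>
    intro hl
    by_cases hq : ∀ φ, QQ E φ → b φ l.sum = 0
    · exact Or.inr hq
    left
    push Not at hq
    obtain ⟨χ, hχ, hq⟩ := hq
    match l, hn, hl, hq with
    | [], _, _, hq => simp at hq
    | [a], _, hl, _ => simpa using hl a (by simp)
    | [a, c], _, hl, hq =>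
      have := h.add_P hc h2 (hl a (by simp)) (hl c (by simp)) hχ (by simpa using hq)
      simpa using this
    | a :: c :: d :: l, hn, hl, hq =>
      have ha := hl a (by simp)
      have hc' := hl c (by simp)
      have hd := hl d (by simp)
      have hl' : ∀ y ∈ l, PP E y := fun y hy => hl y (by simp [hy])
      have step : ∀ u v w : X, PP E u → PP E v → PP E w → ∀ φ, QQ E φ → b φ (u + v) ≠ 0 →
          u + v + w = a + c + d → PP E (a :: c :: d :: l).sum := by
        intro u v w hu hv hw φ hφ hne e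
        have p := h.add_P hc h2 hu hv hφ hne
        have e2 : ((u + v) :: w :: l).sum = (a :: c :: d :: l).sum := by
          simp only [List.sum_cons, ← add_assoc, e]
        rcases ih (l.length + 2) (by rw [← hn]; simp) ((u + v) :: w :: l) (by simp) (by
          intro y hy
          simp only [List.mem_cons] at hy
          rcases hy with rfl | rfl | hy
          exacts [p, hw, hl' y hy]) with q | q
        · rwa [e2] at q
        · exact absurd (e2 ▸ q χ hχ) hq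
      obtain ⟨φ, hφ, hφa⟩ := P_not_rad hc ha
      by_cases e1 : b φ (a + c) = 0
      · by_cases e2 : b φ (a + d) = 0
        · refine step c d a hc' hd ha φ hφ ?_ (by abel)
          intro e3
          simp only [map_add] at e1 e2 e3
          apply hφa
          apply mul_left_cancel₀ h2
          linear_combination e1 + e2 - e3
        · exact step a d c ha hd hc' φ hφ e2 (by abel)
      · exact step a c d ha hc' hd φ hφ e1 rfl
  have hl : ∀ u ∈ UU F E, ∃ l : List X, (∀ y ∈ l, PP E y) ∧ l.sum = u := by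
    intro u hu
    induction hu using Submodule.span_induction with
    | mem y hy => exact ⟨[y], by simpa using hy, by simp⟩
    | zero => exact ⟨[], by simp, rfl⟩
    | add u v _ _ i1 i2 =>
      obtain ⟨l1, p1, rfl⟩ := i1
      obtain ⟨l2, p2, rfl⟩ := i2
      refine ⟨l1 ++ l2, ?_, by simp⟩
      intro y hy
      rcases List.mem_append.1 hy with q | q
      exacts [p1 y q, p2 y q]
    | smul c u _ i1 =>
      obtain ⟨l1, p1, rfl⟩ := i1
      by_cases hc0 : c = 0
      · exact ⟨[], by simp, by simp [hc0]⟩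
      refine ⟨l1.map (c • ·), ?_, by simp [List.smul_sum]⟩
      intro y hy
      obtain ⟨y', q, rfl⟩ := List.mem_map.1 hy
      exact h.PP_smul (p1 y' q) hc0
  obtain ⟨l, p, e⟩ := hl (x + r) (Submodule.add_mem _ hx.mem hr)
  rcases key l p with q | q
  · rwa [e] at q
  · obtain ⟨φ, hφ, hφa⟩ := P_not_rad hc hx
    have := q φ hφ
    rw [e, map_add, hR φ hφ, add_zero] at this
    exact absurd this hφa

theorem P_of_mem {u} (hu : u ∈ UU F E) {χ} (hχ : QQ E χ) (hn : b χ u ≠ 0) : PP E u := by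
  have key : ∀ u ∈ UU F E, PP E u ∨ ∀ φ, QQ E φ → b φ u = 0 := by
    intro u hu
    induction hu using Submodule.span_induction with
    | mem y hy => exact Or.inl hy
    | zero => exact Or.inr (by simp)
    | add u v hu hv i1 i2 =>
      rcases i1 with p | p <;> rcases i2 with q | q
      · by_cases hq : ∀ φ, QQ E φ → b φ (u + v) = 0
        · exact Or.inr hq
        push Not at hq
        obtain ⟨φ, q1, q2⟩ := hq
        exact Or.inl (h.add_P hc h2 p q q1 q2)
      · exact Or.inl (h.add_R hc h2 p hv q)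
      · exact Or.inl (add_comm v u ▸ h.add_R hc h2 q hu p)
      · exact Or.inr fun φ hφ => by simp [p φ hφ, q φ hφ]
    | smul c u _ i1 =>
      by_cases hc0 : c = 0
      · exact Or.inr (by simp [hc0])
      rcases i1 with p | p
      · exact Or.inl (h.PP_smul p hc0)
      · exact Or.inr fun φ hφ => by simp [p φ hφ]
  exact (key u hu).resolve_right fun q => hn (q χ hχ)

theorem Q_of_mem {φ} (hφ : φ ∈ FF F E) {x} (hx : PP E x) (hn : b φ x ≠ 0) : QQ E φ :=
  h.flip.P_of_mem hc.flip h2 (u := φ) hφ (χ := x) hx (by simpa using hn)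

omit h h2 in
theorem Q_not_rad {φ} (hφ : QQ E φ) : ∃ x, PP E x ∧ b φ x ≠ 0 := by
  obtain ⟨x, h1, h2⟩ := P_not_rad hc.flip (x := φ) hφ
  exact ⟨x, h1, by simpa using h2⟩

end TV

end H11.McL
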