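import Cfsg.Agent.H11.MA

/-!
Abstract geometry of groups generated by full transvection subgroups (McLaughlin), part 2.
-/

set_option autoImplicit false
set_option linter.unusedSectionVars false

namespace H11.McL

variable {F X Y : Type*} [Field F] [AddCommGroup X] [Module F X] [AddCommGroup Y] [Module F Y]
variable {b : Y →ₗ[F] X →ₗ[F] F} {E : X → Y → Prop}

namespace TV

variable (h : TV b E) (hc : Con b E) (h2 : (2 : F) ≠ 0)
include h

theorem sub_l {x x' φ} (h1 : E x φ) (h3 : E x' φ) : E (x - x') φ := by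
  simpa [sub_eq_add_neg] using h.al h1 (h.sl (-1) h3)

theorem sub_r {x φ φ'} (h1 : E x φ) (h3 : E x φ') : E x (φ - φ') := by
  simpa [sub_eq_add_neg] using h.ar h1 (h.sr (-1) h3)

theorem two_of {z θ θ' v} (h1 : E z θ) (h3 : E z θ') (h0 : θ ≠ 0) (hv : b θ v = 0)
    (hv' : b θ' v ≠ 0) (w : X) : ∃ η, η ≠ 0 ∧ E z η ∧ b η w = 0 := by
  by_cases hw : b θ w = 0
  · exact ⟨θ, h0, h1, hw⟩
  refine ⟨b θ w • θ' - b θ' w • θ, fun e => ?_, h.sub_r (h.sr _ h3) (h.sr _ h1), by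
    simp [mul_comm]⟩
  have : b (b θ w • θ' - b θ' w • θ) v = 0 := by rw [e]; simp
  simp [hv, hw, hv'] at this

theorem two_step {y ψ z} (h1 : E y ψ) (hn : b ψ z ≠ 0)
    (hz : ∀ w, ∃ η, η ≠ 0 ∧ E z η ∧ b η w = 0) (w : X) : ∃ η, η ≠ 0 ∧ E y η ∧ b η w = 0 := by
  obtain ⟨θ, h0, g1, g2⟩ := hz y
  exact h.two_of (h.mix g1 h1 hn g2) h1 h0 (h.iso g1) hn w

include hc

theorem symm_pt {y ψ w} (h1 : E y ψ) (hy : y ≠ 0) (hn : b ψ w ≠ 0) (hw : PP E w) :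
    ∃ ω, E w ω ∧ b ω y ≠ 0 := by
  obtain ⟨hw0, ω, hω, g⟩ := hw
  by_cases h3 : b ω y = 0
  swap
  · exact ⟨ω, g, h3⟩
  obtain ⟨z, χ, g1, g2, g3⟩ := hc ω y ⟨hω, w, hw0, g⟩ ⟨hy, ψ, ne_l hn, h1⟩
  have g4 := h.cjk h1 g1 (b χ w / (b χ y * b ψ w))
  refine ⟨_, h.mix g4 g ?_ ?_, ?_⟩
  · simpa [h3] using g2
  · simp only [map_sub, map_smul, LinearMap.sub_apply, LinearMap.smul_apply, smul_eq_mul]
    field_simp
    simp
  · simpa [h.iso h1] using g3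

include h2

theorem caseA {x φ z χ} (h1 : E x φ) (h3 : E z χ) (hφ : φ ≠ 0) (hz : z ≠ 0) (hn : b χ x ≠ 0)
    (h0 : b φ z = 0) :
    (∀ u ∈ UU F E, (∀ φ, QQ E φ → b φ u = 0) → u = 0) ∧
    (∀ ρ ∈ FF F E, (∀ x, PP E x → b ρ x = 0) → ρ = 0) ∧
    ∀ u ∈ UU F E, ∀ ψ ∈ FF F E, b ψ u = 0 → E u ψ := by
  have hzP : PP E z := ⟨hz, χ, ne_l hn, h3⟩
  have t0 := h.two_of (h.mix h1 h3 hn h0) h3 hφ (h.iso h1) hn
  have key : ∀ ψ, QQ E ψ → ∀ u ∈ UU F E, b ψ u = 0 → E u ψ := by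
    intro ψ hψ u hu hu0
    obtain ⟨hψ0, y, hy, g⟩ := id hψ
    obtain ⟨w, ω, g1, g2, g3⟩ := hc ψ z hψ hzP
    obtain ⟨ψ', p0, p1, p2⟩ := h.two_step g g2 (h.two_step g1 g3 t0) w
    have hwP : PP E w := ⟨ne_r g2, ω, ne_l g3, g1⟩
    have hψ' : QQ E ψ' := ⟨p0, y, hy, p1⟩
    obtain ⟨w1, q1, q2⟩ := Q_not_rad hc hψ'
    have gen : ∀ v ∈ UU F E, b ψ v = 0 → b ψ' v ≠ 0 → E v ψ := by
      intro v hv e1 e2
      obtain ⟨ω', r1, r2⟩ := h.symm_pt hc p1 hy e2 (h.P_of_mem hc h2 hv hψ' e2)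
      exact h.mix g r1 r2 e1
    set m := w1 - (b ψ w1 / b ψ w) • w with hm
    have m1 : m ∈ UU F E := Submodule.sub_mem _ q1.mem (Submodule.smul_mem _ _ hwP.mem)
    have m2 : b ψ m = 0 := by
      simp only [hm, map_sub, map_smul, smul_eq_mul]; field_simp; simp
    have m3 : b ψ' m ≠ 0 := by simpa [hm, p2] using q2
    by_cases e : b ψ' u = 0
    · have := h.sub_l (gen (u + m) (Submodule.add_mem _ hu m1) (by simp [hu0, m2])
        (by simpa [e] using m3)) (gen m m1 m2 m3)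
      simpa using this
    · exact gen u hu hu0 e
  have hχQ : QQ E χ := ⟨ne_l hn, z, hz, h3⟩
  have r2 : ∀ ρ ∈ FF F E, (∀ x, PP E x → b ρ x = 0) → ρ = 0 := by
    intro ρ hρ hr
    by_contra hρ0
    obtain ⟨w, q1, q2⟩ := Q_not_rad hc hχQ
    have hQ := h.Q_of_mem hc h2 (Submodule.add_mem _ hχQ.mem hρ) q1 (by simpa [hr w q1] using q2)
    have e := h.sub_r (key _ hQ z hzP.mem (by simp [h.iso h3, hr z hzP])) h3
    rw [add_sub_cancel_left] at e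
    obtain ⟨w', s1, s2⟩ := Q_not_rad hc (⟨hρ0, z, hz, e⟩ : QQ E ρ)
    exact s2 (hr w' s1)
  refine ⟨fun u hu hr => ?_, r2, fun u hu ψ hψ e => ?_⟩
  · by_contra hu0
    obtain ⟨ψ, s1, s2⟩ := P_not_rad hc (⟨hu0, χ, hχQ.1, key χ hχQ u hu (hr χ hχQ)⟩ : PP E u)
    exact s2 (hr ψ s1)
  · by_cases hψ0 : ψ = 0
    · rw [hψ0]; exact h.zr u
    have : ∃ w, PP E w ∧ b ψ w ≠ 0 := by
      by_contra hh
      push Not at hh
      exact hψ0 (r2 ψ hψ hh)
    obtain ⟨w, s1, s2⟩ := this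
    exact key ψ (h.Q_of_mem hc h2 hψ s1 s2) u hu e

theorem caseB {x φ} (h1 : E x φ) (hx : x ≠ 0) (hφ : φ ≠ 0)
    (hs : ∀ x φ z χ, E x φ → E z χ → φ ≠ 0 → z ≠ 0 → b χ x ≠ 0 → b φ z ≠ 0)
    (hR : ∀ z χ χ' r, E z χ → E (z + r) χ' → z ∈ UU F E → r ∈ UU F E →
      (∀ φ, QQ E φ → b φ r = 0) → (∀ u ∈ UU F E, b χ' u = b χ u) → z ≠ 0 → χ ≠ 0 → r = 0) :
    (∀ u ∈ UU F E, (∀ φ, QQ E φ → b φ u = 0) → u = 0) ∧
    (∀ ρ ∈ FF F E, (∀ x, PP E x → b ρ x = 0) → ρ = 0) ∧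
    ∃ B : X →ₗ[F] X →ₗ[F] F, (∀ z ∈ UU F E, B z z = 0) ∧
      (∀ z ∈ UU F E, (∀ u ∈ UU F E, B z u = 0) → z = 0) ∧
      (∀ z χ, E z χ → z ≠ 0 → χ ≠ 0 → ∃ c, ∀ u ∈ UU F E, b χ u = c * B z u) ∧
      ∀ z ∈ UU F E, ∃ χ, E z χ ∧ ∀ u ∈ UU F E, b χ u = B z u := by
  classical
  have hφQ : QQ E φ := ⟨hφ, x, hx, h1⟩
  have hxP : PP E x := ⟨hx, φ, hφ, h1⟩
  set S : Set X := {z | z ∈ UU F E ∧ b φ z ≠ 0} with hS
  have hf : ∀ z, ∃ χ, z ∈ S → E z χ ∧ b χ x = - b φ z := by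
    intro z
    by_cases hz : z ∈ S
    swap
    · exact ⟨0, fun q => absurd q hz⟩
    obtain ⟨hz0, χ, q1, q2⟩ := h.P_of_mem hc h2 hz.1 hφQ hz.2
    have q3 := hs z χ x φ q2 h1 q1 hx hz.2
    refine ⟨(- b φ z / b χ x) • χ, fun _ => ⟨h.sr _ q2, ?_⟩⟩
    simp only [map_smul, LinearMap.smul_apply, smul_eq_mul]
    field_simp
  choose f hf using hf
  have f0 : ∀ z ∈ S, f z ≠ 0 := fun z hz => ne_l (b := b) (x := x) (by
    rw [(hf z hz).2]; exact neg_ne_zero.2 hz.2)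
  have tri : ∀ z ∈ S, ∀ w ∈ S, b (f z) w = - b (f w) z := by
    intro z hz w hw
    by_cases e : b (f w) z = 0
    · rw [e, neg_zero]
      by_contra e'
      exact hs w (f w) z (f z) (hf w hw).1 (hf z hz).1 (f0 w hw) (ne_r hz.2) e' e
    have g := h.cjk (hf w hw).1 (hf z hz).1 (- b φ z / (b (f w) z * b φ w))
    have g0 := h.nz_l (hf w hw).1 (ne_r hz.2) (- b φ z / (b (f w) z * b φ w))
    have hw2 := hw.2
    have hz2 := hz.2
    have g1 : b (f z - (- b φ z / (b (f w) z * b φ w) * b (f z) w) • f w) x = 0 := by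
      by_contra e'
      refine hs x φ _ _ h1 g hφ g0 e' ?_
      simp only [map_add, map_smul, smul_eq_mul]
      field_simp
      simp
    simp only [map_sub, map_smul, LinearMap.sub_apply, LinearMap.smul_apply, smul_eq_mul,
      (hf z hz).2, (hf w hw).2] at g1
    field_simp at g1
    apply mul_left_cancel₀ hz2
    linear_combination (-1 : F) * g1
  obtain ⟨w0, w1, w2⟩ := Q_not_rad hc hφQ
  have w0S : w0 ∈ S := ⟨w1.mem, w2⟩
  have ext : ∀ (l : X →ₗ[F] F), (∀ z ∈ S, l z = 0) → ∀ u ∈ UU F E, l u = 0 := by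
    intro l hl u hu
    by_cases e : b φ u = 0
    · have := hl (u + w0) ⟨Submodule.add_mem _ hu w1.mem, by simpa [e] using w2⟩
      simpa [hl w0 w0S] using this
    · exact hl u ⟨hu, e⟩
  obtain ⟨t, ht1, ht2, ht3⟩ := exists_linearIndependent F S
  have ht4 : LinearIndepOn F id t := ht3
  let L : X →ₗ[F] Y := (Module.Basis.extend ht4).constr F (fun i => f i)
  have hL : ∀ z ∈ t, L z = f z := by
    intro z hz
    have hz' : z ∈ ht4.extend (Set.subset_univ t) := ht4.subset_extend _ hz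
    have := (Module.Basis.extend ht4).constr_basis F (fun i => f i) ⟨z, hz'⟩
    rwa [Module.Basis.extend_apply_self] at this
  let B : X →ₗ[F] X →ₗ[F] F := b ∘ₗ L
  have hB : ∀ z w, B z w = b (L z) w := fun _ _ => rfl
  have B1 : ∀ w ∈ S, ∀ z ∈ UU F E, B z w = - b (f w) z := by
    intro w hw z hz
    have := ext (B.flip w + b (f w)) (fun z hz => by
      have hz' : z ∈ Submodule.span F t := ht2 ▸ Submodule.subset_span hz
      clear hz
      induction hz' using Submodule.span_induction with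
      | mem y hy =>
        simp only [LinearMap.add_apply, LinearMap.flip_apply, hB, hL y hy, tri y (ht1 hy) w hw]
        simp
      | zero => simp
      | add u v _ _ i1 i2 => rw [map_add, i1, i2, add_zero]
      | smul c u _ i1 => rw [map_smul, i1, smul_zero]) z hz
    simp only [LinearMap.add_apply, LinearMap.flip_apply] at this
    linear_combination this
  have B2 : ∀ z ∈ S, ∀ w ∈ UU F E, B z w = b (f z) w := by
    intro z hz w hw
    have := ext (B z - b (f z)) (fun w hw => by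
      simp only [LinearMap.sub_apply, B1 w hw z hz.1, tri z hz w hw]; simp) w hw
    simp only [LinearMap.sub_apply] at this
    linear_combination this
  have B3 : ∀ z ∈ UU F E, ∀ w ∈ UU F E, B z w = - B w z := by
    intro z hz w hw
    have := ext (B z + B.flip z) (fun w hw => by
      simp only [LinearMap.add_apply, LinearMap.flip_apply, B1 w hw z hz, B2 w hw z hz]; simp) w hw
    simp only [LinearMap.add_apply, LinearMap.flip_apply] at this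
    linear_combination this
  have B4 : ∀ z ∈ UU F E, B z z = 0 := by
    intro z hz
    apply mul_left_cancel₀ h2
    linear_combination B3 z hz z hz
  have B5a : ∀ z χ, E z χ → z ∈ S → χ ≠ 0 → ∃ c, c ≠ 0 ∧ ∀ u ∈ UU F E, b χ u = c * B z u := by
    intro z χ g hz hχ
    have q3 := hs z χ x φ g h1 hχ hx hz.2
    have hz2 := hz.2
    have g1 := h.ar g (h.sr (b χ x / b φ z) (hf z hz).1)
    have e : χ + (b χ x / b φ z) • f z = 0 := by
      by_contra e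
      refine hs z _ x φ g1 h1 e hx hz.2 ?_
      simp only [map_add, map_smul, LinearMap.add_apply, LinearMap.smul_apply, smul_eq_mul,
        (hf z hz).2]
      field_simp
      simp
    refine ⟨- (b χ x / b φ z), neg_ne_zero.2 (div_ne_zero q3 hz2), fun u hu => ?_⟩
    have : b (χ + (b χ x / b φ z) • f z) u = 0 := by rw [e]; simp
    simp only [map_add, map_smul, LinearMap.add_apply, LinearMap.smul_apply, smul_eq_mul] at this
    rw [B2 z hz u hu]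
    linear_combination this
  have B5 : ∀ z χ, E z χ → z ≠ 0 → χ ≠ 0 → ∃ c, c ≠ 0 ∧ ∀ u ∈ UU F E, b χ u = c * B z u := by
    intro z χ g hz hχ
    have hzP : PP E z := ⟨hz, χ, hχ, g⟩
    by_cases e : b φ z = 0
    swap
    · exact B5a z χ g ⟨hzP.mem, e⟩ hχ
    obtain ⟨w, ω, g1, g2, g3⟩ := hc φ z hφQ hzP
    have hw : w ∈ S := ⟨PP.mem ⟨ne_r g2, ω, ne_l g3, g1⟩, g2⟩
    have g4 := hs z χ w ω g g1 hχ (ne_r g2) g3
    have g5 := hs w (f w) z χ (hf w hw).1 g (f0 w hw) hz g4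
    obtain ⟨c, c0, c1⟩ := B5a _ _ (h.cjk (hf w hw).1 g 1) ⟨Submodule.add_mem _ hzP.mem
      (Submodule.smul_mem _ _ hw.1), by simp [e, g5, g2]⟩ (h.nz_r (hf w hw).1 hχ 1)
    simp only [map_add, map_sub, map_smul, LinearMap.add_apply, LinearMap.sub_apply,
      LinearMap.smul_apply, smul_eq_mul, one_mul] at c1
    have c2 := c1 z hzP.mem
    rw [h.iso g, B4 z hzP.mem, B2 w hw z hzP.mem] at c2
    have c3 : b χ w + c * b (f w) z = 0 := by
      apply mul_left_cancel₀ g5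
      linear_combination (-1 : F) * c2
    refine ⟨c, c0, fun u hu => ?_⟩
    have c4 := c1 u hu
    rw [B2 w hw u hu] at c4
    linear_combination c4 + b (f w) u * c3
  have r1 : ∀ u ∈ UU F E, (∀ φ, QQ E φ → b φ u = 0) → u = 0 := by
    intro r hr hq
    have hS' : w0 + r ∈ S := ⟨Submodule.add_mem _ w1.mem hr, by simpa [hq φ hφQ] using w2⟩
    refine hR w0 (f w0) (f (w0 + r)) r (hf _ w0S).1 (hf _ hS').1 w1.mem hr hq (fun u hu => ?_)
      w1.1 (f0 _ w0S)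
    have := ext (B r) (fun u hu => by
      rw [B1 u hu r hr, hq _ ⟨f0 u hu, u, ne_r hu.2, (hf u hu).1⟩, neg_zero]) u hu
    rw [← B2 _ hS' u hu, ← B2 _ w0S u hu, map_add, LinearMap.add_apply, this, add_zero]
  have allP : ∀ u ∈ UU F E, u ≠ 0 → PP E u := by
    intro u hu hu0
    have : ∃ ψ, QQ E ψ ∧ b ψ u ≠ 0 := by
      by_contra hh
      push Not at hh
      exact hu0 (r1 u hu hh)
    obtain ⟨ψ, s1, s2⟩ := this
    exact h.P_of_mem hc h2 hu s1 s2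
  have nd : ∀ z ∈ UU F E, (∀ u ∈ UU F E, B z u = 0) → z = 0 := by
    intro z hz hq
    by_contra hz0
    obtain ⟨-, χ, q1, q2⟩ := allP z hz hz0
    obtain ⟨c, -, c1⟩ := B5 z χ q2 hz0 q1
    obtain ⟨w, s1, s2⟩ := Q_not_rad hc (⟨q1, z, hz0, q2⟩ : QQ E χ)
    exact s2 (by rw [c1 w s1.mem, hq w s1.mem, mul_zero])
  refine ⟨r1, fun ρ hρ hr => ?_, B, B4, nd, fun z χ g hz hχ => (B5 z χ g hz hχ).imp
    fun _ q => q.2, fun z hz => ?_⟩
  · by_contra hρ0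
    obtain ⟨q0, z', q1, q2⟩ := h.Q_of_mem hc h2 (Submodule.add_mem _ hφQ.mem hρ) w1
      (by simpa [hr w0 w1] using w2)
    have hρU : ∀ u ∈ UU F E, b ρ u = 0 := by
      intro u hu
      by_cases hu0 : u = 0
      · simp [hu0]
      · exact hr u (allP u hu hu0)
    obtain ⟨c, c0, c1⟩ := B5 x φ h1 hx hφ
    obtain ⟨c', c0', c1'⟩ := B5 z' _ q2 q1 q0
    have hz' : z' ∈ UU F E := PP.mem ⟨q1, _, q0, q2⟩
    have e := nd (c • x - c' • z') (Submodule.sub_mem _ (Submodule.smul_mem _ _ hxP.mem)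
      (Submodule.smul_mem _ _ hz')) (fun u hu => by
        have a1 := c1 u hu
        have a2 := c1' u hu
        simp only [map_add, LinearMap.add_apply, hρU u hu, add_zero] at a2
        simp only [map_sub, map_smul, LinearMap.sub_apply, LinearMap.smul_apply, smul_eq_mul]
        linear_combination a2 - a1)
    have e2 : x = (c⁻¹ * c') • z' := by
      rw [mul_smul, ← sub_eq_zero.1 e, smul_smul, inv_mul_cancel₀ c0, one_smul]
    have e3 := h.sub_r (e2 ▸ h.sl (c⁻¹ * c') q2 : E x (φ + ρ)) h1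
    rw [add_sub_cancel_left] at e3
    obtain ⟨w', s1, s2⟩ := Q_not_rad hc (⟨hρ0, x, hx, e3⟩ : QQ E ρ)
    exact s2 (hr w' s1)
  · by_cases hz0 : z = 0
    · exact ⟨0, h.zr z, fun u _ => by simp [hz0]⟩
    obtain ⟨-, χ, q1, q2⟩ := allP z hz hz0
    obtain ⟨c, c0, c1⟩ := B5 z χ q2 hz0 q1
    refine ⟨c⁻¹ • χ, h.sr _ q2, fun u hu => ?_⟩
    simp only [map_smul, LinearMap.smul_apply, smul_eq_mul, c1 u hu]
    field_simp

theorem main
    (hR : ∀ z χ χ' r, E z χ → E (z + r) χ' → z ∈ UU F E → r ∈ UU F E →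
      (∀ φ, QQ E φ → b φ r = 0) → (∀ u ∈ UU F E, b χ' u = b χ u) → z ≠ 0 → χ ≠ 0 → r = 0) :
    (∀ u ∈ UU F E, (∀ φ, QQ E φ → b φ u = 0) → u = 0) ∧
    (∀ ρ ∈ FF F E, (∀ x, PP E x → b ρ x = 0) → ρ = 0) ∧
    ((∀ u ∈ UU F E, ∀ ψ ∈ FF F E, b ψ u = 0 → E u ψ) ∨
    ∃ B : X →ₗ[F] X →ₗ[F] F, (∀ z ∈ UU F E, B z z = 0) ∧
      (∀ z ∈ UU F E, (∀ u ∈ UU F E, B z u = 0) → z = 0) ∧
      (∀ z χ, E z χ → z ≠ 0 → χ ≠ 0 → ∃ c, ∀ u ∈ UU F E, b χ u = c * B z u) ∧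
      ∀ z ∈ UU F E, ∃ χ, E z χ ∧ ∀ u ∈ UU F E, b χ u = B z u) := by
  by_cases hs : ∀ x φ z χ, E x φ → E z χ → φ ≠ 0 → z ≠ 0 → b χ x ≠ 0 → b φ z ≠ 0
  swap
  · push Not at hs
    obtain ⟨x, φ, z, χ, a1, a2, a3, a4, a5, a6⟩ := hs
    obtain ⟨p1, p2, p3⟩ := h.caseA hc h2 a1 a2 a3 a4 a5 a6
    exact ⟨p1, p2, Or.inl p3⟩
  by_cases hne : ∃ x φ, E x φ ∧ x ≠ 0 ∧ φ ≠ 0
  · obtain ⟨x, φ, a1, a2, a3⟩ := hne
    obtain ⟨p1, p2, p3⟩ := h.caseB hc h2 a1 a2 a3 hs hR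
    exact ⟨p1, p2, Or.inr p3⟩
  have hU : UU F E = ⊥ := by
    rw [UU, Submodule.span_eq_bot]
    rintro x ⟨a1, φ, a2, a3⟩
    exact absurd ⟨x, φ, a3, a1, a2⟩ hne
  have hF : FF F E = ⊥ := by
    rw [FF, Submodule.span_eq_bot]
    rintro φ ⟨a1, x, a2, a3⟩
    exact absurd ⟨x, φ, a3, a2, a1⟩ hne
  simp only [hU, hF, Submodule.mem_bot]
  refine ⟨fun u hu _ => hu, fun u hu _ => hu, Or.inl ?_⟩
  rintro u rfl ψ - -
  exact h.zl ψ

end TV

end H11.McL
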