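import Cfsg.Agent.H11.MB
import Cfsg.Prelude.Def_Solvable

/-!
McLaughlin's theorem over prime fields, part 3: the transvections of a linear group.
-/

set_option autoImplicit false
set_option linter.unusedSectionVars false

namespace H11.McL

open Module

variable {p : ℕ} [Fact p.Prime] {V : Type*} [AddCommGroup V] [Module (ZMod p) V]

/-- evaluation pairing -/
def ev (p : ℕ) (V : Type*) [AddCommGroup V] [Module (ZMod p) V] :
    Dual (ZMod p) V →ₗ[ZMod p] V →ₗ[ZMod p] ZMod p := LinearMap.id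

@[simp] theorem ev_apply (φ : Dual (ZMod p) V) (x : V) : ev p V φ x = φ x := rfl

/-- transvections of `H` -/
def DD (H : Subgroup (V ≃ₗ[ZMod p] V)) (x : V) (φ : Dual (ZMod p) V) : Prop :=
  φ x = 0 ∧ ∃ g ∈ H, ∀ v, g v = v + φ v • x

theorem tv_inv {g : V ≃ₗ[ZMod p] V} {x : V} {φ : Dual (ZMod p) V} (h0 : φ x = 0)
    (hg : ∀ v, g v = v + φ v • x) (v : V) : g⁻¹ v = v - φ v • x := by
  apply g.injective
  rw [hg (v - _)]
  simp [h0]

theorem tv_pow {g : V ≃ₗ[ZMod p] V} {x : V} {φ : Dual (ZMod p) V} (h0 : φ x = 0)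
    (hg : ∀ v, g v = v + φ v • x) (n : ℕ) (v : V) : (g ^ n) v = v + φ v • ((n : ZMod p) • x) := by
  induction n with
  | zero => simp
  | succ n ih =>
    rw [pow_succ', LinearEquiv.mul_apply, ih, hg]
    simp [h0, add_smul, add_assoc]

theorem DD.tv (H : Subgroup (V ≃ₗ[ZMod p] V)) : TV (ev p V) (DD H) where
  iso := fun h => h.1
  zl := fun φ => ⟨by simp, 1, H.one_mem, by simp⟩
  zr := fun x => ⟨by simp, 1, H.one_mem, by simp⟩
  sl := fun {x φ} c ⟨h0, g, hg, h⟩ => ⟨by simp [h0], g ^ c.val, H.pow_mem hg _, fun v => by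
    rw [tv_pow h0 h]; simp⟩
  sr := fun {x φ} c ⟨h0, g, hg, h⟩ => ⟨by simp [h0], g ^ c.val, H.pow_mem hg _, fun v => by
    rw [tv_pow h0 h]; simp [smul_smul, mul_comm]⟩
  al := fun {x x' φ} ⟨h0, g, hg, h⟩ ⟨h0', g', hg', h'⟩ => ⟨by simp [h0, h0'], g' * g,
    H.mul_mem hg' hg, fun v => by
      rw [LinearEquiv.mul_apply, h, h']; simp [h0, add_assoc]⟩
  ar := fun {x φ φ'} ⟨h0, g, hg, h⟩ ⟨h0', g', hg', h'⟩ => ⟨by simp [h0, h0'], g' * g,
    H.mul_mem hg' hg, fun v => by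
      rw [LinearEquiv.mul_apply, h, h']; simp [h0', add_assoc, add_smul]⟩
  cj := fun {x φ z χ} ⟨h0, g, hg, h⟩ ⟨h0', g', hg', h'⟩ => ⟨by simp [h0, h0', mul_comm],
    g * g' * g⁻¹, H.mul_mem (H.mul_mem hg hg') (H.inv_mem hg), fun v => by
      rw [LinearEquiv.mul_apply, LinearEquiv.mul_apply, tv_inv h0 h, h', h]
      simp only [map_add, map_sub, map_smul, h0, ev_apply, LinearMap.sub_apply,
        LinearMap.smul_apply, smul_eq_mul]
      module⟩

/-- `H` is generated by transvections -/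
def Gen (H : Subgroup (V ≃ₗ[ZMod p] V)) : Prop :=
  H ≤ Subgroup.closure {g | ∃ x φ, DD H x φ ∧ x ≠ 0 ∧ φ ≠ 0 ∧ ∀ v, g v = v + φ v • x}

/-- invariance under a family of transvections -/
def Inv (E : V → Dual (ZMod p) V → Prop) (U : Submodule (ZMod p) V) : Prop :=
  ∀ x φ, E x φ → x ≠ 0 → φ ≠ 0 → ∀ v ∈ U, φ v • x ∈ U

variable {H : Subgroup (V ≃ₗ[ZMod p] V)}

theorem Gen.inv (hG : Gen H) {U : Submodule (ZMod p) V} (hU : Inv (DD H) U) {g} (hg : g ∈ H)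
    (v : V) : g v ∈ U ↔ v ∈ U := by
  have hg' := hG hg
  clear hg
  induction hg' using Subgroup.closure_induction generalizing v with
  | mem g hg =>
    obtain ⟨x, φ, h1, h2, h3, h4⟩ := hg
    constructor
    · intro hv
      have := hU x φ h1 h2 h3 _ hv
      rw [h4] at hv this
      simp only [map_add, map_smul, h1.1, smul_zero, add_zero] at this
      simpa using U.sub_mem hv this
    · intro hv
      rw [h4]; exact U.add_mem hv (hU x φ h1 h2 h3 _ hv)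
  | one => simp
  | mul g k _ _ i1 i2 => exact (i1 (k v)).trans (i2 v)
  | inv g _ i1 => simpa using (i1 (g⁻¹ v)).symm

theorem unip_pow (hp : Odd p) {g : V ≃ₗ[ZMod p] V} {U R : Submodule (ZMod p) V}
    (h1 : ∀ v, g v - v ∈ U) (h2 : ∀ v ∈ U, g v - v ∈ R) (h3 : ∀ v ∈ R, g v = v) : g ^ p = 1 := by
  have key : ∀ n : ℕ, ∀ v, (g ^ n) v = v + (n : ZMod p) • (g v - v) +
      ((n.choose 2 : ℕ) : ZMod p) • (g (g v - v) - (g v - v)) := by
    intro n v
    induction n with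
    | zero => simp
    | succ n ih =>
      rw [pow_succ', LinearEquiv.mul_apply, ih, map_add, map_add, map_smul, map_smul,
        h3 _ (h2 _ (h1 v)), Nat.choose_succ_succ' n 1]
      simp only [Nat.choose_one_right, Nat.cast_add, Nat.cast_one]
      module
  ext v
  rw [key]
  have h4 : ((p.choose 2 : ℕ) : ZMod p) = 0 := by
    rw [ZMod.natCast_eq_zero_iff]
    have h5 := (Fact.out : p.Prime).two_le
    refine (Fact.out : p.Prime).dvd_choose_self (by norm_num) ?_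
    rcases hp with ⟨k, rfl⟩
    omega
  simp [h4]

theorem Gen.unip (hG : Gen H) (hp : Odd p) (hO : Cfsg.pCore p H = ⊥) {U R : Submodule (ZMod p) V}
    (hU : Inv (DD H) U) (hR : Inv (DD H) R) {g} (hg : g ∈ H)
    (h1 : ∀ v, g v - v ∈ U) (h2 : ∀ v ∈ U, g v - v ∈ R) (h3 : ∀ v ∈ R, g v = v) : g = 1 := by
  let N : Subgroup H :=
    { carrier := {k | (∀ v, k.1 v - v ∈ U) ∧ (∀ v ∈ U, k.1 v - v ∈ R) ∧ ∀ v ∈ R, k.1 v = v}
      one_mem' := by simp
      mul_mem' := by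
        rintro a c ⟨a1, a2, a3⟩ ⟨c1, c2, c3⟩
        refine ⟨fun v => ?_, fun v hv => ?_, fun v hv => ?_⟩
        · simpa using U.add_mem (a1 (c.1 v)) (c1 v)
        · simpa using R.add_mem (a2 (c.1 v) ((hG.inv hU c.2 v).2 hv)) (c2 v hv)
        · simp [c3 v hv, a3 v hv]
      inv_mem' := by
        rintro a ⟨a1, a2, a3⟩
        refine ⟨fun v => ?_, fun v hv => ?_, fun v hv => ?_⟩
        · simpa using U.neg_mem (a1 (a.1⁻¹ v))
        · simpa using R.neg_mem (a2 (a.1⁻¹ v) ((hG.inv hU (H.inv_mem a.2) v).2 hv))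
        · apply a.1.injective
          simp [a3 v hv] }
  have hN : N.Normal := ⟨by
    rintro a ⟨a1, a2, a3⟩ c
    refine ⟨fun v => ?_, fun v hv => ?_, fun v hv => ?_⟩
    · simpa using (hG.inv hU c.2 _).2 (a1 (c.1⁻¹ v))
    · simpa using (hG.inv hR c.2 _).2 (a2 (c.1⁻¹ v) ((hG.inv hU (H.inv_mem c.2) v).2 hv))
    · have := a3 (c.1⁻¹ v) ((hG.inv hR (H.inv_mem c.2) v).2 hv)
      simp only [Subgroup.coe_mul, Subgroup.coe_inv, LinearEquiv.mul_apply, this]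
      simp⟩
  have hP : IsPGroup p N := by
    rintro ⟨a, a1, a2, a3⟩
    refine ⟨1, Subtype.ext (Subtype.ext ?_)⟩
    simpa using unip_pow hp a1 a2 a3
  have hle : N ≤ Cfsg.pCore p H := le_sSup ⟨hN, hP⟩
  have : (⟨g, hg⟩ : H) ∈ (⊥ : Subgroup H) := hO ▸ hle ⟨h1, h2, h3⟩
  simpa using this

theorem Gen.eq_tv (hG : Gen H) (hp : Odd p) (hO : Cfsg.pCore p H = ⊥)
    {U R : Submodule (ZMod p) V} (hU : Inv (DD H) U) (hR : Inv (DD H) R) (hRU : R ≤ U)
    {z r : V} {χ χ'} (h1 : DD H z χ) (h2 : DD H (z + r) χ') (hz : z ∈ U) (hr : r ∈ R)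
    (e1 : ∀ u ∈ U, χ' u = χ u) (e2 : ∀ v ∈ R, χ v = 0) (v : V) : χ' v • (z + r) = χ v • z := by
  obtain ⟨h0, g, hg, h⟩ := h1
  obtain ⟨h0', g', hg', h'⟩ := h2
  have e : ∀ v, (g' * g⁻¹) v - v = χ' v • (z + r) - χ v • z := by
    intro v
    rw [LinearEquiv.mul_apply, tv_inv h0 h, h']
    simp only [map_sub, map_smul, e1 z hz, h0]
    module
  have := hG.unip hp hO hU hR (H.mul_mem hg' (H.inv_mem hg))
    (fun v => e v ▸ U.sub_mem (U.smul_mem _ (U.add_mem hz (hRU hr))) (U.smul_mem _ hz))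
    (fun v hv => by
      rw [e, e1 v hv, smul_add, add_sub_cancel_left]; exact R.smul_mem _ hr)
    (fun v hv => by
      rw [← sub_eq_zero, e, e1 v (hRU hv), e2 v hv]; simp)
  have e3 := e v
  rw [this] at e3
  exact sub_eq_zero.1 (by simpa using e3.symm)

theorem Gen.kill (hG : Gen H) (hp : Odd p) (hO : Cfsg.pCore p H = ⊥)
    {U : Submodule (ZMod p) V} (hU : Inv (DD H) U) {w φ} (h1 : DD H w φ) (hw : w ∈ U)
    (hφ : ∀ v ∈ U, φ v = 0) (w0 : w ≠ 0) : φ = 0 := by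
  ext v
  have := hG.eq_tv hp hO hU hU le_rfl (z := 0) (χ := 0) ((DD.tv H).zl 0) (r := w) (χ' := φ)
    (by simpa using h1) U.zero_mem hw (by simpa using hφ) (by simp) v
  simpa [w0] using this

/-- edges -/
def rr (H : Subgroup (V ≃ₗ[ZMod p] V)) (a c : V × Dual (ZMod p) V) : Prop :=
  (DD H a.1 a.2 ∧ a.1 ≠ 0 ∧ a.2 ≠ 0) ∧ (DD H c.1 c.2 ∧ c.1 ≠ 0 ∧ c.2 ≠ 0) ∧ a.2 c.1 ≠ 0

/-- reachability -/
def Rel (H : Subgroup (V ≃ₗ[ZMod p] V)) (a c : V × Dual (ZMod p) V) : Prop :=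
  (DD H a.1 a.2 ∧ a.1 ≠ 0 ∧ a.2 ≠ 0) ∧ Relation.ReflTransGen (rr H) a c

theorem Rel.right {a c} (h : Rel H a c) : DD H c.1 c.2 ∧ c.1 ≠ 0 ∧ c.2 ≠ 0 := by
  obtain ⟨h1, h2⟩ := h
  induction h2 with
  | refl => exact h1
  | tail _ h3 _ => exact h3.2.1

theorem Rel.tail {a c d} (h : Rel H a c) (h1 : DD H d.1 d.2) (h2 : d.2 ≠ 0) (h3 : c.2 d.1 ≠ 0) :
    Rel H a d := ⟨h.1, h.2.tail ⟨h.right, ⟨h1, by rintro e; simp [e] at h3, h2⟩, h3⟩⟩

theorem Rel.trans {a c d} (h : Rel H a c) (h1 : Rel H c d) : Rel H a d := ⟨h.1, h.2.trans h1.2⟩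

/-- annihilator of the axes reachable from `a` -/
def AA (H : Subgroup (V ≃ₗ[ZMod p] V)) (a : V × Dual (ZMod p) V) : Submodule (ZMod p) V :=
  ⨅ c ∈ {c | Rel H a c}, LinearMap.ker c.2

theorem mem_AA {a} {v : V} : v ∈ AA H a ↔ ∀ c, Rel H a c → c.2 v = 0 := by
  simp [AA]

theorem AA_inv (a) : Inv (DD H) (AA H a) := by
  intro w ω h1 _ h3 v hv
  rw [mem_AA] at hv ⊢
  intro c hc
  by_cases e : c.2 w = 0
  · simp [e]
  · have := hv (w, ω) (hc.tail h1 h3 e)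
    simp only at this
    simp [this]

variable (hG : Gen H) (hp : Odd p) (hO : Cfsg.pCore p H = ⊥)
include hG hp hO

theorem Rel.inEdge {a c} (h : Rel H a c) : ∃ d, Rel H a d ∧ d.2 c.1 ≠ 0 := by
  by_contra hh
  push Not at hh
  exact h.right.2.2 (hG.kill hp hO (AA_inv a) h.right.1 (mem_AA.2 hh)
    (fun v hv => mem_AA.1 hv c h) h.right.2.1)

theorem Rel.back {a c d} (h : Rel H a c) (h1 : DD H d.1 d.2) (h2 : d.1 ≠ 0) (h3 : d.2 c.1 ≠ 0) :
    Rel H a d := by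
  have d0 : d.2 ≠ 0 := by rintro e; simp [e] at h3
  by_contra hh
  have hw : d.1 ∈ AA H a := mem_AA.2 fun e he => by
    by_contra h4
    exact hh (he.tail h1 d0 h4)
  have := (DD.tv H).mix h.right.1 h1 h3 (mem_AA.1 hw c h)
  exact h.right.2.2 (hG.kill hp hO (AA_inv a) this hw (fun v hv => mem_AA.1 hv c h) h2)

theorem Rel.symm {a c} (h : Rel H a c) : Rel H c a := by
  obtain ⟨h1, h2⟩ := id h
  have hc := h.right
  clear h h1
  induction h2 using Relation.ReflTransGen.head_induction_on with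
  | refl => exact ⟨hc, .refl⟩
  | head h3 _ ih => exact ih.back hG hp hO h3.1.1 h3.1.2.1 h3.2.2

theorem Rel.two {a c} (h : Rel H a c) : ∃ z χ, DD H z χ ∧ a.2 z ≠ 0 ∧ χ c.1 ≠ 0 := by
  have tv := DD.tv H
  have key : ∀ {a c}, Rel H a c → a.2 c.1 ≠ 0 ∨ ∃ z χ, DD H z χ ∧ a.2 z ≠ 0 ∧ χ c.1 ≠ 0 := by
    intro a c h
    obtain ⟨d, h1, h2⟩ := h.inEdge hG hp hO
    obtain ⟨-, h3⟩ := h1
    clear h
    induction h3 using Relation.ReflTransGen.head_induction_on with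
    | refl => exact Or.inl h2
    | @head a e h3 _ ih =>
      right
      obtain ⟨-, ⟨e1, -, -⟩, e2⟩ := h3
      rcases ih with q | ⟨z, χ, q1, q2, q3⟩
      · exact ⟨e.1, e.2, e1, e2, q⟩
      by_cases r1 : a.2 z = 0
      swap
      · exact ⟨z, χ, q1, r1, q3⟩
      by_cases r2 : e.2 c.1 = 0
      swap
      · exact ⟨e.1, e.2, e1, e2, r2⟩
      exact ⟨_, _, tv.cj e1 q1, by simp [r1, q2, e2], by simp [r2, q3]⟩
  rcases key h with q | q
  swap
  · exact q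
  have hc := h.right
  rcases key (⟨hc, .refl⟩ : Rel H c c) with q1 | ⟨w, ω, q1, q2, q3⟩
  · exact absurd hc.1.1 q1
  by_cases r1 : a.2 w = 0
  swap
  · exact ⟨w, ω, q1, r1, q3⟩
  exact ⟨_, _, tv.cj hc.1 q1, by simp [r1, q2, q], by simp [hc.1.1, q3]⟩

end H11.McL
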