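import Cfsg.Agent.H11.MC
import Cfsg.Agent.H23.SpGen
import Cfsg.Agent.H22.Linear

/-!
McLaughlin's theorem over prime fields, part 4: components.
-/

set_option autoImplicit false
set_option linter.unusedSectionVars false

namespace H11.McL

open Module

theorem sl_gen {F U : Type*} [Field F] [AddCommGroup U] [Module F U] [FiniteDimensional F U]
    (K : Subgroup (U ≃ₗ[F] U))
    (hK : ∀ (x : U) (φ : Dual F U), φ x = 0 → ∃ g ∈ K, ∀ v, g v = v + φ v • x)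
    (f : U ≃ₗ[F] U) (hf : LinearMap.det (f : U →ₗ[F] U) = 1) : f ∈ K := by
  classical
  let b := finBasis F U
  let A : Matrix.SpecialLinearGroup (Fin (finrank F U)) F :=
    ⟨LinearMap.toMatrix b b f, by rw [LinearMap.det_toMatrix]; exact hf⟩
  have key : ∃ g ∈ K, LinearMap.toMatrix b b (g : U →ₗ[F] U) = A.1 := by
    rcases subsingleton_or_nontrivial (Fin (finrank F U)) with hs | hs
    · refine ⟨1, K.one_mem, ?_⟩
      ext i j
      obtain rfl := Subsingleton.elim i j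
      have := A.2
      rw [Matrix.det_eq_elem_of_subsingleton _ i] at this
      simp [this]
    · refine H22.SL_transvection_induction
        (fun A => ∃ g ∈ K, LinearMap.toMatrix b b (g : U →ₗ[F] U) = A.1) ?_ ?_ A
      · intro i j hij c
        obtain ⟨g, hg, e⟩ := hK (b i) (c • b.coord j) (by simp [hij])
        refine ⟨g, hg, ?_⟩
        ext k l
        simp only [LinearMap.toMatrix_apply, LinearEquiv.coe_coe, e,
          Matrix.SpecialLinearGroup.transvection, Matrix.transvection]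
        simp only [map_add, map_smul, Basis.repr_self, LinearMap.smul_apply, Basis.coord_apply,
          Finsupp.add_apply, Finsupp.smul_apply, Finsupp.single_apply, smul_eq_mul,
          Matrix.add_apply, Matrix.single_apply, Matrix.one_apply]
        grind
      · rintro A B ⟨g, hg, e⟩ ⟨g', hg', e'⟩
        refine ⟨g * g', K.mul_mem hg hg', ?_⟩
        rw [Matrix.SpecialLinearGroup.coe_mul, ← e, ← e', ← LinearMap.toMatrix_mul]
        rfl
  obtain ⟨g, hg, e⟩ := key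
  have : g = f := LinearEquiv.toLinearMap_injective ((LinearMap.toMatrix b b).injective e)
  exact this ▸ hg

theorem sp_gen {F U : Type*} [Field F] [AddCommGroup U] [Module F U] [FiniteDimensional F U]
    (K : Subgroup (U ≃ₗ[F] U)) (B : LinearMap.BilinForm F U) (hA : B.IsAlt) (hB : B.Nondegenerate)
    (hK : ∀ (x : U) (c : F), ∃ g ∈ K, ∀ v, g v = v + (c * B x v) • x)
    (f : U ≃ₗ[F] U) (hf : ∀ x y, B (f x) (f y) = B x y) : f ∈ K := by
  have h := (H23.Form.ofAlt_nondeg hA hB).closure_transvections_alt (fun v => hA v) (fun _ => rfl)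
  have hf' : f ∈ (H23.Form.ofAlt B hA).O := (H23.Form.mem_O _).2 ⟨hf, fun _ => rfl⟩
  rw [← h] at hf'
  refine (Subgroup.closure_le K).2 ?_ hf'
  rintro g ⟨-, d, c, -, e⟩
  obtain ⟨k, hk, e'⟩ := hK d c
  have : g = k := LinearEquiv.ext fun v => by rw [e, e', H23.Form.qrefl_apply]; rfl
  exact this ▸ hk

variable {p : ℕ} [Fact p.Prime] {V : Type*} [AddCommGroup V] [Module (ZMod p) V]

/-- pairs of a component, with the trivial ones -/
def EC (C : Set (V × Dual (ZMod p) V)) (x : V) (φ : Dual (ZMod p) V) : Prop :=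
  x = 0 ∨ φ = 0 ∨ (x, φ) ∈ C

/-- components (and the empty set) -/
structure Cl (H : Subgroup (V ≃ₗ[ZMod p] V)) (C : Set (V × Dual (ZMod p) V)) : Prop where
  rel : ∀ a ∈ C, ∀ c ∈ C, Rel H a c
  cl : ∀ a ∈ C, ∀ c, Rel H a c → c ∈ C

/-- common kernel of the axes -/
def AC (C : Set (V × Dual (ZMod p) V)) : Submodule (ZMod p) V := ⨅ c ∈ C, LinearMap.ker c.2

theorem mem_AC {C : Set (V × Dual (ZMod p) V)} {v : V} : v ∈ AC C ↔ ∀ c ∈ C, c.2 v = 0 := by
  simp only [AC, Submodule.mem_iInf, LinearMap.mem_ker]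

/-- the group of a component -/
def KC (C : Set (V × Dual (ZMod p) V)) : Subgroup (V ≃ₗ[ZMod p] V) :=
  Subgroup.closure {g | ∃ c ∈ C, ∀ v, g v = v + c.2 v • c.1}

variable {H : Subgroup (V ≃ₗ[ZMod p] V)} {C : Set (V × Dual (ZMod p) V)}

namespace Cl

variable (hC : Cl H C)
include hC

theorem ds {a} (ha : a ∈ C) : DD H a.1 a.2 ∧ a.1 ≠ 0 ∧ a.2 ≠ 0 := (hC.rel a ha a ha).1

theorem pp {x} : PP (EC C) x ↔ ∃ φ, (x, φ) ∈ C := by
  constructor
  · rintro ⟨h1, φ, h2, h3 | h3 | h3⟩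
    exacts [absurd h3 h1, absurd h3 h2, ⟨φ, h3⟩]
  · rintro ⟨φ, h⟩
    exact ⟨(hC.ds h).2.1, φ, (hC.ds h).2.2, Or.inr (Or.inr h)⟩

theorem qq {φ} : QQ (EC C) φ ↔ ∃ x, (x, φ) ∈ C := by
  constructor
  · rintro ⟨h1, x, h2, h3 | h3 | h3⟩
    exacts [absurd h3 h2, absurd h3 h1, ⟨x, h3⟩]
  · rintro ⟨x, h⟩
    exact ⟨(hC.ds h).2.2, x, (hC.ds h).2.1, Or.inr (Or.inr h)⟩

theorem dd {x φ} (h : EC C x φ) : DD H x φ := by
  rcases h with rfl | rfl | h
  exacts [(DD.tv H).zl _, (DD.tv H).zr _, (hC.ds h).1]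

theorem mem_A {v} : v ∈ AC C ↔ ∀ φ, QQ (EC C) φ → ev p V φ v = 0 := by
  rw [mem_AC]
  constructor
  · intro h φ hφ
    obtain ⟨x, hx⟩ := hC.qq.1 hφ
    exact h _ hx
  · intro h c hc
    exact h c.2 (hC.qq.2 ⟨c.1, hc⟩)

theorem mem_U {a} (ha : a ∈ C) : a.1 ∈ UU (ZMod p) (EC C) := PP.mem (hC.pp.2 ⟨a.2, ha⟩)

theorem le_H : KC C ≤ H := by
  refine (Subgroup.closure_le H).2 ?_
  rintro g ⟨c, hc, e⟩
  obtain ⟨-, k, hk, e'⟩ := (hC.ds hc).1
  have : g = k := LinearEquiv.ext fun v => by rw [e, e']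
  exact this ▸ hk

theorem A_inv : Inv (DD H) (AC C) := by
  intro w ω h1 _ h3 v hv
  rw [mem_AC] at hv ⊢
  intro c hc
  by_cases e : c.2 w = 0
  · simp [e]
  · have := hv (w, ω) (hC.cl c hc _ ((hC.rel c hc c hc).tail h1 h3 e))
    simp only at this
    simp [this]

theorem K_mem {g} (hg : g ∈ KC C) :
    (∀ v, g v - v ∈ UU (ZMod p) (EC C)) ∧ ∀ v ∈ AC C, g v = v := by
  induction hg using Subgroup.closure_induction with
  | mem g hg =>
    obtain ⟨c, hc, e⟩ := hg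
    refine ⟨fun v => ?_, fun v hv => ?_⟩
    · rw [e, add_sub_cancel_left]; exact Submodule.smul_mem _ _ (hC.mem_U hc)
    · simp [e, mem_AC.1 hv c hc]
  | one => simp
  | mul g k _ _ i1 i2 =>
    refine ⟨fun v => ?_, fun v hv => ?_⟩
    · simpa using Submodule.add_mem _ (i1.1 (k v)) (i2.1 v)
    · simp [i1.2 v hv, i2.2 v hv]
  | inv g _ i1 =>
    refine ⟨fun v => ?_, fun v hv => ?_⟩
    · simpa using Submodule.neg_mem _ (i1.1 (g⁻¹ v))
    · apply g.injective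
      simp [i1.2 v hv]

variable (hG : Gen H) (hp : Odd p) (hO : Cfsg.pCore p H = ⊥)
include hG hp hO

theorem same_l {x φ φ'} (h : (x, φ) ∈ C) (h1 : DD H x φ') : EC C x φ' := by
  by_cases h0 : φ' = 0
  · exact Or.inr (Or.inl h0)
  obtain ⟨d, q1, q2⟩ := (hC.rel _ h _ h).inEdge hG hp hO
  exact Or.inr (Or.inr (hC.cl _ h _ (q1.tail (d := (x, φ')) h1 h0 q2)))

theorem same_r {x x' φ} (h : (x, φ) ∈ C) (h1 : DD H x' φ) : EC C x' φ := by
  by_cases h0 : x' = 0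
  · exact Or.inl h0
  obtain ⟨z, χ, q1, q2, q3⟩ := (hC.rel _ h _ h).two hG hp hO
  have q4 := (hC.rel _ h _ h).tail (d := (z, χ)) q1 (by rintro rfl; simp at q3) q2
  exact Or.inr (Or.inr (hC.cl _ h _ (q4.back hG hp hO (d := (x', φ)) h1 h0 q2)))

theorem tv : TV (ev p V) (EC C) where
  iso := fun h => (hC.dd h).1
  zl := fun _ => Or.inl rfl
  zr := fun _ => Or.inr (Or.inl rfl)
  sl := fun {x φ} c h => by
    rcases h with rfl | rfl | h
    · simp [EC]
    · simp [EC]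
    · exact hC.same_r hG hp hO h ((DD.tv H).sl c (hC.ds h).1)
  sr := fun {x φ} c h => by
    rcases h with rfl | rfl | h
    · simp [EC]
    · simp [EC]
    · exact hC.same_l hG hp hO h ((DD.tv H).sr c (hC.ds h).1)
  al := fun {x x' φ} h h' => by
    rcases h with rfl | rfl | h
    · simpa using h'
    · simp [EC]
    · exact hC.same_r hG hp hO h ((DD.tv H).al (hC.ds h).1 (hC.dd h'))
  ar := fun {x φ φ'} h h' => by
    rcases h with rfl | rfl | h
    · simp [EC]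
    · simpa using h'
    · exact hC.same_l hG hp hO h ((DD.tv H).ar (hC.ds h).1 (hC.dd h'))
  cj := fun {x φ z χ} h h' => by
    have hd := (DD.tv H).cj (hC.dd h) (hC.dd h')
    rcases h with rfl | rfl | h
    · simpa using h'
    · simpa using h'
    rcases h' with rfl | rfl | h'
    · simp [EC]
    · simp [EC]
    by_cases e : φ z = 0
    · simp only [ev_apply, e, zero_smul, add_zero] at hd ⊢
      exact hC.same_l hG hp hO h' hd
    · refine Or.inr (Or.inr (hC.cl _ h _ ((hC.rel _ h _ h).tail (d := (_, _)) hd ?_ ?_)))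
      · simpa using (DD.tv H).nz_r (hC.ds h).1 (hC.ds h').2.2 1
      · simpa [(hC.ds h).1.1] using e

theorem con : Con (ev p V) (EC C) := by
  intro φ y hφ hy
  obtain ⟨x, hx⟩ := hC.qq.1 hφ
  obtain ⟨ψ, hψ⟩ := hC.pp.1 hy
  obtain ⟨z, χ, q1, q2, q3⟩ := (hC.rel _ hx _ hψ).two hG hp hO
  exact ⟨z, χ, Or.inr (Or.inr (hC.cl _ hx _ ((hC.rel _ hx _ hx).tail (d := (z, χ)) q1
    (by rintro rfl; simp at q3) q2))), q2, q3⟩

theorem U_inv : Inv (DD H) (UU (ZMod p) (EC C)) := by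
  intro w ω h1 h2 _ v hv
  by_cases e : ∃ c ∈ C, ω c.1 ≠ 0
  · obtain ⟨c, hc, e⟩ := e
    exact Submodule.smul_mem _ _ (hC.mem_U (hC.cl c hc _
      ((hC.rel c hc c hc).back hG hp hO (d := (w, ω)) h1 h2 e)))
  push Not at e
  have : UU (ZMod p) (EC C) ≤ LinearMap.ker ω := by
    refine Submodule.span_le.2 fun x hx => ?_
    obtain ⟨φ, h⟩ := hC.pp.1 hx
    exact e _ h
  simp [LinearMap.mem_ker.1 (this hv)]

theorem main :
    (∀ u ∈ UU (ZMod p) (EC C), u ∈ AC C → u = 0) ∧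
    (∀ ρ ∈ FF (ZMod p) (EC C), (∀ x ∈ UU (ZMod p) (EC C), ρ x = 0) → ρ = 0) ∧
    ((∀ u ∈ UU (ZMod p) (EC C), ∀ ψ ∈ FF (ZMod p) (EC C), ψ u = 0 → EC C u ψ) ∨
    ∃ B : V →ₗ[ZMod p] V →ₗ[ZMod p] ZMod p, (∀ z ∈ UU (ZMod p) (EC C), B z z = 0) ∧
      (∀ z ∈ UU (ZMod p) (EC C), (∀ u ∈ UU (ZMod p) (EC C), B z u = 0) → z = 0) ∧
      (∀ z χ, EC C z χ → z ≠ 0 → χ ≠ 0 → ∃ c, ∀ u ∈ UU (ZMod p) (EC C), χ u = c * B z u) ∧
      ∀ z ∈ UU (ZMod p) (EC C), ∃ χ, EC C z χ ∧ ∀ u ∈ UU (ZMod p) (EC C), χ u = B z u) := by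
  have h2 : (2 : ZMod p) ≠ 0 := by
    intro h
    have : p ∣ 2 := (ZMod.natCast_eq_zero_iff 2 p).1 (by exact_mod_cast h)
    have h3 := (Nat.prime_dvd_prime_iff_eq Fact.out Nat.prime_two).1 this
    rw [h3] at hp
    exact absurd hp (by decide)
  obtain ⟨q1, q2, q3⟩ := (hC.tv hG hp hO).main (hC.con hG hp hO) h2 (by
    intro z χ χ' r a1 a2 a3 a4 a5 a6 a7 a8
    have hχ : QQ (EC C) χ := ⟨a8, z, a7, a1⟩
    obtain ⟨w, s1, s2⟩ := TV.Q_not_rad (hC.con hG hp hO) hχ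
    have := hG.eq_tv hp hO (hC.U_inv hG hp hO) (R := UU (ZMod p) (EC C) ⊓ AC C)
      (fun x φ b1 b2 b3 v hv => ⟨hC.U_inv hG hp hO x φ b1 b2 b3 v hv.1,
        hC.A_inv x φ b1 b2 b3 v hv.2⟩) inf_le_left (hC.dd a1) (hC.dd a2) a3
      ⟨a4, hC.mem_A.2 a5⟩ a6 (fun v hv => hC.mem_A.1 hv.2 χ hχ) w
    have e := a6 w s1.mem
    simp only [ev_apply] at e s2
    rw [e, smul_add] at this
    simpa [s2] using this)
  exact ⟨fun u hu ha => q1 u hu (hC.mem_A.1 ha), fun ρ hρ h => q2 ρ hρ fun x hx => h x hx.mem, q3⟩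

theorem U_le_A {C'} (hC' : Cl H C') (hne : C ≠ C') : UU (ZMod p) (EC C) ≤ AC C' := by
  refine Submodule.span_le.2 fun x hx => mem_AC.2 fun c hc => ?_
  obtain ⟨φ, h⟩ := hC.pp.1 hx
  by_contra e
  have h' := hC'.cl c hc _ ((hC'.rel c hc c hc).tail (d := (x, φ)) (hC.ds h).1 (hC.ds h).2.2 e)
  exact hne (Set.Subset.antisymm (fun d hd => hC'.cl _ h' _ (hC.rel _ h _ hd))
    (fun d hd => hC.cl _ h _ (hC'.rel _ h' _ hd)))

variable [FiniteDimensional (ZMod p) V]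

omit hG hp hO in
theorem A_eq : AC C = (FF (ZMod p) (EC C)).dualCoannihilator := by
  ext v
  rw [hC.mem_A, Submodule.mem_dualCoannihilator]
  refine ⟨fun h φ hφ => ?_, fun h φ hφ => h φ hφ.mem⟩
  have : FF (ZMod p) (EC C) ≤ LinearMap.ker (Dual.eval (ZMod p) V v) :=
    Submodule.span_le.2 fun φ hφ => h φ hφ
  exact this hφ

theorem compl : IsCompl (UU (ZMod p) (EC C)) (AC C) := by
  obtain ⟨q1, q2, -⟩ := hC.main hG hp hO
  have hd : Disjoint (UU (ZMod p) (EC C)) (AC C) := Submodule.disjoint_def.2 q1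
  refine ⟨hd, codisjoint_iff.2 (Submodule.eq_top_of_disjoint _ _ ?_ hd)⟩
  have e1 := Subspace.finrank_add_finrank_dualCoannihilator_eq (FF (ZMod p) (EC C))
  rw [← hC.A_eq] at e1
  have e2 := LinearMap.finrank_le_finrank_of_injective
    (f := (UU (ZMod p) (EC C)).dualRestrict ∘ₗ (FF (ZMod p) (EC C)).subtype)
    ((injective_iff_map_eq_zero _).2 fun ρ hρ => Subtype.ext (q2 ρ.1 ρ.2 fun x hx =>
      LinearMap.congr_fun hρ ⟨x, hx⟩))
  rw [Subspace.dual_finrank_eq] at e2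
  omega

theorem range (ρ : KC C →* (UU (ZMod p) (EC C) ≃ₗ[ZMod p] UU (ZMod p) (EC C)))
    (hρ : ∀ (h : KC C) (v : UU (ZMod p) (EC C)), (ρ h v : V) = h.1 v) :
    (ρ.range : Set (UU (ZMod p) (EC C) ≃ₗ[ZMod p] UU (ZMod p) (EC C))) =
        {f : UU (ZMod p) (EC C) ≃ₗ[ZMod p] UU (ZMod p) (EC C) |
          LinearMap.det (f : UU (ZMod p) (EC C) →ₗ[ZMod p] UU (ZMod p) (EC C)) = 1} ∨
      ∃ B : LinearMap.BilinForm (ZMod p) (UU (ZMod p) (EC C)), B.IsAlt ∧ B.Nondegenerate ∧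
        (ρ.range : Set (UU (ZMod p) (EC C) ≃ₗ[ZMod p] UU (ZMod p) (EC C))) =
          {f : UU (ZMod p) (EC C) ≃ₗ[ZMod p] UU (ZMod p) (EC C) | ∀ x y, B (f x) (f y) = B x y} := by
  obtain ⟨-, -, q3⟩ := hC.main hG hp hO
  have gen : ∀ (Pr : (UU (ZMod p) (EC C) ≃ₗ[ZMod p] UU (ZMod p) (EC C)) → Prop), Pr 1 →
      (∀ a c, Pr a → Pr c → Pr (a * c)) → (∀ a, Pr a → Pr a⁻¹) →
      (∀ c (hc : c ∈ C) f, (∀ v : UU (ZMod p) (EC C),
        f v = v + c.2 v • (⟨c.1, hC.mem_U hc⟩ : UU (ZMod p) (EC C))) → Pr f) →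
      ∀ f ∈ ρ.range, Pr f := by
    rintro Pr p1 p2 p3 p4 _ ⟨⟨g, hg⟩, rfl⟩
    induction hg using Subgroup.closure_induction with
    | mem g hg =>
      obtain ⟨c, hc, e⟩ := id hg
      exact p4 c hc _ fun v => Subtype.ext (by rw [hρ]; simpa using e v)
    | one => exact (map_one ρ).symm ▸ p1
    | mul g k hg hk i1 i2 => exact (map_mul ρ ⟨g, hg⟩ ⟨k, hk⟩).symm ▸ p2 _ _ i1 i2
    | inv g hg i1 => exact (map_inv ρ ⟨g, hg⟩).symm ▸ p3 _ i1
  have ex : ∀ (x : UU (ZMod p) (EC C)) χ, EC C x χ →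
      ∃ g ∈ ρ.range, ∀ v, g v = v + χ v • x := by
    intro x χ h
    rcases id h with e | rfl | e
    · exact ⟨1, ρ.range.one_mem, fun v => Subtype.ext (by simp [e])⟩
    · exact ⟨1, ρ.range.one_mem, by simp⟩
    obtain ⟨-, g, -, e'⟩ := hC.dd h
    exact ⟨ρ ⟨g, Subgroup.subset_closure ⟨_, e, e'⟩⟩, ⟨_, rfl⟩, fun v => Subtype.ext (by
      rw [hρ]; simpa using e' v)⟩
  rcases q3 with q3 | ⟨B, b1, b2, b3, b4⟩
  · left
    refine Set.Subset.antisymm (fun f hf => gen (fun f =>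
      LinearMap.det (f : UU (ZMod p) (EC C) →ₗ[ZMod p] UU (ZMod p) (EC C)) = 1) (by simp)
      (fun a c h1 h2 => ?_) (fun a h1 => ?_)
      (fun c hc f e => ?_) f hf) (fun f hf => sl_gen _ (fun x φ h0 => ?_) f hf)
    · rw [LinearEquiv.coe_toLinearMap_mul, map_mul, h1, h2, one_mul]
    · have := LinearEquiv.det_coe_symm a
      rw [h1, inv_one] at this
      exact this
    · have : (f : UU (ZMod p) (EC C) →ₗ[ZMod p] UU (ZMod p) (EC C)) = LinearMap.transvection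
          (c.2.domRestrict (UU (ZMod p) (EC C))) ⟨c.1, hC.mem_U hc⟩ :=
        LinearMap.ext fun v => by rw [LinearMap.transvection.apply]; exact e v
      rw [this, LinearMap.transvection.det]
      simp [(hC.ds hc).1.1]
    · let π := (UU (ZMod p) (EC C)).projectionOnto (AC C) (hC.compl hG hp hO)
      have hπ : ∀ v : UU (ZMod p) (EC C), π v = v := fun v => by simp [π]
      have hm : φ ∘ₗ π ∈ FF (ZMod p) (EC C) := by
        rw [← Subspace.dualCoannihilator_dualAnnihilator_eq (W := FF (ZMod p) (EC C)),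
          ← hC.A_eq, Submodule.mem_dualAnnihilator]
        intro v hv
        have : π v = 0 := by simpa [π] using hv
        simp [this]
      obtain ⟨g, hg, e⟩ := ex x _ (q3 x x.2 _ hm (by simp [hπ, h0]))
      exact ⟨g, hg, fun v => by simpa [hπ] using e v⟩
  · right
    let B' : LinearMap.BilinForm (ZMod p) (UU (ZMod p) (EC C)) :=
      B.compl₁₂ (UU (ZMod p) (EC C)).subtype (UU (ZMod p) (EC C)).subtype
    have hB' : ∀ x y, B' x y = B x y := fun _ _ => rfl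
    have hA : B'.IsAlt := fun x => b1 x x.2
    have hN : B'.Nondegenerate := by
      refine hA.isRefl.nondegenerate_iff_separatingLeft.2 ?_
      exact fun x hx => Subtype.ext (b2 x x.2 fun u hu => hx ⟨u, hu⟩)
    refine ⟨B', hA, hN, Set.Subset.antisymm (fun f hf => gen
      (fun f => ∀ x y, B' (f x) (f y) = B' x y) (by simp) (fun a c h1 h2 x y => ?_)
      (fun a h1 x y => ?_) (fun c hc f e x y => ?_) f hf)
      (fun f hf => sp_gen _ B' hA hN (fun x c => ?_) f hf)⟩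
    · rw [LinearEquiv.mul_apply, LinearEquiv.mul_apply, h1, h2]
    · rw [← h1]; simp
    · obtain ⟨k, hk⟩ := b3 c.1 c.2 (Or.inr (Or.inr hc)) (hC.ds hc).2.1 (hC.ds hc).2.2
      have s1 := hA ⟨c.1, hC.mem_U hc⟩
      have s2 := hA.neg_eq x ⟨c.1, hC.mem_U hc⟩
      rw [e, e, hk x x.2, hk y y.2, ← hB' ⟨c.1, hC.mem_U hc⟩, ← hB' ⟨c.1, hC.mem_U hc⟩]
      simp only [map_add, map_smul, LinearMap.add_apply, LinearMap.smul_apply, smul_eq_mul, s1]
      linear_combination (-k * B' ⟨c.1, hC.mem_U hc⟩ y) * s2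
    · obtain ⟨χ, s1, s2⟩ := b4 x x.2
      obtain ⟨g, hg, e⟩ := ex x _ ((hC.tv hG hp hO).sr c s1)
      exact ⟨g, hg, fun v => by rw [e, hB', ← s2 v v.2]; simp⟩

end Cl

end H11.McL
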